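import Mathlib
import Cfsg.Agent.Helper5.BlkCount
import Cfsg.Agent.Helper22.BlkRank2

/-!
# Blocks and classes of a given exact defect (helper22)

Built on helper5's `BlkCount`/`BlkDefect`.

* `defect_ge_of_blockCoeff`: a class with a unit block-idempotent coefficient has defect at most
  the defect of the block.
* `exact_defect_congr`: for `χ` in a block of defect `σ` and the Osima indicator `c` of a block
  of defect `σ`, `c χ` is congruent to the partial sum of `specFun c * centralChar χ` over the
  `p`-regular classes of defect exactly `σ`.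
-/

set_option autoImplicit false

namespace Cfsg.Agent.Helper22

open Cfsg Cfsg.Agent.Helper24 Cfsg.Agent.Helper5

universe u

theorem card_centralizer_conj {G : Type u} [Group G] [Finite G] (g t : G) :
    Nat.card (Subgroup.centralizer ({t * g * t⁻¹} : Set G)) =
      Nat.card (Subgroup.centralizer ({g} : Set G)) := by
  classical
  haveI := Fintype.ofFinite G
  have h1 := Subgroup.card_mul_index (Subgroup.centralizer ({t * g * t⁻¹} : Set G))
  have h2 := Subgroup.card_mul_index (Subgroup.centralizer ({g} : Set G))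
  rw [index_centralizer_conj g t, ← h2] at h1
  exact Nat.eq_of_mul_eq_mul_right (Nat.pos_of_ne_zero Subgroup.index_ne_zero_of_finite) h1

section Blocks

variable {G : Type u} [Group G] [Fintype G]

theorem defect_ge_of_blockCoeff {p : ℕ} [Fact p.Prime] {M : Ideal AlgInt}
    (hM : IsPModular p M) [hMp : M.IsPrime] (χ₀ : IrrCharacter G) (g : G)
    (hg : ¬ MemLocalIdeal M (blockCoeff (blockOf M (χ₀ : G → ℂ)) g)) :
    (Nat.card (Subgroup.centralizer ({g} : Set G))).factorization p
      ≤ blockDefect p (blockOf M (χ₀ : G → ℂ)) := by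
  have hp := hM.1
  obtain ⟨Q⟩ := (inferInstance : Nonempty (Sylow p (Subgroup.centralizer ({g} : Set G))))
  obtain ⟨D, hD⟩ : ∃ D : Subgroup G, D = (Q : Subgroup (Subgroup.centralizer
      ({g} : Set G))).map (Subgroup.centralizer ({g} : Set G)).subtype := ⟨_, rfl⟩
  have hDp : IsPGroup p D := by
    rw [hD]
    exact Q.2.map _
  have hDC : D ≤ Subgroup.centralizer ({g} : Set G) := by
    rw [hD]
    exact Subgroup.map_subtype_le _
  have hDcard : Nat.card D
      = p ^ (Nat.card (Subgroup.centralizer ({g} : Set G))).factorization p := by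
    rw [hD, Subgroup.card_map_of_injective (Subgroup.subtype_injective _)]
    exact Sylow.card_eq_multiplicity Q
  have hDg : ∀ u ∈ D, u * g = g * u := fun u hu =>
    Subgroup.mem_centralizer_singleton_iff.mp (hDC hu)
  obtain ⟨χ, hχ, hle⟩ := exists_degree_val_le hM χ₀ g hg D hDp hDg
  have hfac : (Nat.card D).factorization p
      = (Nat.card (Subgroup.centralizer ({g} : Set G))).factorization p := by
    rw [hDcard, hp.factorization_pow, Finsupp.single_eq_same]
  have hinf : sInf ((fun χ : IrrCharacter G => (charDegree (χ : G → ℂ)).factorization p)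
      '' blockOf M (χ₀ : G → ℂ)) ≤ (charDegree (χ : G → ℂ)).factorization p :=
    Nat.sInf_le ⟨χ, hχ, rfl⟩
  unfold blockDefect
  omega

theorem exact_defect_congr [Fintype (ConjClasses G)] {p : ℕ} [Fact p.Prime] {M : Ideal AlgInt}
    (hM : IsPModular p M) [hMp : M.IsPrime] (σ : ℕ) (χ χ₀ : IrrCharacter G)
    (hχ : blockDefect p (blockOf M (χ : G → ℂ)) = σ)
    (hχ₀ : blockDefect p (blockOf M (χ₀ : G → ℂ)) = σ)
    (c : IrrCharacter G → ℂ) (hc : c ∈ specRing M G)
    (hcv : ∀ ψ : IrrCharacter G, (SameBlock M (χ₀ : G → ℂ) (ψ : G → ℂ) → c ψ = 1) ∧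
      (¬ SameBlock M (χ₀ : G → ℂ) (ψ : G → ℂ) → c ψ = 0))
    [DecidablePred fun C : ConjClasses G => ∃ g : G, ConjClasses.mk g = C ∧ ¬ p ∣ orderOf g ∧
      (Nat.card (Subgroup.centralizer ({g} : Set G))).factorization p = σ] :
    MemLocalIdeal M (c χ - ∑ C ∈ Finset.univ.filter (fun C : ConjClasses G => ∃ g : G,
      ConjClasses.mk g = C ∧ ¬ p ∣ orderOf g ∧
      (Nat.card (Subgroup.centralizer ({g} : Set G))).factorization p = σ),
      specFun c C.out * centralChar (χ : G → ℂ) C.out) := by
  have hcoef : ∀ g : G, blockCoeff (blockOf M (χ₀ : G → ℂ)) g = specFun c g := fun g =>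
    blockCoeff_eq_specFun (blockOf M (χ₀ : G → ℂ)) c (fun ψ hψ => (hcv ψ).1 hψ)
      (fun ψ hψ => (hcv ψ).2 hψ) g
  have hsplit := spec_value_classes c χ
  rw [← Finset.sum_filter_add_sum_filter_not Finset.univ
    (fun C : ConjClasses G => ∃ g : G, ConjClasses.mk g = C ∧ ¬ p ∣ orderOf g ∧
      (Nat.card (Subgroup.centralizer ({g} : Set G))).factorization p = σ)] at hsplit
  rw [hsplit, add_sub_cancel_left]
  refine memLocalIdeal_sum _ _ fun C hC => ?_
  have hnP := (Finset.mem_filter.mp hC).2
  have hmk : ConjClasses.mk C.out = C := Quotient.out_eq _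
  by_cases hreg : p ∣ orderOf C.out
  · have hβ : MemLocalIdeal M (specFun c C.out) := by
      by_contra hnot
      rw [← hcoef] at hnot
      exact pRegular_of_blockCoeff hM χ₀ C.out hnot hreg
    rw [mul_comm]
    exact memLocalIdeal_mul_left (centralChar_memLocalRing _ _) hβ
  · have hne : (Nat.card (Subgroup.centralizer ({C.out} : Set G))).factorization p ≠ σ :=
      fun hd => hnP ⟨C.out, hmk, hreg, hd⟩
    rcases lt_or_gt_of_ne hne with hlt | hgt
    · have hω : MemLocalIdeal M (centralChar (χ : G → ℂ) C.out) := by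
        by_contra hnot
        have h5 := blockDefect_le_of_centralChar hM χ C.out hnot
        omega
      exact memLocalIdeal_mul_left (hc _) hω
    · have hβ : MemLocalIdeal M (specFun c C.out) := by
        by_contra hnot
        rw [← hcoef] at hnot
        have h5 := defect_ge_of_blockCoeff hM χ₀ C.out hnot
        omega
      rw [mul_comm]
      exact memLocalIdeal_mul_left (centralChar_memLocalRing _ _) hβ

end Blocks

end Cfsg.Agent.Helper22
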