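import Mathlib
import Cfsg.Agent.Helper22.BlkExact
import Cfsg.Agent.Helper22.BlkHtZero
import Cfsg.Agent.Helper22.Brauer1
import Cfsg.Agent.Helper22.Brauer3
import Cfsg.Agent.Helper22.Brauer5
import Cfsg.Agent.Helper5.LinChar
import Cfsg.Agent.Helper24.CharInd

/-!
helper22: height-zero characters restrict to a defect group with a linear constituent.

* `constituent_res_trans'` : transitivity of "is a constituent of the restriction".
* `ht0_linear_constituent` : a height-zero member `χ` of a block with defect group `D` has a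
  linear constituent on `D`.
* `ht0_central_ext` : if moreover `χ` lies over the linear character `λ` of a subgroup `Z ≤ D`
  (`χ_Z = χ(1) λ`), then `λ` extends to a linear character of `D`.
-/

set_option autoImplicit false

namespace Cfsg.Agent.Helper22

open Cfsg Cfsg.Agent.Helper24 Cfsg.Agent.Helper5

universe u

variable {G : Type u} [Group G] [Fintype G]

theorem constituent_res_trans' (H N : Subgroup G) [Fintype H] [Fintype N] (hNH : N ≤ H)
    (χ : IrrCharacter G) (η : IrrCharacter H) (θ : IrrCharacter N)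
    (hηθ : classInner (fun n : N => (η : H → ℂ) (Subgroup.inclusion hNH n)) (θ : N → ℂ) ≠ 0)
    (h : classInner (fun h : H => (χ : G → ℂ) h) (η : H → ℂ) ≠ 0) :
    classInner (fun n : N => (χ : G → ℂ) n) (θ : N → ℂ) ≠ 0 := by
  classical
  have hcf : IsClassFunction H (fun h : H => (χ : G → ℂ) h) := by
    intro g h
    show (χ : G → ℂ) ((h : G) * g * (h : G)⁻¹) = (χ : G → ℂ) g
    exact irr_conj χ _ _
  have hexp := classFunction_eq_sum_irr (fun h : H => (χ : G → ℂ) h) hcf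
  have h1 : (fun n : N => (χ : G → ℂ) n) = ∑ ξ : IrrCharacter H,
      classInner (fun h : H => (χ : G → ℂ) h) (ξ : H → ℂ) •
        (fun n : N => (ξ : H → ℂ) (Subgroup.inclusion hNH n)) := by
    funext n
    have h2 := congrFun hexp (Subgroup.inclusion hNH n)
    simp only [Finset.sum_apply, Pi.smul_apply, smul_eq_mul] at h2 ⊢
    exact h2
  rw [h1, classInner_sum_left]
  have hterm : ∀ ξ : IrrCharacter H, ∃ k : ℕ, classInner
      (classInner (fun h : H => (χ : G → ℂ) h) (ξ : H → ℂ) •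
        (fun n : N => (ξ : H → ℂ) (Subgroup.inclusion hNH n))) (θ : N → ℂ) = (k : ℂ) := by
    intro ξ
    obtain ⟨a, ha⟩ := classInner_isCharacter_natCast
      (isCharacter_restrict H (isCharacter_of_isIrrCharacter χ.2))
      (isCharacter_of_isIrrCharacter ξ.2)
    have hcomp : IsCharacter N (fun n : N => (ξ : H → ℂ) (Subgroup.inclusion hNH n)) := by
      obtain ⟨m, ρ, hρ⟩ := isCharacter_of_isIrrCharacter ξ.2
      refine ⟨m, MonoidHom.comp ρ (Subgroup.inclusion hNH), ?_⟩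
      rw [← hρ]
      rfl
    obtain ⟨b, hb⟩ := classInner_isCharacter_natCast hcomp (isCharacter_of_isIrrCharacter θ.2)
    refine ⟨a * b, ?_⟩
    rw [classInner_smul_left, ha, hb, Nat.cast_mul]
  choose k hk using hterm
  rw [Finset.sum_congr rfl (fun ξ _ => hk ξ), ← Nat.cast_sum]
  have hkη : k η ≠ 0 := by
    intro h0
    have h3 := hk η
    rw [h0, Nat.cast_zero, classInner_smul_left] at h3
    rcases mul_eq_zero.mp h3 with h4 | h4
    · exact h h4
    · exact hηθ h4
  have hpos : 0 < ∑ ξ : IrrCharacter H, k ξ :=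
    lt_of_lt_of_le (Nat.pos_of_ne_zero hkη)
      (Finset.single_le_sum (fun _ _ => Nat.zero_le _) (Finset.mem_univ η))
  exact Nat.cast_ne_zero.mpr hpos.ne'

/-- a height-zero member of a block with defect group `D` has a linear constituent on `D`. -/
theorem ht0_linear_constituent {p : ℕ} [Fact p.Prime] {M : Ideal AlgInt} (hM : IsPModular p M)
    (B : Set (IrrCharacter G)) (hB : IsPBlock M B) (D : Subgroup G) [Fintype D]
    (hD : IsDefectGroup p M B D) (χ : IrrCharacter G) (hχ : χ ∈ B)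
    (h0 : blockHeight p B (χ : G → ℂ) = 0) :
    ∃ μ : IrrCharacter D, (μ : D → ℂ) 1 = 1 ∧
      classInner (fun d : D => (χ : G → ℂ) d) (μ : D → ℂ) ≠ 0 := by
  classical
  haveI hMp : M.IsPrime := hM.2.1.isPrime
  have hp : p.Prime := Fact.out
  obtain ⟨χ₀, hχ₀⟩ := hB
  obtain ⟨g, ⟨-, hbc, hcc⟩, Pg, hDeq⟩ := hD
  have hle := defect_ge_of_blockCoeff hM χ₀ g (by rw [← hχ₀]; exact hbc)
  rw [← hχ₀] at hle
  have hidxv : ((Subgroup.centralizer ({g} : Set G)).index).factorization p +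
      (Nat.card (Subgroup.centralizer ({g} : Set G))).factorization p
      = (Nat.card G).factorization p := by
    have hmul := Subgroup.card_mul_index (Subgroup.centralizer ({g} : Set G))
    have hi0 : (Subgroup.centralizer ({g} : Set G)).index ≠ 0 := Subgroup.index_ne_zero_of_finite
    have hC0 : Nat.card (Subgroup.centralizer ({g} : Set G)) ≠ 0 := Nat.card_pos.ne'
    rw [← hmul, Nat.factorization_mul hC0 hi0, Finsupp.add_apply, add_comm]
  have h1 : sInf ((fun ψ : IrrCharacter G => (charDegree (ψ : G → ℂ)).factorization p) '' B)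
      ≤ (charDegree (χ : G → ℂ)).factorization p := Nat.sInf_le ⟨χ, hχ, rfl⟩
  obtain ⟨hχ1, hχ0, hχdvd⟩ := irr_charDegree_spec χ
  have h3 : (charDegree (χ : G → ℂ)).factorization p ≤ (Nat.card G).factorization p :=
    (Nat.factorization_le_iff_dvd hχ0 Nat.card_pos.ne').mpr hχdvd p
  have hval : (charDegree (χ : G → ℂ)).factorization p ≤
      ((Subgroup.centralizer ({g} : Set G)).index).factorization p := by
    unfold blockDefect at hle
    unfold blockHeight at h0
    omega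
  have hχgJ : ¬ MemLocalIdeal M ((χ : G → ℂ) g) := by
    intro hJ
    apply hcc χ hχ
    have hidx0 : (Subgroup.centralizer ({g} : Set G)).index ≠ 0 :=
      Subgroup.index_ne_zero_of_finite
    have hR : MemLocalRing M (((Subgroup.centralizer ({g} : Set G)).index : ℂ) /
        ((charDegree (χ : G → ℂ) : ℕ) : ℂ)) := (nat_div_mem hM hidx0 hχ0).1.mpr hval
    have e : centralChar (χ : G → ℂ) g =
        (((Subgroup.centralizer ({g} : Set G)).index : ℂ) /
          ((charDegree (χ : G → ℂ) : ℕ) : ℂ)) * (χ : G → ℂ) g := by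
      unfold centralChar
      rw [hχ1]
      ring
    rw [e]
    exact memLocalIdeal_mul_left hR hJ
  -- the subgroup `H = D ⟨g⟩`
  haveI : Fintype ↥(D ⊔ Subgroup.zpowers g) := Fintype.ofFinite _
  have hHle : D ⊔ Subgroup.zpowers g ≤ Subgroup.centralizer ({g} : Set G) := by
    refine sup_le ?_ ?_
    · rw [hDeq]
      rintro _ ⟨y, -, rfl⟩
      exact y.2
    · rw [Subgroup.zpowers_le]
      exact Subgroup.mem_centralizer_iff.mpr
        (fun y hy => by rw [Set.mem_singleton_iff.mp hy])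
  have hgH : g ∈ D ⊔ Subgroup.zpowers g :=
    (le_sup_right : Subgroup.zpowers g ≤ D ⊔ Subgroup.zpowers g) (Subgroup.mem_zpowers g)
  have hcent : ∀ ξ : IrrCharacter ↥(D ⊔ Subgroup.zpowers g),
      (ξ : ↥(D ⊔ Subgroup.zpowers g) → ℂ) ⟨g, hgH⟩ =
        (ξ : ↥(D ⊔ Subgroup.zpowers g) → ℂ) 1 *
          centralChar (ξ : ↥(D ⊔ Subgroup.zpowers g) → ℂ) ⟨g, hgH⟩ := by
    intro ξ
    have htop : Subgroup.centralizer
        ({(⟨g, hgH⟩ : ↥(D ⊔ Subgroup.zpowers g))} : Set ↥(D ⊔ Subgroup.zpowers g)) = ⊤ := by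
      rw [eq_top_iff]
      intro y _
      rw [Subgroup.mem_centralizer_iff]
      intro z hz
      rw [Set.mem_singleton_iff.mp hz]
      apply Subtype.ext
      have hy := hHle y.2
      rw [Subgroup.mem_centralizer_iff] at hy
      exact hy g (Set.mem_singleton g)
    have hne := Cfsg.Agent.Helper5.irr_one_ne_zero ξ
    unfold centralChar
    rw [htop, Subgroup.index_top, Nat.cast_one, one_mul]
    field_simp
  have hcfH : IsClassFunction ↥(D ⊔ Subgroup.zpowers g)
      (fun h : ↥(D ⊔ Subgroup.zpowers g) => (χ : G → ℂ) h) := by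
    intro y h
    show (χ : G → ℂ) ((h : G) * y * (h : G)⁻¹) = (χ : G → ℂ) y
    exact irr_conj χ _ _
  have hexpH := classFunction_eq_sum_irr _ hcfH
  have hχg : (χ : G → ℂ) g = ∑ ξ : IrrCharacter ↥(D ⊔ Subgroup.zpowers g),
      classInner (fun h : ↥(D ⊔ Subgroup.zpowers g) => (χ : G → ℂ) h)
        (ξ : ↥(D ⊔ Subgroup.zpowers g) → ℂ) *
        (ξ : ↥(D ⊔ Subgroup.zpowers g) → ℂ) ⟨g, hgH⟩ := by
    have h2 := congrFun hexpH ⟨g, hgH⟩
    simp only [Finset.sum_apply, Pi.smul_apply, smul_eq_mul] at h2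
    exact h2
  obtain ⟨ξ, hξm, hξd⟩ : ∃ ξ : IrrCharacter ↥(D ⊔ Subgroup.zpowers g),
      classInner (fun h : ↥(D ⊔ Subgroup.zpowers g) => (χ : G → ℂ) h)
        (ξ : ↥(D ⊔ Subgroup.zpowers g) → ℂ) ≠ 0 ∧
      ¬ p ∣ charDegree (ξ : ↥(D ⊔ Subgroup.zpowers g) → ℂ) := by
    by_contra hcon
    push Not at hcon
    apply hχgJ
    rw [hχg]
    refine memLocalIdeal_sum _ _ fun ξ _ => ?_
    obtain ⟨k, hk⟩ := classInner_isCharacter_natCast
      (isCharacter_restrict (D ⊔ Subgroup.zpowers g) (isCharacter_of_isIrrCharacter χ.2))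
      (isCharacter_of_isIrrCharacter ξ.2)
    by_cases hm : classInner (fun h : ↥(D ⊔ Subgroup.zpowers g) => (χ : G → ℂ) h)
        (ξ : ↥(D ⊔ Subgroup.zpowers g) → ℂ) = 0
    · rw [hm, zero_mul]
      exact memLocalIdeal_zero hMp.ne_top
    · obtain ⟨q, hq⟩ := hcon ξ hm
      rw [hk, hcent ξ, (irr_charDegree_spec ξ).1, hq]
      have hJ : MemLocalIdeal M (((p * q : ℕ) : ℂ)) := by
        rw [Nat.cast_mul, mul_comm]
        exact memLocalIdeal_mul_left (natCast_memLocalRing q) (prime_memLocalIdeal hM)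
      have e : (k : ℂ) * (((p * q : ℕ) : ℂ) *
          centralChar (ξ : ↥(D ⊔ Subgroup.zpowers g) → ℂ) ⟨g, hgH⟩) =
          ((k : ℂ) * centralChar (ξ : ↥(D ⊔ Subgroup.zpowers g) → ℂ) ⟨g, hgH⟩) *
            ((p * q : ℕ) : ℂ) := by ring
      rw [e]
      exact memLocalIdeal_mul_left ((locRing M).mul_mem (natCast_memLocalRing k)
        (centralChar_memLocalRing ξ _)) hJ
  -- restrict `ξ` to `D`
  have hDH : D ≤ D ⊔ Subgroup.zpowers g := le_sup_left
  have hcompD : IsCharacter D (fun d : D =>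
      (ξ : ↥(D ⊔ Subgroup.zpowers g) → ℂ) (Subgroup.inclusion hDH d)) := by
    obtain ⟨m, ρ, hρ⟩ := isCharacter_of_isIrrCharacter ξ.2
    refine ⟨m, MonoidHom.comp ρ (Subgroup.inclusion hDH), ?_⟩
    rw [← hρ]
    rfl
  have hexpD := classFunction_eq_sum_irr _ (isCharacter_isClassFunction hcompD)
  have hξ1 : (ξ : ↥(D ⊔ Subgroup.zpowers g) → ℂ) 1 = ∑ μ : IrrCharacter D,
      classInner (fun d : D => (ξ : ↥(D ⊔ Subgroup.zpowers g) → ℂ) (Subgroup.inclusion hDH d))
        (μ : D → ℂ) * (μ : D → ℂ) 1 := by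
    have h2 := congrFun hexpD 1
    simp only [Finset.sum_apply, Pi.smul_apply, smul_eq_mul, map_one] at h2
    exact h2
  have hnD : ∀ μ : IrrCharacter D, ∃ n : ℕ, classInner
      (fun d : D => (ξ : ↥(D ⊔ Subgroup.zpowers g) → ℂ) (Subgroup.inclusion hDH d))
      (μ : D → ℂ) = (n : ℂ) :=
    fun μ => classInner_isCharacter_natCast hcompD (isCharacter_of_isIrrCharacter μ.2)
  choose nD hnD' using hnD
  obtain ⟨μ, hμn, hμd⟩ : ∃ μ : IrrCharacter D, nD μ ≠ 0 ∧ ¬ p ∣ charDegree (μ : D → ℂ) := by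
    by_contra hcon
    push Not at hcon
    apply hξd
    have h3' : ((charDegree (ξ : ↥(D ⊔ Subgroup.zpowers g) → ℂ) : ℕ) : ℂ) =
        ((∑ μ : IrrCharacter D, nD μ * charDegree (μ : D → ℂ) : ℕ) : ℂ) := by
      rw [← (irr_charDegree_spec ξ).1, hξ1, Nat.cast_sum]
      refine Finset.sum_congr rfl fun μ _ => ?_
      rw [hnD' μ, (irr_charDegree_spec μ).1, Nat.cast_mul]
    have h4 : charDegree (ξ : ↥(D ⊔ Subgroup.zpowers g) → ℂ) =
        ∑ μ : IrrCharacter D, nD μ * charDegree (μ : D → ℂ) := by exact_mod_cast h3'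
    rw [h4]
    refine Finset.dvd_sum fun μ _ => ?_
    by_cases hn : nD μ = 0
    · rw [hn, zero_mul]
      exact dvd_zero p
    · exact Dvd.dvd.mul_left (hcon μ hn) _
  have hDp : IsPGroup p D := by
    rw [hDeq]
    exact Pg.isPGroup'.map _
  obtain ⟨kD, hkD⟩ := IsPGroup.iff_card.mp hDp
  obtain ⟨hμ1, hμ0, hμdvd⟩ := irr_charDegree_spec μ
  rw [hkD] at hμdvd
  obtain ⟨j, -, hj⟩ := (Nat.dvd_prime_pow hp).mp hμdvd
  have hj0 : j = 0 := by
    by_contra hne
    exact hμd (by rw [hj]; exact dvd_pow_self p hne)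
  rw [hj0, pow_zero] at hj
  refine ⟨μ, by rw [hμ1, hj, Nat.cast_one], ?_⟩
  exact constituent_res_trans' (D ⊔ Subgroup.zpowers g) D hDH χ ξ μ
    (by rw [hnD' μ]; exact Nat.cast_ne_zero.mpr hμn) hξm

/-- if a height-zero member `χ` of a block with defect group `D` lies over the linear character
`λ` of `Z ≤ D`, then `λ` extends to a linear character of `D`. -/
theorem ht0_central_ext {p : ℕ} [Fact p.Prime] {M : Ideal AlgInt} (hM : IsPModular p M)
    (B : Set (IrrCharacter G)) (hB : IsPBlock M B) (D : Subgroup G) [Fintype D]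
    (hD : IsDefectGroup p M B D) (Z : Subgroup G) [Fintype Z] (hZD : Z ≤ D) (lam : ↥Z →* ℂˣ)
    (χ : IrrCharacter G) (hχ : χ ∈ B)
    (hover : ∀ z : ↥Z, (χ : G → ℂ) z = (χ : G → ℂ) 1 * (lam z : ℂ))
    (h0 : blockHeight p B (χ : G → ℂ) = 0) :
    ∃ μ : ↥D →* ℂˣ, ∀ z : ↥Z, μ ⟨(z : G), hZD z.2⟩ = lam z := by
  classical
  obtain ⟨μ, hμ1, hμχ⟩ := ht0_linear_constituent hM B hB D hD χ hχ h0
  obtain ⟨μh, hμh⟩ := linChar_exists_hom (isCharacter_of_isIrrCharacter μ.2) hμ1
  refine ⟨μh, fun z => ?_⟩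
  obtain ⟨νI, hνI⟩ : ∃ νI : IrrCharacter Z, (νI : Z → ℂ) =
      fun z : Z => ((μh (Subgroup.inclusion hZD z) : ℂˣ) : ℂ) :=
    ⟨⟨_, isIrrCharacter_of_hom (μh.comp (Subgroup.inclusion hZD))⟩, rfl⟩
  obtain ⟨lamI, hlamI⟩ : ∃ lamI : IrrCharacter Z, (lamI : Z → ℂ) =
      fun z : Z => ((lam z : ℂˣ) : ℂ) :=
    ⟨⟨_, isIrrCharacter_of_hom lam⟩, rfl⟩
  have htr := constituent_res_trans' D Z hZD χ μ νI (by
    have e : (fun n : Z => (μ : D → ℂ) (Subgroup.inclusion hZD n)) = (νI : Z → ℂ) := by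
      rw [hνI]
      funext n
      exact (hμh _).symm
    rw [e, irr_orthonormal νI νI, if_pos rfl]
    exact one_ne_zero) hμχ
  have e2 : (fun z : Z => (χ : G → ℂ) z) = (χ : G → ℂ) 1 • (lamI : Z → ℂ) := by
    funext z
    rw [Pi.smul_apply, smul_eq_mul, hlamI]
    exact hover z
  rw [e2, classInner_smul_left, irr_orthonormal lamI νI] at htr
  have heq : lamI = νI := by
    by_contra hne
    rw [if_neg hne, mul_zero] at htr
    exact htr rfl
  have h5 := congrFun (congrArg Subtype.val heq) z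
  rw [hlamI, hνI] at h5
  exact (Units.ext h5).symm

end Cfsg.Agent.Helper22
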