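import Mathlib
import Cfsg.Agent.Helper22.BlkPrinCover
import Cfsg.Agent.Helper22.BlkThird
import Cfsg.Agent.Helper22.Brauer3
import Cfsg.Agent.Helper22.Brauer5
import Cfsg.Agent.Helper5.BlkBr

/-!
helper22: characters of `p'`-degree in the principal block lying over an extendible character
of a normal subgroup.

* `reg_inner_eq` : the inner product of the `p`-regular indicator with an irreducible character.
* `principal_ext_over` : if `H ≤ G` has index prime to `p` and `η ∈ B₀(H)` has degree prime to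
  `p`, some `χ ∈ B₀(G)` of degree prime to `p` lies over `η`.
* `constituent_res_trans` : transitivity of "lies over" along an extension.
* `principal_ext_main`.
-/

set_option autoImplicit false

namespace Cfsg.Agent.Helper22

open Cfsg Cfsg.Agent.Helper24 Cfsg.Agent.Helper5

universe u

variable {G : Type u} [Group G] [Fintype G]

theorem reg_inner_eq {p : ℕ} (F : G → ℂ) (hF : ∀ g, F g = if ¬ p ∣ orderOf g then 1 else 0)
    (χ : IrrCharacter G) :
    classInner F (χ : G → ℂ) = (Nat.card G : ℂ)⁻¹ *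
      ((χ : G → ℂ) 1 * (((χ : G → ℂ) 1)⁻¹ * ∑ g : G, F g * (χ : G → ℂ) g)) := by
  have h1 : (χ : G → ℂ) 1 ≠ 0 := Cfsg.Agent.Helper5.irr_one_ne_zero χ
  rw [classInner_def', mul_inv_cancel_left₀ h1]
  congr 1
  refine Fintype.sum_equiv (Equiv.inv G) _ _ (fun g => ?_)
  show F g * starRingEnd ℂ ((χ : G → ℂ) g) = F g⁻¹ * (χ : G → ℂ) g⁻¹
  rw [irr_inv, hF, hF, orderOf_inv]

/-- if `H ≤ G` has index prime to `p` and `η ∈ B₀(H)` has degree prime to `p`, then some
`χ ∈ B₀(G)` of degree prime to `p` lies over `η`. -/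
theorem principal_ext_over {p : ℕ} [Fact p.Prime] {M : Ideal AlgInt} (hM : IsPModular p M)
    (H : Subgroup G) [Fintype H] (hidx : ¬ p ∣ H.index) (η : IrrCharacter H)
    (hη : η ∈ principalBlock M H) (hdeg : ¬ p ∣ charDegree (η : H → ℂ)) :
    ∃ χ : IrrCharacter G, χ ∈ principalBlock M G ∧ ¬ p ∣ charDegree (χ : G → ℂ) ∧
      classInner (fun h : H => (χ : G → ℂ) h) (η : H → ℂ) ≠ 0 := by
  classical
  haveI hMp : M.IsPrime := hM.2.1.isPrime
  have hp : p.Prime := Fact.out
  obtain ⟨F, hF⟩ : ∃ F : G → ℂ, F = fun g => if ¬ p ∣ orderOf g then 1 else 0 := ⟨_, rfl⟩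
  have hFapp : ∀ g, F g = if ¬ p ∣ orderOf g then 1 else 0 := fun g => by rw [hF]
  have hcl : IsClassFunction G F := by
    intro g h
    have ho : orderOf (h * g * h⁻¹) = orderOf g := (MulAut.conj h).orderOf_eq g
    rw [hFapp, hFapp, ho]
  have hloc : ∀ g, MemLocalRing M (F g) := by
    intro g
    rw [hFapp]
    by_cases hg : p ∣ orderOf g
    · rw [if_neg (not_not.mpr hg)]
      exact (locRing M).zero_mem
    · rw [if_pos hg]
      exact (locRing M).one_mem
  obtain ⟨FH, hFH⟩ : ∃ FH : H → ℂ, FH = fun h => if ¬ p ∣ orderOf h then 1 else 0 := ⟨_, rfl⟩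
  have hFHapp : ∀ h : H, FH h = if ¬ p ∣ orderOf h then 1 else 0 := fun h => by rw [hFH]
  have hFHeq : (fun h : H => F h) = FH := by
    funext h
    rw [hFHapp, hFapp, Subgroup.orderOf_coe]
  have hclH : IsClassFunction H FH := by
    intro g h
    have ho : orderOf (h * g * h⁻¹) = orderOf g := (MulAut.conj h).orderOf_eq g
    rw [hFHapp, hFHapp, ho]
  have hlocH : ∀ h : H, MemLocalRing M (FH h) := by
    intro h
    rw [← hFHeq]
    exact hloc (h : G)
  have h1 := classInner_res_expand H hcl (η : H → ℂ)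
  have hL := reg_inner_eq FH hFHapp η
  obtain ⟨Uη, hUη⟩ : ∃ U : ℂ, U = ((η : H → ℂ) 1)⁻¹ * ∑ h : H, FH h * (η : H → ℂ) h :=
    ⟨_, rfl⟩
  have hUη_not : ¬ MemLocalIdeal M Uη := by
    intro hmem
    have hsb : SameBlock M ((trivIrr H : IrrCharacter H) : H → ℂ) (η : H → ℂ) := hη
    have hcong := classFun_congr hclH hlocH hsb
    rw [← hUη] at hcong
    have h4 := memLocalIdeal_add hMp hcong hmem
    rw [sub_add_cancel] at h4
    have h5 := pReg_sum_not_mem (G := H) (p := p) hM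
    apply h5
    have e : (((trivIrr H : IrrCharacter H) : H → ℂ) 1)⁻¹ *
        ∑ g : H, (if ¬ p ∣ orderOf g then (1 : ℂ) else 0) *
          ((trivIrr H : IrrCharacter H) : H → ℂ) g
        = (((trivIrr H : IrrCharacter H) : H → ℂ) 1)⁻¹ *
        ∑ g : H, FH g * ((trivIrr H : IrrCharacter H) : H → ℂ) g := by
      rw [hFH]
    rw [e]
    exact h4
  by_contra hcon
  push Not at hcon
  have hidx0 : (H.index : ℂ) ≠ 0 := Nat.cast_ne_zero.mpr Subgroup.index_ne_zero_of_finite
  have hH0 : (Nat.card H : ℂ) ≠ 0 := Nat.cast_ne_zero.mpr Nat.card_pos.ne'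
  have hcardeq : (Nat.card G : ℂ) = (Nat.card H : ℂ) * (H.index : ℂ) := by
    rw [← Nat.cast_mul, Subgroup.card_mul_index]
  have hterm : ∀ χ : IrrCharacter G, MemLocalIdeal M ((Nat.card H : ℂ) *
      (classInner F (χ : G → ℂ) * classInner (fun h : H => (χ : G → ℂ) h) (η : H → ℂ))) := by
    intro χ
    obtain ⟨k, hk⟩ := classInner_isCharacter_natCast
      (isCharacter_restrict H (isCharacter_of_isIrrCharacter χ.2))
      (isCharacter_of_isIrrCharacter η.2)
    have hχ1 : (χ : G → ℂ) 1 ≠ 0 := Cfsg.Agent.Helper5.irr_one_ne_zero χ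
    have hre := reg_inner_eq F hFapp χ
    by_cases hχB : χ ∈ principalBlock M G
    · by_cases hχd : p ∣ charDegree (χ : G → ℂ)
      · obtain ⟨hd1, -, -⟩ := irr_charDegree_spec χ
        obtain ⟨q, hq⟩ := hχd
        have hdJ : MemLocalIdeal M ((χ : G → ℂ) 1) := by
          rw [hd1, hq, Nat.cast_mul, mul_comm]
          exact memLocalIdeal_mul_left (natCast_memLocalRing q) (prime_memLocalIdeal hM)
        obtain ⟨S, hS⟩ : ∃ S : ℂ, S = ((χ : G → ℂ) 1)⁻¹ * ∑ g : G, F g * (χ : G → ℂ) g :=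
          ⟨_, rfl⟩
        have hSloc : MemLocalRing M S := by
          rw [hS]
          exact classFun_char_mem F hcl hloc χ
        rw [← hS] at hre
        have e : (Nat.card H : ℂ) * (classInner F (χ : G → ℂ) *
            classInner (fun h : H => (χ : G → ℂ) h) (η : H → ℂ))
            = ((H.index : ℂ)⁻¹ * (S * (k : ℂ))) * (χ : G → ℂ) 1 := by
          rw [hre, hk, hcardeq]
          field_simp
        rw [e]
        exact memLocalIdeal_mul_left ((locRing M).mul_mem (natCast_inv_memLocalRing hM hidx)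
          ((locRing M).mul_mem hSloc (natCast_memLocalRing k))) hdJ
      · rw [hcon χ hχB hχd, mul_zero, mul_zero]
        exact memLocalIdeal_zero hMp.ne_top
    · have h0 : classInner F (χ : G → ℂ) = 0 := by
        by_contra hne
        exact hχB ((classInner_reg_ne_zero_iff hM F hFapp χ).mp hne)
      rw [h0, zero_mul, mul_zero]
      exact memLocalIdeal_zero hMp.ne_top
  have hsumJ : MemLocalIdeal M ((η : H → ℂ) 1 * Uη) := by
    have e : (η : H → ℂ) 1 * Uη = ∑ χ : IrrCharacter G, (Nat.card H : ℂ) *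
        (classInner F (χ : G → ℂ) * classInner (fun h : H => (χ : G → ℂ) h) (η : H → ℂ)) := by
      rw [← Finset.mul_sum, ← h1, hFHeq, hL, ← hUη, mul_inv_cancel_left₀ hH0]
    rw [e]
    exact memLocalIdeal_sum _ _ fun χ _ => hterm χ
  apply hUη_not
  obtain ⟨hd1, hd0, -⟩ := irr_charDegree_spec η
  have hd0' : ((charDegree (η : H → ℂ) : ℕ) : ℂ) ≠ 0 := Nat.cast_ne_zero.mpr hd0
  have e : Uη = ((charDegree (η : H → ℂ) : ℕ) : ℂ)⁻¹ * ((η : H → ℂ) 1 * Uη) := by
    rw [hd1, inv_mul_cancel_left₀ hd0']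
  rw [e]
  exact memLocalIdeal_mul_left (natCast_inv_memLocalRing hM hdeg) hsumJ

/-- if `η ∈ Irr(H)` restricts to `θ ∈ Irr(N)` and `χ` lies over `η`, then `χ` lies over `θ`. -/
theorem constituent_res_trans (H N : Subgroup G) [Fintype H] [Fintype N] (hNH : N ≤ H)
    (χ : IrrCharacter G) (η : IrrCharacter H) (θ : IrrCharacter N)
    (hηθ : ∀ n : N, (η : H → ℂ) (Subgroup.inclusion hNH n) = (θ : N → ℂ) n)
    (h : classInner (fun h : H => (χ : G → ℂ) h) (η : H → ℂ) ≠ 0) :
    classInner (fun n : N => (χ : G → ℂ) n) (θ : N → ℂ) ≠ 0 := by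
  classical
  have hcf : IsClassFunction H (fun h : H => (χ : G → ℂ) h) := by
    intro g h
    show (χ : G → ℂ) ((h : G) * g * (h : G)⁻¹) = (χ : G → ℂ) g
    exact irr_conj χ _ _
  have hexp := classFunction_eq_sum_irr (fun h : H => (χ : G → ℂ) h) hcf
  have h1 : (fun n : N => (χ : G → ℂ) n) = ∑ ξ : IrrCharacter H,
      classInner (fun h : H => (χ : G → ℂ) h) (ξ : H → ℂ) •
        (fun n : N => (ξ : H → ℂ) (Subgroup.inclusion hNH n)) := by
    funext n
    have h2 := congrFun hexp (Subgroup.inclusion hNH n)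
    simp only [Finset.sum_apply, Pi.smul_apply, smul_eq_mul] at h2 ⊢
    exact h2
  rw [h1, classInner_sum_left]
  have hterm : ∀ ξ : IrrCharacter H, ∃ k : ℕ, classInner
      (classInner (fun h : H => (χ : G → ℂ) h) (ξ : H → ℂ) •
        (fun n : N => (ξ : H → ℂ) (Subgroup.inclusion hNH n))) (θ : N → ℂ) = (k : ℂ) := by
    intro ξ
    obtain ⟨a, ha⟩ := classInner_isCharacter_natCast
      (isCharacter_restrict H (isCharacter_of_isIrrCharacter χ.2))
      (isCharacter_of_isIrrCharacter ξ.2)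
    have hcomp : IsCharacter N (fun n : N => (ξ : H → ℂ) (Subgroup.inclusion hNH n)) := by
      obtain ⟨m, ρ, hρ⟩ := isCharacter_of_isIrrCharacter ξ.2
      refine ⟨m, MonoidHom.comp ρ (Subgroup.inclusion hNH), ?_⟩
      rw [← hρ]
      rfl
    obtain ⟨b, hb⟩ := classInner_isCharacter_natCast hcomp (isCharacter_of_isIrrCharacter θ.2)
    refine ⟨a * b, ?_⟩
    rw [classInner_smul_left, ha, hb, Nat.cast_mul]
  choose k hk using hterm
  rw [Finset.sum_congr rfl (fun ξ _ => hk ξ), ← Nat.cast_sum]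
  have hkη : k η ≠ 0 := by
    intro h0
    have h3 := hk η
    have h4 : (fun n : N => (η : H → ℂ) (Subgroup.inclusion hNH n)) = (θ : N → ℂ) :=
      funext hηθ
    rw [h0, Nat.cast_zero, classInner_smul_left, h4, irr_orthonormal θ θ, if_pos rfl,
      mul_one] at h3
    exact h h3
  have hpos : 0 < ∑ ξ : IrrCharacter H, k ξ :=
    lt_of_lt_of_le (Nat.pos_of_ne_zero hkη)
      (Finset.single_le_sum (fun _ _ => Nat.zero_le _) (Finset.mem_univ η))
  exact Nat.cast_ne_zero.mpr hpos.ne'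

/-- a `p'`-degree member of the principal block of a normal subgroup `N` that extends to `NP`
lies under a `p'`-degree member of the principal block of `G`. -/
theorem principal_ext_main {p : ℕ} [Fact p.Prime] {M : Ideal AlgInt} (hM : IsPModular p M)
    (N : Subgroup G) [hN : N.Normal] (P : Sylow p G) (θ : IrrCharacter N)
    (hθ : θ ∈ principalBlock M N) (hdeg : ¬ p ∣ charDegree (θ : N → ℂ))
    (iN : Fintype N) (iH : Fintype ↥(N ⊔ (P : Subgroup G)))
    (η : IrrCharacter ↥(N ⊔ (P : Subgroup G)))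
    (hη : ∀ n : N, (η : ↥(N ⊔ (P : Subgroup G)) → ℂ) (Subgroup.inclusion le_sup_left n) =
      (θ : N → ℂ) n) :
    ∃ χ : IrrCharacter G, χ ∈ principalBlock M G ∧ ¬ p ∣ charDegree (χ : G → ℂ) ∧
      @classInner N _ iN (fun n : N => (χ : G → ℂ) n) (θ : N → ℂ) ≠ 0 := by
  classical
  have hp : p.Prime := Fact.out
  have hidx : ¬ p ∣ (N ⊔ (P : Subgroup G)).index := fun hd =>
    P.not_dvd_index (dvd_trans hd (Subgroup.index_dvd_of_le le_sup_right))
  have e1 : (η : ↥(N ⊔ (P : Subgroup G)) → ℂ) 1 = (θ : N → ℂ) 1 := by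
    have h := hη 1
    rwa [map_one] at h
  have hdegη : ¬ p ∣ charDegree (η : ↥(N ⊔ (P : Subgroup G)) → ℂ) := by
    unfold charDegree
    rw [e1]
    exact hdeg
  -- `p`-regular elements of `NP` lie in `N`
  have hreg : ∀ h : ↥(N ⊔ (P : Subgroup G)), ¬ p ∣ orderOf h → (h : G) ∈ N := by
    intro h hh
    haveI : (N.subgroupOf (N ⊔ (P : Subgroup G))).Normal := Subgroup.normal_subgroupOf
    have hrel : ∃ k : ℕ, (N.subgroupOf (N ⊔ (P : Subgroup G))).index = p ^ k := by
      have h1 : N.relIndex (N ⊔ (P : Subgroup G)) = N.relIndex (P : Subgroup G) :=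
        Subgroup.relIndex_sup_left (P : Subgroup G) N
      have h2 : N.relIndex (P : Subgroup G) ∣ Nat.card (P : Subgroup G) :=
        Subgroup.relIndex_dvd_card N (P : Subgroup G)
      obtain ⟨a, ha⟩ := IsPGroup.iff_card.mp P.isPGroup'
      rw [ha] at h2
      obtain ⟨k, -, hk⟩ := (Nat.dvd_prime_pow hp).mp h2
      exact ⟨k, by rw [← hk, ← h1]; rfl⟩
    have h3 := mem_of_not_dvd_orderOf_of_index (N.subgroupOf (N ⊔ (P : Subgroup G))) hrel hp hh
    exact Subgroup.mem_subgroupOf.mp h3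
  obtain ⟨φ, hφ⟩ : ∃ φ : G → ℂ, φ = fun g => if hg : g ∈ N then
      (if ¬ p ∣ orderOf g then (θ : N → ℂ) ⟨g, hg⟩ else 0) else 0 := ⟨_, rfl⟩
  have hφN : ∀ n : N, φ (n : G) = if ¬ p ∣ orderOf n then (θ : N → ℂ) n else 0 := by
    intro n
    rw [hφ]
    show (if hg : (n : G) ∈ N then
      (if ¬ p ∣ orderOf (n : G) then (θ : N → ℂ) ⟨(n : G), hg⟩ else 0) else 0) = _
    rw [dif_pos n.2, Subgroup.orderOf_coe]
  have hφH : ∀ h : ↥(N ⊔ (P : Subgroup G)), φ (h : G) =
      if ¬ p ∣ orderOf h then (η : ↥(N ⊔ (P : Subgroup G)) → ℂ) h else 0 := by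
    intro h
    rw [hφ]
    show (if hg : (h : G) ∈ N then
      (if ¬ p ∣ orderOf (h : G) then (θ : N → ℂ) ⟨(h : G), hg⟩ else 0) else 0) = _
    rw [Subgroup.orderOf_coe]
    by_cases hh : p ∣ orderOf h
    · rw [if_neg (not_not.mpr hh)]
      by_cases hN' : (h : G) ∈ N
      · rw [dif_pos hN', if_neg (not_not.mpr hh)]
      · rw [dif_neg hN']
    · have hmem := hreg h hh
      rw [dif_pos hmem, if_pos hh, if_pos hh, ← hη ⟨(h : G), hmem⟩]
      rfl
  have hφ0 : ∀ g : G, g ∉ N → φ g = 0 := by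
    intro g hg
    rw [hφ]
    exact dif_neg hg
  have hsumeq : ∑ h : ↥(N ⊔ (P : Subgroup G)), φ (h : G) = ∑ n : N, φ (n : G) := by
    rw [← sum_subgroup_ite (N ⊔ (P : Subgroup G)) φ, ← sum_subgroup_ite N φ]
    refine Finset.sum_congr rfl fun g _ => ?_
    by_cases hg : g ∈ N
    · rw [if_pos hg, if_pos ((le_sup_left : N ≤ N ⊔ (P : Subgroup G)) hg)]
    · rw [if_neg hg, hφ0 g hg]
      split_ifs <;> rfl
  have hηB : η ∈ principalBlock M ↥(N ⊔ (P : Subgroup G)) := by
    rw [principal_iff_reg_sum hM]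
    have hθ' := (principal_iff_reg_sum hM θ).mp hθ
    intro h0
    apply hθ'
    have hc : ∑ x : N, (if ¬ p ∣ orderOf x then (θ : N → ℂ) x else 0)
        = ∑ x : ↥(N ⊔ (P : Subgroup G)),
          (if ¬ p ∣ orderOf x then (η : ↥(N ⊔ (P : Subgroup G)) → ℂ) x else 0) :=
      calc ∑ x : N, (if ¬ p ∣ orderOf x then (θ : N → ℂ) x else 0)
          = ∑ n : N, φ (n : G) := Finset.sum_congr rfl fun n _ => (hφN n).symm
        _ = ∑ h : ↥(N ⊔ (P : Subgroup G)), φ (h : G) := hsumeq.symm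
        _ = _ := Finset.sum_congr rfl fun h _ => hφH h
    exact hc.trans h0
  obtain ⟨χ, hχB, hχd, hχη⟩ := principal_ext_over hM (N ⊔ (P : Subgroup G)) hidx η hηB hdegη
  exact ⟨χ, hχB, hχd, constituent_res_trans (N ⊔ (P : Subgroup G)) N le_sup_left χ η θ hη hχη⟩

end Cfsg.Agent.Helper22
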