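import Mathlib
import Cfsg.Agent.Helper22.BlkIndPart
import Cfsg.Agent.Helper22.Brauer3
import Cfsg.Agent.Helper22.Brauer5
import Cfsg.Agent.Helper24.CharProd
import Cfsg.Agent.Helper24.CharDecomp
import Cfsg.Agent.Helper5.BlkBr

/-!
helper22: counting the `p'`-degree members of a block lying over a character of a normal
subgroup of index divisible by `p`.

* `sq_mod_small` : for `p ≤ 3`, squares of numbers prime to `p` are `1` modulo `p`.
* `relcount_main` : the number of `χ ∈ B` of degree prime to `p` over `θ ∈ Irr(N)` is not `1`, and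
  is divisible by `p` when `p ≤ 3`, provided `N` does not contain a Sylow `p`-subgroup.
-/

set_option autoImplicit false

namespace Cfsg.Agent.Helper22

open Cfsg Cfsg.Agent.Helper24 Cfsg.Agent.Helper5

universe u

theorem sq_mod_small {p m : ℕ} (hp : p.Prime) (h3 : p ≤ 3) (hm : ¬ p ∣ m) : m ^ 2 % p = 1 := by
  have h2 := hp.two_le
  rw [Nat.pow_mod]
  have hlt := Nat.mod_lt m hp.pos
  have hne : m % p ≠ 0 := fun h => hm (Nat.dvd_of_mod_eq_zero h)
  interval_cases p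
  · have h : m % 2 = 1 := by omega
    norm_num [h]
  · have h : m % 3 = 1 ∨ m % 3 = 2 := by omega
    rcases h with h | h <;> norm_num [h]

variable {G : Type u} [Group G] [Fintype G]

theorem relcount_main {p : ℕ} [Fact p.Prime] {M : Ideal AlgInt} (hM : IsPModular p M)
    (P : Sylow p G) (N : Subgroup G) [hN : N.Normal] [Fintype N]
    (hPN : ¬ (P : Subgroup G) ≤ N)
    (B : Set (IrrCharacter G)) (hB : IsPBlock M B) (θ : IrrCharacter N)
    (S : Finset (IrrCharacter G))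
    (hS : ∀ χ, χ ∈ S ↔ (χ ∈ B ∧ ¬ p ∣ charDegree (χ : G → ℂ) ∧
      classInner (fun n : N => (χ : G → ℂ) n) (θ : N → ℂ) ≠ 0)) :
    (S.card = 0 ∨ 2 ≤ S.card) ∧ (p ≤ 3 → p ∣ S.card) := by
  classical
  haveI hMp : M.IsPrime := hM.2.1.isPrime
  have hp : p.Prime := Fact.out
  by_cases hSe : S = ∅
  · rw [hSe, Finset.card_empty]
    exact ⟨Or.inl rfl, fun _ => dvd_zero p⟩
  obtain ⟨χ₁, hχ₁S⟩ := Finset.nonempty_iff_ne_empty.mpr hSe
  obtain ⟨hχ₁B, hχ₁d, hχ₁θ⟩ := (hS χ₁).mp hχ₁S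
  obtain ⟨χ₀, hχ₀⟩ := hB
  obtain ⟨c, hc, hcv⟩ := osima (M := M) χ₀
  have hex : ∀ χ : IrrCharacter G, ∃ e : ℕ,
      classInner (fun n : N => (χ : G → ℂ) n) (θ : N → ℂ) = (e : ℂ) :=
    fun χ => classInner_isCharacter_natCast
      (isCharacter_restrict N (isCharacter_of_isIrrCharacter χ.2))
      (isCharacter_of_isIrrCharacter θ.2)
  choose e he using hex
  obtain ⟨C, hC⟩ : ∃ C : Set (N → ℂ), C = {ψ : N → ℂ | ∃ g : G, ψ =
      fun n : N => (θ : N → ℂ) ⟨g * n * g⁻¹, hN.conj_mem n n.2 g⟩} := ⟨_, rfl⟩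
  have hCfin : C.Finite := by
    have hr : C = Set.range (fun g : G =>
        (fun n : N => (θ : N → ℂ) ⟨g * n * g⁻¹, hN.conj_mem n n.2 g⟩)) := by
      rw [hC]
      ext ψ
      constructor
      · rintro ⟨g, rfl⟩
        exact ⟨g, rfl⟩
      · rintro ⟨g, rfl⟩
        exact ⟨g, rfl⟩
    rw [hr]
    exact Set.finite_range _
  obtain ⟨t, ht⟩ : ∃ t : ℕ, t = hCfin.toFinset.card := ⟨_, rfl⟩
  obtain ⟨hd1, hd0, -⟩ := irr_charDegree_spec θ
  have hdeg : ∀ χ : IrrCharacter G, e χ ≠ 0 →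
      charDegree (χ : G → ℂ) = e χ * (t * charDegree (θ : N → ℂ)) := by
    intro χ hne
    have hne' : classInner (fun n : N => (χ : G → ℂ) n) (θ : N → ℂ) ≠ 0 := by
      rw [he χ]
      exact Nat.cast_ne_zero.mpr hne
    have hcl := clifford_restrict N hN (χ : G → ℂ) χ.2 (θ : N → ℂ) θ.2 hne'
    rw [← hC] at hcl
    have h1 := congrFun hcl 1
    rw [Pi.smul_apply, finsum_mem_eq_finite_toFinset_sum _ hCfin, Finset.sum_apply,
      smul_eq_mul] at h1
    have h2 : ∀ ψ ∈ hCfin.toFinset, ψ 1 = (θ : N → ℂ) 1 := by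
      intro ψ hψ
      rw [Set.Finite.mem_toFinset, hC] at hψ
      obtain ⟨g, rfl⟩ := hψ
      have harg : (⟨g * ((1 : N) : G) * g⁻¹, hN.conj_mem (1 : N) (1 : N).2 g⟩ : N) = 1 := by
        apply Subtype.ext
        show g * ((1 : N) : G) * g⁻¹ = ((1 : N) : G)
        rw [Subgroup.coe_one, mul_one, mul_inv_cancel]
      show (θ : N → ℂ) ⟨g * ((1 : N) : G) * g⁻¹, hN.conj_mem (1 : N) (1 : N).2 g⟩ =
        (θ : N → ℂ) 1
      rw [harg]
    rw [Finset.sum_congr rfl h2, Finset.sum_const, nsmul_eq_mul, ← ht, he χ, hd1] at h1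
    obtain ⟨hχ1, -, -⟩ := irr_charDegree_spec χ
    have h3 : ((charDegree (χ : G → ℂ) : ℕ) : ℂ) =
        ((e χ * (t * charDegree (θ : N → ℂ)) : ℕ) : ℂ) := by
      rw [← hχ1]
      push_cast
      exact h1
    exact_mod_cast h3
  -- facts from `χ₁`
  have he1 : e χ₁ ≠ 0 := fun h0 => hχ₁θ (by rw [he χ₁, h0, Nat.cast_zero])
  have hdeg1 := hdeg χ₁ he1
  have hpt : ¬ p ∣ t := fun h => hχ₁d (by
    rw [hdeg1]
    exact Dvd.dvd.mul_left (Dvd.dvd.mul_right h _) _)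
  have hpd : ¬ p ∣ charDegree (θ : N → ℂ) := fun h => hχ₁d (by
    rw [hdeg1]
    exact Dvd.dvd.mul_left (Dvd.dvd.mul_left h _) _)
  have ht0 : t ≠ 0 := fun h => hpt (by rw [h]; exact dvd_zero p)
  -- `p` divides the index of `N`
  have hpidx : p ∣ N.index := by
    by_contra hnd
    apply hPN
    intro x hx
    rw [← QuotientGroup.eq_one_iff (N := N)]
    obtain ⟨k, hk⟩ := P.isPGroup' ⟨x, hx⟩
    have hk' : x ^ p ^ k = 1 := by
      have := congrArg Subtype.val hk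
      simpa using this
    have hd1' : orderOf (QuotientGroup.mk' N x) ∣ p ^ k :=
      dvd_trans (orderOf_map_dvd (QuotientGroup.mk' N) x) (orderOf_dvd_of_pow_eq_one hk')
    have hd2' : orderOf (QuotientGroup.mk' N x) ∣ N.index := by
      rw [Subgroup.index_eq_card]
      exact orderOf_dvd_natCard _
    have hcop : Nat.Coprime (p ^ k) N.index :=
      Nat.Coprime.pow_left k ((Nat.Prime.coprime_iff_not_dvd hp).mpr hnd)
    exact orderOf_eq_one_iff.mp (Nat.eq_one_of_dvd_coprimes hcop hd1' hd2')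
  have hidxJ : MemLocalIdeal M (N.index : ℂ) := by
    obtain ⟨q, hq⟩ := hpidx
    rw [hq, Nat.cast_mul, mul_comm]
    exact memLocalIdeal_mul_left (natCast_memLocalRing q) (prime_memLocalIdeal hM)
  -- the key local integer
  obtain ⟨X, hX⟩ : ∃ X : ℂ, X = ((θ : N → ℂ) 1)⁻¹ *
      ∑ n : N, specFun c (n : G) * (θ : N → ℂ) n := ⟨_, rfl⟩
  have hΦcl : IsClassFunction N (fun n : N => specFun c (n : G)) := by
    intro n h
    exact specFun_isClassFunction c (n : G) (h : G)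
  have hΦloc : ∀ n : N, MemLocalRing M ((fun n : N => specFun c (n : G)) n) :=
    fun n => mem_specRing.mp hc (n : G)
  have hXloc : MemLocalRing M X := by
    rw [hX]
    exact classFun_char_mem (fun n : N => specFun c (n : G)) hΦcl hΦloc θ
  have hXeq := ind_spec_sum N (θ : N → ℂ) c
  rw [Cfsg.Agent.Helper24.indFun_one] at hXeq
  have hinner : ∀ χ : IrrCharacter G,
      classInner (indFun N (θ : N → ℂ)) (χ : G → ℂ) = (e χ : ℂ) := by
    intro χ
    rw [classInner_indFun N (θ : N → ℂ) (χ : G → ℂ) (irr_isClassFunction χ),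
      classInner_conj_symm, he χ, Complex.conj_natCast]
  obtain ⟨Q, hQ⟩ : ∃ Q : ℕ, Q = ∑ χ : IrrCharacter G, (if χ ∈ B then (e χ) ^ 2 else 0) :=
    ⟨_, rfl⟩
  have hsum : ∑ χ : IrrCharacter G,
      c χ * (classInner (indFun N (θ : N → ℂ)) (χ : G → ℂ) * (χ : G → ℂ) 1)
      = ((t : ℂ) * (charDegree (θ : N → ℂ) : ℂ)) * (Q : ℂ) := by
    rw [hQ, Nat.cast_sum, Finset.mul_sum]
    refine Finset.sum_congr rfl fun χ _ => ?_
    rw [hinner χ]
    by_cases hχB : χ ∈ B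
    · have hsb : SameBlock M (χ₀ : G → ℂ) (χ : G → ℂ) := by
        rw [hχ₀] at hχB
        exact hχB
      rw [if_pos hχB, (hcv χ).1 hsb, one_mul]
      by_cases h0 : e χ = 0
      · rw [h0]
        simp
      · rw [(irr_charDegree_spec χ).1, hdeg χ h0]
        push_cast
        ring
    · have hsb : ¬ SameBlock M (χ₀ : G → ℂ) (χ : G → ℂ) := by
        rw [hχ₀] at hχB
        exact hχB
      rw [if_neg hχB, (hcv χ).2 hsb, zero_mul, Nat.cast_zero, mul_zero]
  rw [← hX, hsum, hd1] at hXeq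
  have ht0' : (t : ℂ) ≠ 0 := Nat.cast_ne_zero.mpr ht0
  have hidx0 : (N.index : ℂ) ≠ 0 := Nat.cast_ne_zero.mpr Subgroup.index_ne_zero_of_finite
  have hd0' : ((charDegree (θ : N → ℂ) : ℕ) : ℂ) ≠ 0 := Nat.cast_ne_zero.mpr hd0
  have hQeq : (Q : ℂ) = (t : ℂ)⁻¹ * (X * (N.index : ℂ)) := by
    rw [hXeq]
    field_simp
  have hQJ : MemLocalIdeal M (Q : ℂ) := by
    rw [hQeq]
    exact memLocalIdeal_mul_left (natCast_inv_memLocalRing hM hpt)
      (memLocalIdeal_mul_left hXloc hidxJ)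
  have hpQ : p ∣ Q := by
    by_contra h
    exact not_memLocalIdeal_natCast hM ((Nat.Prime.coprime_iff_not_dvd hp).mpr h).symm hQJ
  -- arithmetic
  have hSe' : ∀ χ ∈ S, ¬ p ∣ e χ := by
    intro χ hχ hdvd
    obtain ⟨-, hχd, hχθ⟩ := (hS χ).mp hχ
    have h0 : e χ ≠ 0 := fun h0 => hχθ (by rw [he χ, h0, Nat.cast_zero])
    apply hχd
    rw [hdeg χ h0]
    exact Dvd.dvd.mul_right hdvd _
  have hcompl : ∀ χ ∈ Sᶜ, p ∣ (if χ ∈ B then (e χ) ^ 2 else 0) := by
    intro χ hχ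
    rw [Finset.mem_compl] at hχ
    by_cases hχB : χ ∈ B
    · rw [if_pos hχB]
      by_cases h0 : e χ = 0
      · rw [h0]
        exact Dvd.intro 0 rfl
      · have hθne : classInner (fun n : N => (χ : G → ℂ) n) (θ : N → ℂ) ≠ 0 := by
          rw [he χ]
          exact Nat.cast_ne_zero.mpr h0
        have hpd' : p ∣ charDegree (χ : G → ℂ) := by
          by_contra hnd
          exact hχ ((hS χ).mpr ⟨hχB, hnd, hθne⟩)
        rw [hdeg χ h0] at hpd'
        rcases (Nat.Prime.dvd_mul hp).mp hpd' with h | h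
        · exact dvd_pow h two_ne_zero
        · rcases (Nat.Prime.dvd_mul hp).mp h with h' | h'
          · exact absurd h' hpt
          · exact absurd h' hpd
    · rw [if_neg hχB]
      exact dvd_zero p
  have hsplit := Finset.sum_add_sum_compl S
    (fun χ : IrrCharacter G => if χ ∈ B then (e χ) ^ 2 else 0)
  rw [← hQ] at hsplit
  have hSsum : ∑ χ ∈ S, (if χ ∈ B then (e χ) ^ 2 else 0) = ∑ χ ∈ S, (e χ) ^ 2 :=
    Finset.sum_congr rfl fun χ hχ => by rw [if_pos ((hS χ).mp hχ).1]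
  rw [hSsum] at hsplit
  have hpS : p ∣ ∑ χ ∈ S, (e χ) ^ 2 := by
    have h1 : p ∣ ∑ χ ∈ Sᶜ, (if χ ∈ B then (e χ) ^ 2 else 0) := Finset.dvd_sum hcompl
    have h2 : p ∣ ∑ χ ∈ S, (e χ) ^ 2 + ∑ χ ∈ Sᶜ, (if χ ∈ B then (e χ) ^ 2 else 0) := by
      rw [hsplit]
      exact hpQ
    exact (Nat.dvd_add_left h1).mp h2
  refine ⟨?_, ?_⟩
  · have hne1 : S.card ≠ 1 := by
      intro h1
      obtain ⟨χ₂, hχ₂⟩ := Finset.card_eq_one.mp h1
      rw [hχ₂, Finset.sum_singleton] at hpS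
      exact hSe' χ₂ (by rw [hχ₂]; exact Finset.mem_singleton_self _)
        (Nat.Prime.dvd_of_dvd_pow hp hpS)
    omega
  · intro h3
    have hmod : (∑ χ ∈ S, (e χ) ^ 2) % p = S.card % p := by
      rw [Finset.sum_nat_mod, Finset.sum_congr rfl
        (fun χ hχ => sq_mod_small hp h3 (hSe' χ hχ)), Finset.sum_const, smul_eq_mul, mul_one]
    exact Nat.dvd_of_mod_eq_zero (hmod ▸ Nat.mod_eq_zero_of_dvd hpS)

end Cfsg.Agent.Helper22
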