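import Mathlib
import Cfsg.Agent.Helper5.BlkCount
import Cfsg.Agent.Helper5.BlkFMT
import Cfsg.Agent.Helper5.BlkOp
import Cfsg.Agent.Helper5.BlkCen
import Cfsg.Agent.Helper22.IrrKer
import Cfsg.Agent.Helper22.BlkCover
import Cfsg.Agent.Helper24.CharComplete
import Cfsg.Agent.Helper24.CharDecomp

/-!
helper22: counting blocks of a group with a normal Sylow `p`-subgroup against the `p`-regular
classes centralizing it (towards Brauer's count of blocks of full defect).
-/

set_option autoImplicit false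

namespace Cfsg.Agent.Helper22

open Cfsg Cfsg.Agent.Helper24 Cfsg.Agent.Helper5

universe u

section SylCount

variable {H : Type u} [Group H]

/-- conjugating an element commuting with a normal subgroup. -/
theorem sylcount_comm_conj (Q : Subgroup H) [hQn : Q.Normal] {g : H}
    (hg : ∀ q ∈ Q, q * g = g * q) (x : H) : ∀ q ∈ Q, q * (x * g * x⁻¹) = x * g * x⁻¹ * q := by
  intro q hq
  have h1 : x⁻¹ * q * x ∈ Q := by
    have := hQn.conj_mem q hq x⁻¹
    simpa using this
  have h2 := hg _ h1
  calc q * (x * g * x⁻¹) = x * ((x⁻¹ * q * x) * g) * x⁻¹ := by group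
    _ = x * (g * (x⁻¹ * q * x)) * x⁻¹ := by rw [h2]
    _ = x * g * x⁻¹ * q := by group

/-- `p`-regular elements centralizing a normal `p`-subgroup `Q` that are conjugate modulo `Q`
are conjugate. -/
theorem sylcount_lift_isConj {p : ℕ} [Fact p.Prime] (Q : Subgroup H) [hQn : Q.Normal]
    (hQ : IsPGroup p Q) {x y : H} (hx : ¬ p ∣ orderOf x) (hy : ¬ p ∣ orderOf y)
    (hxc : ∀ q ∈ Q, q * x = x * q)
    (h : IsConj (QuotientGroup.mk' Q x) (QuotientGroup.mk' Q y)) : IsConj x y := by
  have hp : p.Prime := Fact.out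
  obtain ⟨cbar, hc⟩ := isConj_iff.mp h
  obtain ⟨c, rfl⟩ := QuotientGroup.mk'_surjective Q cbar
  have hz : ((c * x * c⁻¹ : H) : H ⧸ Q) = (y : H ⧸ Q) := by
    have h1 : QuotientGroup.mk' Q (c * x * c⁻¹) = QuotientGroup.mk' Q y := by
      rw [map_mul, map_mul, map_inv]
      exact hc
    exact h1
  have hu : (c * x * c⁻¹)⁻¹ * y ∈ Q := QuotientGroup.eq.mp hz
  have hzc := sylcount_comm_conj Q hxc c
  have hzo : ¬ p ∣ orderOf (c * x * c⁻¹) := by rw [orderOf_conj_h5]; exact hx
  obtain ⟨z, hzdef⟩ : ∃ z : H, z = c * x * c⁻¹ := ⟨_, rfl⟩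
  rw [← hzdef] at hu hzc hzo
  obtain ⟨w, hwdef⟩ : ∃ w : H, w = z⁻¹ * y := ⟨_, rfl⟩
  rw [← hwdef] at hu
  have hyz : y = z * w := by rw [hwdef]; group
  have hwz : w * z = z * w := hzc w hu
  have hcomm : Commute z⁻¹ y := by
    have h1 : Commute z y := by
      show z * y = y * z
      rw [hyz, mul_assoc, hwz]
    exact h1.inv_left
  have hpow : w ^ (orderOf z * orderOf y) = 1 := by
    rw [hwdef, hcomm.mul_pow, inv_pow, pow_mul, pow_orderOf_eq_one, one_pow, inv_one, one_mul,
      mul_comm, pow_mul, pow_orderOf_eq_one, one_pow]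
  have hw1 : w = 1 := by
    by_contra hne
    obtain ⟨k, hk⟩ := hQ ⟨w, hu⟩
    have hk' : w ^ p ^ k = 1 := by
      have := congrArg Subtype.val hk
      simpa using this
    obtain ⟨j, hj, hoj⟩ := (Nat.dvd_prime_pow hp).mp (orderOf_dvd_of_pow_eq_one hk')
    have hj0 : j ≠ 0 := by
      rintro rfl
      rw [pow_zero, orderOf_eq_one_iff] at hoj
      exact hne hoj
    have hpd : p ∣ orderOf w := by
      rw [hoj]
      exact dvd_pow_self p hj0
    have hpd2 := hpd.trans (orderOf_dvd_of_pow_eq_one hpow)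
    rcases (Nat.Prime.dvd_mul hp).mp hpd2 with h1 | h1
    · exact hzo h1
    · exact hy h1
  rw [hw1, mul_one] at hyz
  rw [hyz, hzdef]
  exact isConj_iff.mpr ⟨c, rfl⟩

variable [Fintype H]

/-- the block of `G` induced by a block of a subgroup is unique. -/
theorem sylcount_induced_unique {M : Ideal AlgInt} [hMp : M.IsPrime] (L : Subgroup H)
    [Fintype L] {b : Set (IrrCharacter L)} {B B' : Set (IrrCharacter H)} (h : IsInducedBlock M L b B)
    (h' : IsInducedBlock M L b B') : B = B' := by
  obtain ⟨ξ₀, hb⟩ := h.1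
  obtain ⟨χ₁, hB⟩ := h.2.1
  obtain ⟨χ₂, hB'⟩ := h'.2.1
  have hξ : ξ₀ ∈ b := by rw [hb]; exact sameBlock_refl _
  have h1 : χ₁ ∈ B := by rw [hB]; exact sameBlock_refl _
  have h2 : χ₂ ∈ B' := by rw [hB']; exact sameBlock_refl _
  have hsb : SameBlock M (χ₁ : H → ℂ) (χ₂ : H → ℂ) := fun g => by
    have a1 := h.2.2 ξ₀ hξ χ₁ h1 g
    have a2 := h'.2.2 ξ₀ hξ χ₂ h2 g
    have := memLocalIdeal_sub a2 a1
    rwa [sub_sub_sub_cancel_left] at this
  rw [hB, hB']
  exact blockOf_eq_of_sameBlock hsb

/-- with a normal Sylow `p`-subgroup `Q`, every block has defect group `Q`. -/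
theorem sylcount_defect_group {p : ℕ} [Fact p.Prime] {M : Ideal AlgInt} (hM : IsPModular p M)
    [hMp : M.IsPrime] (Q : Sylow p H) [hQn : (Q : Subgroup H).Normal] (χ₀ : IrrCharacter H) :
    IsDefectGroup p M (blockOf M (χ₀ : H → ℂ)) (Q : Subgroup H) := by
  obtain ⟨g, hg⟩ := exists_defect_class (M := M) χ₀
  obtain ⟨S⟩ : Nonempty (Sylow p (Subgroup.centralizer ({g} : Set H))) := inferInstance
  have hD : IsDefectGroup p M (blockOf M (χ₀ : H → ℂ))
      ((S : Subgroup (Subgroup.centralizer ({g} : Set H))).map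
        (Subgroup.centralizer ({g} : Set H)).subtype) := ⟨g, hg, S, rfl⟩
  have hle := normal_pGroup_le_defect hM χ₀ (Q : Subgroup H) Q.isPGroup' _ hD
  have hDp : IsPGroup p ↥((S : Subgroup (Subgroup.centralizer ({g} : Set H))).map
      (Subgroup.centralizer ({g} : Set H)).subtype) := S.isPGroup'.map _
  have heq := Q.is_maximal' hDp hle
  rw [heq] at hD
  exact hD

/-- with a normal Sylow `p`-subgroup `Q`, there are at most as many blocks as classes of
`p`-regular elements centralizing `Q`. -/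
theorem sylcount_blocks_le {p : ℕ} [Fact p.Prime] {M : Ideal AlgInt} (hM : IsPModular p M)
    [hMp : M.IsPrime] (Q : Sylow p H) [hQn : (Q : Subgroup H).Normal] :
    Nat.card {B : Set (IrrCharacter H) // IsPBlock M B}
      ≤ Nat.card {C : ConjClasses H // ∀ n : H, ConjClasses.mk n = C →
        ¬ p ∣ orderOf n ∧ ∀ q ∈ (Q : Subgroup H), q * n = n * q} := by
  classical
  have hp : p.Prime := Fact.out
  have hQcard : Nat.card (Q : Subgroup H) = p ^ (Nat.card H).factorization p :=
    Q.card_eq_multiplicity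
  have hfull : ∀ B : Set (IrrCharacter H), IsPBlock M B →
      (Nat.card H).factorization p ≤ blockDefect p B := by
    rintro B ⟨χ₀, rfl⟩
    have hcard := card_defect_group hM χ₀ _ (sylcount_defect_group hM Q χ₀)
    rw [hQcard] at hcard
    exact (Nat.pow_right_injective hp.two_le hcard).le
  have h0 := blocks_le_classes (G := H) hM ((Nat.card H).factorization p)
  have e1 : Nat.card {B : Set (IrrCharacter H) // IsPBlock M B}
      = Nat.card {B : Set (IrrCharacter H) // IsPBlock M B ∧
        (Nat.card H).factorization p ≤ blockDefect p B} :=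
    Nat.card_congr (Equiv.subtypeEquivRight fun B => ⟨fun h => ⟨h, hfull B h⟩, fun h => h.1⟩)
  rw [e1]
  refine h0.trans ?_
  have hprop : ∀ C : ConjClasses H, (∃ g : H, ConjClasses.mk g = C ∧ IsPRegular p g ∧
      (Nat.card H).factorization p
        ≤ (Nat.card (Subgroup.centralizer ({g} : Set H))).factorization p) →
      ∀ n : H, ConjClasses.mk n = C → ¬ p ∣ orderOf n ∧ ∀ q ∈ (Q : Subgroup H), q * n = n * q := by
    rintro C ⟨g, hgC, hreg, hd⟩ n hn
    have hc : IsConj g n := ConjClasses.mk_eq_mk_iff_isConj.mp (hgC.trans hn.symm)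
    obtain ⟨x, hx⟩ := isConj_iff.mp hc
    obtain ⟨S⟩ : Nonempty (Sylow p (Subgroup.centralizer ({g} : Set H))) := inferInstance
    have hScard : Nat.card (S : Subgroup (Subgroup.centralizer ({g} : Set H)))
        = p ^ (Nat.card (Subgroup.centralizer ({g} : Set H))).factorization p :=
      S.card_eq_multiplicity
    have hDp : IsPGroup p ↥((S : Subgroup (Subgroup.centralizer ({g} : Set H))).map
        (Subgroup.centralizer ({g} : Set H)).subtype) := S.isPGroup'.map _
    obtain ⟨Q', hQ'⟩ := hDp.exists_le_sylow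
    have hQQ : Q' = Q := by
      haveI := Sylow.unique_of_normal Q hQn
      exact Subsingleton.elim _ _
    rw [hQQ] at hQ'
    have hDcard : Nat.card ↥((S : Subgroup (Subgroup.centralizer ({g} : Set H))).map
        (Subgroup.centralizer ({g} : Set H)).subtype)
        = Nat.card (S : Subgroup (Subgroup.centralizer ({g} : Set H))) :=
      Subgroup.card_map_of_injective (Subgroup.subtype_injective _)
    have hge : Nat.card (Q : Subgroup H) ≤ Nat.card ↥((S : Subgroup
        (Subgroup.centralizer ({g} : Set H))).map (Subgroup.centralizer ({g} : Set H)).subtype) := by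
      rw [hDcard, hScard, hQcard]
      exact Nat.pow_le_pow_right hp.pos hd
    have hDQ := Subgroup.eq_of_le_of_card_ge hQ' hge
    have hQg : ∀ q ∈ (Q : Subgroup H), q * g = g * q := by
      intro q hq
      rw [← hDQ] at hq
      obtain ⟨q', _, rfl⟩ := hq
      exact Subgroup.mem_centralizer_singleton_iff.mp q'.2
    refine ⟨?_, ?_⟩
    · rw [← hx, orderOf_conj_h5]
      exact hreg
    · rw [← hx]
      exact sylcount_comm_conj (Q : Subgroup H) hQg x
  refine Nat.card_le_card_of_injective
    (fun C : {C : ConjClasses H // ∃ g : H, ConjClasses.mk g = C ∧ IsPRegular p g ∧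
      (Nat.card H).factorization p
        ≤ (Nat.card (Subgroup.centralizer ({g} : Set H))).factorization p} =>
      (⟨C.1, hprop C.1 C.2⟩ : {C : ConjClasses H // ∀ n : H, ConjClasses.mk n = C →
        ¬ p ∣ orderOf n ∧ ∀ q ∈ (Q : Subgroup H), q * n = n * q})) ?_
  intro C C' h
  have h' := Subtype.ext_iff.mp h
  exact Subtype.ext h'

end SylCount

end Cfsg.Agent.Helper22
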