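import Mathlib
import Cfsg.Agent.Helper22.BlkSylCount

/-!
helper22: a lower bound for the number of blocks by classes that stay distinct in a `p'`-quotient.
-/

set_option autoImplicit false

namespace Cfsg.Agent.Helper22

open Cfsg Cfsg.Agent.Helper24 Cfsg.Agent.Helper5

universe u

section SylCount2

variable {H : Type u} [Group H] [Fintype H]

/-- if `f : H → K` is onto a `p'`-group and `S` is a class-closed property whose classes have
`p'`-size and stay distinct in `K`, then there are at least as many blocks as `S`-classes. -/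
theorem sylcount_classes_le_aux {K : Type u} [Group K] [Fintype K] {p : ℕ} [Fact p.Prime]
    {M : Ideal AlgInt} (hM : IsPModular p M) [hMp : M.IsPrime] (f : H →* K)
    (hf : Function.Surjective f) (hK : ¬ p ∣ Nat.card K) (S : H → Prop)
    (hS : ∀ x, S x → ¬ p ∣ (Subgroup.centralizer ({x} : Set H)).index)
    (hlift : ∀ x y, S x → S y → IsConj (f x) (f y) → IsConj x y) :
    Nat.card {C : ConjClasses H // ∀ n : H, ConjClasses.mk n = C → S n}
      ≤ Nat.card {B : Set (IrrCharacter H) // IsPBlock M B} := by
  classical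
  have : Fintype {C : ConjClasses H // ∀ n : H, ConjClasses.mk n = C → S n} := Fintype.ofFinite _
  have : Fintype {B : Set (IrrCharacter H) // IsPBlock M B} := Fintype.ofFinite _
  have hp : p.Prime := Fact.out
  have hf1 : f 1 = 1 := map_one f
  choose χf hχf using fun B : {B : Set (IrrCharacter H) // IsPBlock M B} => B.2
  have hrep : ∀ C : {C : ConjClasses H // ∀ n : H, ConjClasses.mk n = C → S n}, S C.1.out :=
    fun C => C.2 _ (Quotient.out_eq _)
  obtain ⟨u, hu⟩ : ∃ u : {C : ConjClasses H // ∀ n : H, ConjClasses.mk n = C → S n} → ℕ,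
      ∀ C, u C = (Subgroup.centralizer ({C.1.out} : Set H)).index *
        Nat.card (Subgroup.centralizer ({f C.1.out} : Set K)) := ⟨_, fun _ => rfl⟩
  have hup : ∀ C, ¬ p ∣ u C := by
    intro C hdiv
    rw [hu] at hdiv
    rcases (Nat.Prime.dvd_mul hp).mp hdiv with h | h
    · exact hS _ (hrep C) h
    · exact hK (h.trans (Subgroup.card_subgroup_dvd_card _))
  have hu0 : ∀ C, (u C : ℂ) ≠ 0 := fun C => Nat.cast_ne_zero.mpr fun h0 => hup C (h0 ▸ dvd_zero p)
  obtain ⟨a, ha⟩ : ∃ a : IrrCharacter K →
      {C : ConjClasses H // ∀ n : H, ConjClasses.mk n = C → S n} → ℂ,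
      ∀ ψ C, a ψ C = (ψ : K → ℂ) 1 * starRingEnd ℂ ((ψ : K → ℂ) (f C.1.out)) :=
    ⟨_, fun _ _ => rfl⟩
  have haint : ∀ ψ C, MemLocalRing M (a ψ C) := by
    intro ψ C
    rw [ha, ← irr_inv ψ]
    exact (locRing M).mul_mem (integral_mem_locRing (irr_isIntegral ψ 1))
      (integral_mem_locRing (irr_isIntegral ψ _))
  obtain ⟨W, hW⟩ : ∃ W : Matrix {C : ConjClasses H // ∀ n : H, ConjClasses.mk n = C → S n}
      {B : Set (IrrCharacter H) // IsPBlock M B} ℂ,
      ∀ C B, W C B = centralChar (χf B : H → ℂ) C.1.out := ⟨_, fun _ _ => rfl⟩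
  obtain ⟨X, hX⟩ : ∃ X : Matrix {B : Set (IrrCharacter H) // IsPBlock M B}
      {C : ConjClasses H // ∀ n : H, ConjClasses.mk n = C → S n} ℂ,
      ∀ B C, X B C = (u C : ℂ)⁻¹ * ∑ ψ : IrrCharacter K,
        if inflIrr f hf ψ ∈ B.1 then a ψ C else 0 := ⟨_, fun _ _ => rfl⟩
  have key : ∀ C C' : {C : ConjClasses H // ∀ n : H, ConjClasses.mk n = C → S n},
      MemLocalRing M ((W * X) C C') ∧
        MemLocalIdeal M ((W * X) C C' - if C = C' then 1 else 0) := by
    intro C C'
    have hentry : (W * X) C C' = (u C' : ℂ)⁻¹ *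
        ∑ B : {B : Set (IrrCharacter H) // IsPBlock M B},
        ∑ ψ : IrrCharacter K, (if inflIrr f hf ψ ∈ B.1
          then a ψ C' * centralChar (χf B : H → ℂ) C.1.out else 0) := by
      rw [Matrix.mul_apply, Finset.mul_sum]
      refine Finset.sum_congr rfl fun B _ => ?_
      rw [hW, hX, mul_left_comm, Finset.mul_sum]
      congr 1
      refine Finset.sum_congr rfl fun ψ _ => ?_
      by_cases hψ : inflIrr f hf ψ ∈ B.1
      · rw [if_pos hψ, if_pos hψ, mul_comm]
      · rw [if_neg hψ, if_neg hψ, mul_zero]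
    have hT : (u C' : ℂ)⁻¹ * ∑ B : {B : Set (IrrCharacter H) // IsPBlock M B},
        ∑ ψ : IrrCharacter K, (if inflIrr f hf ψ ∈ B.1
          then a ψ C' * centralChar (inflIrr f hf ψ : H → ℂ) C.1.out else 0)
        = if C = C' then 1 else 0 := by
      rw [Finset.sum_comm]
      have hone : ∀ ψ : IrrCharacter K, ∑ B : {B : Set (IrrCharacter H) // IsPBlock M B},
          (if inflIrr f hf ψ ∈ B.1
            then a ψ C' * centralChar (inflIrr f hf ψ : H → ℂ) C.1.out else 0)
          = ((Subgroup.centralizer ({C.1.out} : Set H)).index : ℂ) *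
            ((ψ : K → ℂ) (f C.1.out) * starRingEnd ℂ ((ψ : K → ℂ) (f C'.1.out))) := by
        intro ψ
        rw [Finset.sum_eq_single (⟨blockOf M (inflIrr f hf ψ : H → ℂ), ⟨inflIrr f hf ψ, rfl⟩⟩ :
          {B : Set (IrrCharacter H) // IsPBlock M B})]
        · rw [if_pos (show inflIrr f hf ψ ∈ blockOf M (inflIrr f hf ψ : H → ℂ) from
            sameBlock_refl _), ha]
          unfold centralChar
          rw [inflIrr_apply, inflIrr_apply, hf1]
          have h1 : (ψ : K → ℂ) 1 ≠ 0 := Cfsg.Agent.Helper5.irr_one_ne_zero ψ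
          field_simp
        · intro B _ hB
          rw [if_neg]
          intro hmem
          apply hB
          apply Subtype.ext
          show B.1 = blockOf M (inflIrr f hf ψ : H → ℂ)
          rw [hχf B] at hmem ⊢
          exact blockOf_eq_of_sameBlock hmem
        · intro h
          exact absurd (Finset.mem_univ _) h
      rw [Finset.sum_congr rfl fun ψ _ => hone ψ, ← Finset.mul_sum]
      by_cases hCC : C = C'
      · rw [if_pos hCC, ← hCC, (sum_irr_mul_conj (f C.1.out) (f C.1.out)).1 (IsConj.refl _)]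
        have hval : (u C : ℂ) = ((Subgroup.centralizer ({C.1.out} : Set H)).index : ℂ) *
            (Nat.card (Subgroup.centralizer ({f C.1.out} : Set K)) : ℂ) := by
          rw [hu]
          exact Nat.cast_mul _ _
        rw [← hval]
        exact inv_mul_cancel₀ (hu0 C)
      · have hnc : ¬ IsConj (f C.1.out) (f C'.1.out) := by
          intro hconj
          apply hCC
          have h1 := hlift _ _ (hrep C) (hrep C') hconj
          have h2 : ConjClasses.mk C.1.out = ConjClasses.mk C'.1.out :=
            ConjClasses.mk_eq_mk_iff_isConj.mpr h1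
          have e1 : ConjClasses.mk C.1.out = C.1 := Quotient.out_eq _
          have e2 : ConjClasses.mk C'.1.out = C'.1 := Quotient.out_eq _
          rw [e1, e2] at h2
          exact Subtype.ext h2
        rw [if_neg hCC, (sum_irr_mul_conj (f C.1.out) (f C'.1.out)).2 hnc, mul_zero, mul_zero]
    constructor
    · rw [hentry]
      refine (locRing M).mul_mem (natCast_inv_memLocalRing hM (hup C')) ?_
      refine (locRing M).sum_mem fun B _ => (locRing M).sum_mem fun ψ _ => ?_
      by_cases hψ : inflIrr f hf ψ ∈ B.1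
      · rw [if_pos hψ]
        exact (locRing M).mul_mem (haint ψ C') (centralChar_memLocalRing _ _)
      · rw [if_neg hψ]
        exact (locRing M).zero_mem
    · rw [← hT, hentry, ← mul_sub, ← Finset.sum_sub_distrib]
      refine memLocalIdeal_mul_left (natCast_inv_memLocalRing hM (hup C')) ?_
      refine memLocalIdeal_sum _ _ fun B _ => ?_
      rw [← Finset.sum_sub_distrib]
      refine memLocalIdeal_sum _ _ fun ψ _ => ?_
      by_cases hψ : inflIrr f hf ψ ∈ B.1
      · rw [if_pos hψ, if_pos hψ, ← mul_sub]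
        refine memLocalIdeal_mul_left (haint ψ C') ?_
        have hsb : SameBlock M (χf B : H → ℂ) (inflIrr f hf ψ : H → ℂ) := by
          have h3 := hψ
          rw [hχf B] at h3
          exact h3
        exact hsb C.1.out
      · rw [if_neg hψ, if_neg hψ, sub_zero]
        exact memLocalIdeal_zero hMp.ne_top
  have hdet : (W * X).det ≠ 0 :=
    det_ne_zero_of_congr_one (M := M) (W * X) (fun i j => (key i j).1) (fun i j => (key i j).2)
  have hunit : IsUnit (W * X) := (Matrix.isUnit_iff_isUnit_det _).mpr (isUnit_iff_ne_zero.mpr hdet)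
  have hrank := Matrix.rank_of_isUnit (W * X) hunit
  have h1 := Matrix.rank_mul_le_left W X
  have h2 := Matrix.rank_le_card_width W
  rw [Nat.card_eq_fintype_card, Nat.card_eq_fintype_card]
  omega

end SylCount2

end Cfsg.Agent.Helper22
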