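import Mathlib
import Cfsg.Agent.Helper22.BlkSylCount2
import Cfsg.Agent.Helper22.Brauer3
import Cfsg.Agent.Helper5.BlkDom2
import Cfsg.Agent.Helper5.BlkMinMax
import Cfsg.Agent.Helper5.BlkOrth
import Cfsg.Agent.Helper5.Grp
import Cfsg.Agent.Helper24.CharInd

/-!
helper22: tools for blocks attached to `p`-separated classes.
-/

set_option autoImplicit false

namespace Cfsg.Agent.Helper22

open Cfsg Cfsg.Agent.Helper24 Cfsg.Agent.Helper5

universe u

section Sep

variable {G : Type u} [Group G] [Fintype G]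

/-- the Sylow-coefficient identity: if no product `t * (conjugate of y)` with `1 ≠ t ∈ P₀` is
conjugate to `x`, the weighted second orthogonality sum collapses. -/
theorem sep_identity (P₀ : Subgroup G) [Fintype P₀] (x y : G)
    (H : ∀ t ∈ P₀, ∀ g : G, IsConj (t * g * y * g⁻¹) x → t = 1)
    (hxy : y = x ∨ ¬ IsConj y x) :
    (y = x → ∑ χ : IrrCharacter G, classInner (fun t : P₀ => (χ : G → ℂ) t) (fun _ => (1 : ℂ))
        * (χ : G → ℂ) x⁻¹ * centralChar (χ : G → ℂ) y = (P₀.index : ℂ)) ∧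
    (y ≠ x → ∑ χ : IrrCharacter G, classInner (fun t : P₀ => (χ : G → ℂ) t) (fun _ => (1 : ℂ))
        * (χ : G → ℂ) x⁻¹ * centralChar (χ : G → ℂ) y = 0) := by
  classical
  have hG0 : (Nat.card G : ℂ) ≠ 0 := Nat.cast_ne_zero.mpr Nat.card_pos.ne'
  have hP0 : (Nat.card P₀ : ℂ) ≠ 0 := Nat.cast_ne_zero.mpr Nat.card_pos.ne'
  have h1 : ∀ χ : IrrCharacter G,
      classInner (fun t : P₀ => (χ : G → ℂ) t) (fun _ => (1 : ℂ))
        * (χ : G → ℂ) x⁻¹ * centralChar (χ : G → ℂ) y
      = (Nat.card P₀ : ℂ)⁻¹ * (((Subgroup.centralizer ({y} : Set G)).index : ℂ) / (Nat.card G : ℂ))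
        * ∑ t : P₀, ∑ g : G, (χ : G → ℂ) ((t : G) * g * y * g⁻¹) * starRingEnd ℂ ((χ : G → ℂ) x) := by
    intro χ
    have hχ1 := Cfsg.Agent.Helper5.irr_one_ne_zero χ
    have e1 : ∀ t : P₀, ∑ g : G, (χ : G → ℂ) ((t : G) * g * y * g⁻¹) * starRingEnd ℂ ((χ : G → ℂ) x)
        = (χ : G → ℂ) t * ((Nat.card G : ℂ) * (χ : G → ℂ) y / (χ : G → ℂ) 1
          * starRingEnd ℂ ((χ : G → ℂ) x)) := by
      intro t
      rw [← Finset.sum_mul, sum_conj_mul]
      ring
    rw [Finset.sum_congr rfl fun t _ => e1 t, ← Finset.sum_mul, classInner_def', irr_inv]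
    unfold centralChar
    simp only [map_one, mul_one]
    generalize (∑ t : P₀, (χ : G → ℂ) t) = S
    field_simp
  have h2 : ∑ χ : IrrCharacter G, ∑ t : P₀, ∑ g : G,
      (χ : G → ℂ) ((t : G) * g * y * g⁻¹) * starRingEnd ℂ ((χ : G → ℂ) x)
      = ∑ t : P₀, ∑ g : G, if ((t : G) = 1 ∧ y = x)
          then (Nat.card (Subgroup.centralizer ({x} : Set G)) : ℂ) else 0 := by
    rw [Finset.sum_comm]
    refine Finset.sum_congr rfl fun t _ => ?_
    rw [Finset.sum_comm]
    refine Finset.sum_congr rfl fun g _ => ?_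
    by_cases hc : IsConj ((t : G) * g * y * g⁻¹) x
    · have ht : (t : G) = 1 := H t t.2 g hc
      have hyx : y = x := by
        rcases hxy with h | h
        · exact h
        · exfalso
          apply h
          rw [ht, one_mul] at hc
          exact (isConj_iff.mpr ⟨g, rfl⟩ : IsConj y (g * y * g⁻¹)).trans hc
      rw [if_pos ⟨ht, hyx⟩]
      obtain ⟨c, hc'⟩ := isConj_iff.mp hc
      have hval : ∀ χ : IrrCharacter G, (χ : G → ℂ) ((t : G) * g * y * g⁻¹) = (χ : G → ℂ) x := by
        intro χ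
        rw [← hc', irr_conj]
      rw [Finset.sum_congr rfl fun χ _ => by rw [hval χ]]
      exact (sum_irr_mul_conj x x).1 (IsConj.refl x)
    · rw [if_neg, (sum_irr_mul_conj ((t : G) * g * y * g⁻¹) x).2 hc]
      rintro ⟨ht, hyx⟩
      apply hc
      rw [ht, one_mul, hyx]
      exact (isConj_iff.mpr ⟨g, rfl⟩ : IsConj x (g * x * g⁻¹)).symm
  have key : ∑ χ : IrrCharacter G, classInner (fun t : P₀ => (χ : G → ℂ) t) (fun _ => (1 : ℂ))
        * (χ : G → ℂ) x⁻¹ * centralChar (χ : G → ℂ) y
      = (Nat.card P₀ : ℂ)⁻¹ * (((Subgroup.centralizer ({y} : Set G)).index : ℂ) / (Nat.card G : ℂ))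
        * ∑ t : P₀, ∑ g : G, if ((t : G) = 1 ∧ y = x)
          then (Nat.card (Subgroup.centralizer ({x} : Set G)) : ℂ) else 0 := by
    rw [Finset.sum_congr rfl fun χ _ => h1 χ, ← Finset.mul_sum, h2]
  refine ⟨fun hyx => ?_, fun hyx => ?_⟩
  · rw [key]
    have h3 : ∑ t : P₀, ∑ g : G, (if ((t : G) = 1 ∧ y = x)
          then (Nat.card (Subgroup.centralizer ({x} : Set G)) : ℂ) else 0)
        = (Nat.card G : ℂ) * (Nat.card (Subgroup.centralizer ({x} : Set G)) : ℂ) := by
      rw [Finset.sum_eq_single (1 : P₀)]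
      · rw [if_pos ⟨rfl, hyx⟩, Finset.sum_const, Finset.card_univ, nsmul_eq_mul,
          ← Nat.card_eq_fintype_card]
      · intro t _ ht
        rw [if_neg, Finset.sum_const_zero]
        rintro ⟨h, -⟩
        exact ht (Subtype.ext h)
      · intro h
        exact absurd (Finset.mem_univ _) h
    rw [h3, hyx]
    have hci : (Nat.card (Subgroup.centralizer ({x} : Set G)) : ℂ)
        * ((Subgroup.centralizer ({x} : Set G)).index : ℂ) = (Nat.card G : ℂ) := by
      exact_mod_cast Subgroup.card_mul_index (Subgroup.centralizer ({x} : Set G))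
    have hpi : (Nat.card P₀ : ℂ) * (P₀.index : ℂ) = (Nat.card G : ℂ) := by
      exact_mod_cast Subgroup.card_mul_index P₀
    have hc0 : (Nat.card (Subgroup.centralizer ({x} : Set G)) : ℂ) ≠ 0 :=
      Nat.cast_ne_zero.mpr Nat.card_pos.ne'
    field_simp
    rw [hpi, mul_comm, hci]
  · rw [key]
    have h3 : ∑ t : P₀, ∑ g : G, (if ((t : G) = 1 ∧ y = x)
          then (Nat.card (Subgroup.centralizer ({x} : Set G)) : ℂ) else 0) = 0 := by
      refine Finset.sum_eq_zero fun t _ => Finset.sum_eq_zero fun g _ => ?_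
      rw [if_neg]
      rintro ⟨-, h⟩
      exact hyx h
    rw [h3, mul_zero]

/-- a character of large `p`-part degree vanishes modulo the local ideal on a class of small
`p`-part size. -/
theorem sep_vanish {p : ℕ} [Fact p.Prime] {M : Ideal AlgInt} (hM : IsPModular p M)
    [hMp : M.IsPrime] (χ : IrrCharacter G) (x : G)
    (h : ((Subgroup.centralizer ({x} : Set G)).index).factorization p
      < (charDegree (χ : G → ℂ)).factorization p) :
    MemLocalIdeal M ((χ : G → ℂ) x⁻¹) := by
  obtain ⟨h1, h2, -⟩ := irr_charDegree_spec χ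
  have hidx : (Subgroup.centralizer ({x⁻¹} : Set G)) = (Subgroup.centralizer ({x} : Set G)) := by
    ext g
    rw [Subgroup.mem_centralizer_singleton_iff, Subgroup.mem_centralizer_singleton_iff]
    exact Commute.inv_right_iff
  have hω := centralChar_memLocalRing (M := M) χ x⁻¹
  have hi0 : (Subgroup.centralizer ({x} : Set G)).index ≠ 0 := Subgroup.index_ne_zero_of_finite
  have hfrac := natCast_div_memLocalIdeal hM hi0 h2 h
  have hi : ((Subgroup.centralizer ({x} : Set G)).index : ℂ) ≠ 0 := Nat.cast_ne_zero.mpr hi0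
  have hd : (charDegree (χ : G → ℂ) : ℂ) ≠ 0 := Nat.cast_ne_zero.mpr h2
  have e : (χ : G → ℂ) x⁻¹ = centralChar (χ : G → ℂ) x⁻¹
      * ((charDegree (χ : G → ℂ) : ℂ) / ((Subgroup.centralizer ({x} : Set G)).index : ℂ)) := by
    unfold centralChar
    rw [hidx, h1]
    field_simp
  rw [e]
  exact memLocalIdeal_mul_left hω hfrac

/-- a block whose central character is a unit at `y` and whose defect is at least the
defect of the class of `y` has every Sylow subgroup of `C(y)` as a defect group. -/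
theorem sep_defect_group {p : ℕ} [Fact p.Prime] {M : Ideal AlgInt} (hM : IsPModular p M)
    [hMp : M.IsPrime] (χ₀ : IrrCharacter G) (y : G)
    (hω : ¬ MemLocalIdeal M (centralChar (χ₀ : G → ℂ) y))
    (S : Sylow p (Subgroup.centralizer ({y} : Set G)))
    (hd : (Nat.card (Subgroup.centralizer ({y} : Set G))).factorization p
      ≤ blockDefect p (blockOf M (χ₀ : G → ℂ))) :
    IsDefectGroup p M (blockOf M (χ₀ : G → ℂ))
      ((S : Subgroup (Subgroup.centralizer ({y} : Set G))).map
        (Subgroup.centralizer ({y} : Set G)).subtype) := by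
  have hp : p.Prime := Fact.out
  obtain ⟨g₀, hg₀⟩ := exists_defect_class (M := M) χ₀
  obtain ⟨Q₀⟩ : Nonempty (Sylow p (Subgroup.centralizer ({g₀} : Set G))) := inferInstance
  have hD₀ : IsDefectGroup p M (blockOf M (χ₀ : G → ℂ))
      ((Q₀ : Subgroup (Subgroup.centralizer ({g₀} : Set G))).map
        (Subgroup.centralizer ({g₀} : Set G)).subtype) := ⟨g₀, hg₀, Q₀, rfl⟩
  obtain ⟨c, Q, hcQ⟩ := (min_max hM χ₀ g₀ hg₀ Q₀ y).2 ⟨χ₀, sameBlock_refl _, hω⟩
  have hR := isDefectGroup_conj hM χ₀ _ hD₀ c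
  have hRp : IsPGroup p ↥((((Q₀ : Subgroup (Subgroup.centralizer ({g₀} : Set G))).map
      (Subgroup.centralizer ({g₀} : Set G)).subtype)).map (MulAut.conj c).toMonoidHom) :=
    (Q₀.2.map _).map _
  have hRC := hcQ.trans (Subgroup.map_subtype_le _)
  obtain ⟨z, hz, hzS⟩ := exists_conj_mem_of_sylow_map (Subgroup.centralizer ({y} : Set G)) S _
    hRp hRC
  have hR2 := isDefectGroup_conj hM χ₀ _ hR z
  have hle : ((((Q₀ : Subgroup (Subgroup.centralizer ({g₀} : Set G))).map
      (Subgroup.centralizer ({g₀} : Set G)).subtype)).map (MulAut.conj c).toMonoidHom).map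
        (MulAut.conj z).toMonoidHom
      ≤ (S : Subgroup (Subgroup.centralizer ({y} : Set G))).map
        (Subgroup.centralizer ({y} : Set G)).subtype := by
    rintro _ ⟨q, hq, rfl⟩
    exact hzS q hq
  have hcard1 := card_defect_group hM χ₀ _ hR2
  have hcard2 : Nat.card ↥((S : Subgroup (Subgroup.centralizer ({y} : Set G))).map
      (Subgroup.centralizer ({y} : Set G)).subtype)
      = p ^ (Nat.card (Subgroup.centralizer ({y} : Set G))).factorization p := by
    rw [Subgroup.card_map_of_injective (Subgroup.subtype_injective _)]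
    exact S.card_eq_multiplicity
  have hge : Nat.card ↥((S : Subgroup (Subgroup.centralizer ({y} : Set G))).map
      (Subgroup.centralizer ({y} : Set G)).subtype)
      ≤ Nat.card ↥(((((Q₀ : Subgroup (Subgroup.centralizer ({g₀} : Set G))).map
      (Subgroup.centralizer ({g₀} : Set G)).subtype)).map (MulAut.conj c).toMonoidHom).map
        (MulAut.conj z).toMonoidHom) := by
    rw [hcard1, hcard2]
    exact Nat.pow_le_pow_right hp.pos hd
  have heq := Subgroup.eq_of_le_of_card_ge hle hge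
  rw [← heq]
  exact hR2

/-- matrices over the local ring that are congruent entrywise have congruent determinants. -/
theorem sep_det_congr {M : Ideal AlgInt} [hMp : M.IsPrime] {ι : Type*} [Fintype ι]
    [DecidableEq ι] (A A' : Matrix ι ι ℂ) (h1 : ∀ i j, MemLocalRing M (A i j))
    (h1' : ∀ i j, MemLocalRing M (A' i j)) (h2 : ∀ i j, MemLocalIdeal M (A i j - A' i j)) :
    MemLocalIdeal M (A.det - A'.det) := by
  obtain ⟨X, hX⟩ : ∃ X : Matrix ι ι (locRing M), X = fun i j => ⟨A i j, h1 i j⟩ := ⟨_, rfl⟩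
  obtain ⟨X', hX'⟩ : ∃ X' : Matrix ι ι (locRing M), X' = fun i j => ⟨A' i j, h1' i j⟩ :=
    ⟨_, rfl⟩
  have hmap : (locRing M).subtype.mapMatrix X = A := by
    ext i j
    rw [hX]
    rfl
  have hmap' : (locRing M).subtype.mapMatrix X' = A' := by
    ext i j
    rw [hX']
    rfl
  have hq : (Ideal.Quotient.mk (locIdeal M)).mapMatrix X
      = (Ideal.Quotient.mk (locIdeal M)).mapMatrix X' := by
    ext i j
    rw [RingHom.mapMatrix_apply, RingHom.mapMatrix_apply, Matrix.map_apply, Matrix.map_apply,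
      Ideal.Quotient.eq, mem_locIdeal, hX, hX']
    exact h2 i j
  have hdet : (Ideal.Quotient.mk (locIdeal M)) X.det = (Ideal.Quotient.mk (locIdeal M)) X'.det := by
    rw [RingHom.map_det, RingHom.map_det, hq]
  rw [Ideal.Quotient.eq, mem_locIdeal] at hdet
  have e : ((X.det - X'.det : locRing M) : ℂ) = A.det - A'.det := by
    rw [← hmap, ← hmap', ← RingHom.map_det, ← RingHom.map_det]
    rfl
  rw [← e]
  exact hdet

/-- a ratio of natural numbers with the same `p`-part is a local integer. -/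
theorem sep_ratio {p : ℕ} [Fact p.Prime] {M : Ideal AlgInt} (hM : IsPModular p M)
    [hMp : M.IsPrime] {a b : ℕ} (ha : a ≠ 0)
    (h : a.factorization p = b.factorization p) : MemLocalRing M ((a : ℂ)⁻¹ * (b : ℂ)) := by
  have hp : p.Prime := Fact.out
  have hnd : ¬ p ∣ a / p ^ a.factorization p := Nat.not_dvd_ordCompl hp ha
  have ea : (a : ℂ) = (p : ℂ) ^ a.factorization p * ((a / p ^ a.factorization p : ℕ) : ℂ) := by
    exact_mod_cast (Nat.ordProj_mul_ordCompl_eq_self a p).symm
  have eb : (b : ℂ) = (p : ℂ) ^ a.factorization p * ((b / p ^ b.factorization p : ℕ) : ℂ) := by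
    rw [h]
    exact_mod_cast (Nat.ordProj_mul_ordCompl_eq_self b p).symm
  have hpv : ((p : ℂ) ^ a.factorization p) ≠ 0 := pow_ne_zero _ (Nat.cast_ne_zero.mpr hp.ne_zero)
  have ha' : ((a / p ^ a.factorization p : ℕ) : ℂ) ≠ 0 :=
    Nat.cast_ne_zero.mpr fun h0 => hnd (h0 ▸ dvd_zero p)
  have e : (a : ℂ)⁻¹ * (b : ℂ) = ((a / p ^ a.factorization p : ℕ) : ℂ)⁻¹
      * ((b / p ^ b.factorization p : ℕ) : ℂ) := by
    rw [ea, eb]
    field_simp
  rw [e]
  exact (locRing M).mul_mem (natCast_inv_memLocalRing hM hnd) (natCast_memLocalRing _)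

/-- from a unit determinant of central characters to a unit determinant of character values. -/
theorem sep_det {p : ℕ} [Fact p.Prime] {M : Ideal AlgInt} (hM : IsPModular p M)
    [hMp : M.IsPrime] {r : ℕ} (x : Fin r → G) (χ χ' : Fin r → IrrCharacter G)
    (hsb : ∀ i, SameBlock M (χ' i : G → ℂ) (χ i : G → ℂ))
    (hval : ∀ i, ((Subgroup.centralizer ({x i} : Set G)).index).factorization p
      = (charDegree (χ i : G → ℂ)).factorization p)
    (hdet : MemLocalIdeal M (Matrix.det (Matrix.of fun i j : Fin r => (χ i : G → ℂ) (x j)))) :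
    MemLocalIdeal M
      (Matrix.det (Matrix.of fun i j : Fin r => centralChar (χ' i : G → ℂ) (x j))) := by
  have e1 : (Matrix.of fun i j : Fin r => centralChar (χ i : G → ℂ) (x j))
      = Matrix.of fun i j : Fin r => ((χ i : G → ℂ) 1)⁻¹ *
        (Matrix.of fun i j : Fin r => ((Subgroup.centralizer ({x j} : Set G)).index : ℂ) *
          (Matrix.of fun i j : Fin r => (χ i : G → ℂ) (x j)) i j) i j := by
    ext i j
    simp only [Matrix.of_apply]
    unfold centralChar
    rw [div_eq_inv_mul]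
  have e2 : Matrix.det (Matrix.of fun i j : Fin r => centralChar (χ i : G → ℂ) (x j))
      = (∏ i : Fin r, (((χ i : G → ℂ) 1)⁻¹
          * ((Subgroup.centralizer ({x i} : Set G)).index : ℂ)))
        * Matrix.det (Matrix.of fun i j : Fin r => (χ i : G → ℂ) (x j)) := by
    rw [e1, Matrix.det_mul_column, Matrix.det_mul_row, ← mul_assoc, ← Finset.prod_mul_distrib]
  have hc : MemLocalRing M (∏ i : Fin r, (((χ i : G → ℂ) 1)⁻¹
      * ((Subgroup.centralizer ({x i} : Set G)).index : ℂ))) := by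
    refine (locRing M).prod_mem fun i _ => ?_
    obtain ⟨h1, h2, -⟩ := irr_charDegree_spec (χ i)
    rw [h1]
    exact sep_ratio hM h2 (hval i).symm
  have h3 : MemLocalIdeal M
      (Matrix.det (Matrix.of fun i j : Fin r => centralChar (χ i : G → ℂ) (x j))) := by
    rw [e2]
    exact memLocalIdeal_mul_left hc hdet
  have h4 := sep_det_congr (M := M)
    (Matrix.of fun i j : Fin r => centralChar (χ' i : G → ℂ) (x j))
    (Matrix.of fun i j : Fin r => centralChar (χ i : G → ℂ) (x j))
    (fun i j => centralChar_memLocalRing _ _) (fun i j => centralChar_memLocalRing _ _)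
    (fun i j => hsb i (x j))
  have h5 := memLocalIdeal_add hMp h4 h3
  rwa [sub_add_cancel] at h5

end Sep

end Cfsg.Agent.Helper22
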