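import Mathlib
import Cfsg.Agent.Helper22.BlkSep

/-!
helper22: selecting a nonsingular minor modulo the local ideal.
-/

set_option autoImplicit false

namespace Cfsg.Agent.Helper22

open Cfsg Cfsg.Agent.Helper24 Cfsg.Agent.Helper5

universe u

/-- the local ideal is maximal in the local ring. -/
theorem sep_locIdeal_isMaximal {M : Ideal AlgInt} [hMp : M.IsPrime] :
    (locIdeal M).IsMaximal := by
  rw [Ideal.isMaximal_iff]
  refine ⟨one_notMem_locIdeal, ?_⟩
  intro J z _ hz hzJ
  have hz0 : (z : ℂ) ≠ 0 := by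
    intro h0
    apply hz
    have : z = 0 := Subtype.ext h0
    rw [this]
    exact (locIdeal M).zero_mem
  have hzu : MemLocalRing M ((z : ℂ)⁻¹) :=
    inv_mem_locRing z.2 (fun h => hz (mem_locIdeal.mpr h))
  have h1 : (⟨(z : ℂ)⁻¹, hzu⟩ : locRing M) * z = 1 := Subtype.ext (by
    show (z : ℂ)⁻¹ * (z : ℂ) = 1
    exact inv_mul_cancel₀ hz0)
  rw [← h1]
  exact J.mul_mem_left _ hzJ

/-- a full-rank tall matrix over a field has a nonsingular maximal minor. -/
theorem sep_exists_minor {F : Type*} [Field F] {n : Type*} [Fintype n] [DecidableEq n] {r : ℕ}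
    (Y : Matrix (Fin r) n F) (W : Matrix n (Fin r) F) (c : F) (hc : c ≠ 0)
    (h : Y * W = c • (1 : Matrix (Fin r) (Fin r) F)) :
    ∃ e : Fin r → n, Function.Injective e ∧
      (Matrix.of fun i j : Fin r => W (e i) j).det ≠ 0 := by
  classical
  have hunitYW : IsUnit (Y * W) := by
    rw [h, Matrix.isUnit_iff_isUnit_det, Matrix.det_smul, Matrix.det_one, mul_one]
    exact (isUnit_iff_ne_zero.mpr hc).pow _
  have hr1 : (Y * W).rank = r := by
    rw [Matrix.rank_of_isUnit _ hunitYW, Fintype.card_fin]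
  have hr2 : r ≤ W.rank := by
    have := Matrix.rank_mul_le_right Y W
    omega
  have hr3 : W.rank ≤ r := by
    have := Matrix.rank_le_card_width W
    rwa [Fintype.card_fin] at this
  have hfin : Module.finrank F (Submodule.span F (Set.range W.row)) = r := by
    rw [← Matrix.rank_eq_finrank_span_row]
    omega
  obtain ⟨s, hs, hsspan, hsli⟩ := exists_linearIndependent F (Set.range W.row)
  haveI : Finite s := ((Set.finite_range W.row).subset hs).to_subtype
  haveI : Fintype s := Fintype.ofFinite s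
  have hcard : Fintype.card s = r := by
    have h1 := finrank_span_eq_card hsli
    rw [Subtype.range_coe, hsspan, hfin] at h1
    exact h1.symm
  obtain ⟨eq⟩ : Nonempty (Fin r ≃ s) := ⟨(Fintype.equivFinOfCardEq hcard).symm⟩
  have hchoose : ∀ i : Fin r, ∃ b : n, W.row b = (eq i : Fin r → F) := fun i => hs (eq i).2
  choose e he using hchoose
  refine ⟨e, ?_, ?_⟩
  · intro i i' hii
    have h1 : (eq i : Fin r → F) = eq i' := by rw [← he i, ← he i', hii]
    exact eq.injective (Subtype.ext h1)
  · have hli : LinearIndependent F (fun i : Fin r => W.row (e i)) := by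
      have h1 : (fun i : Fin r => W.row (e i)) = (Subtype.val : s → (Fin r → F)) ∘ eq := by
        funext i
        exact he i
      rw [h1]
      exact hsli.comp _ eq.injective
    have hunit : IsUnit (Matrix.of fun i j : Fin r => W (e i) j) :=
      Matrix.linearIndependent_rows_iff_isUnit.mp hli
    exact ((Matrix.isUnit_iff_isUnit_det _).mp hunit).ne_zero

/-- selection of a minor that is a unit modulo the local ideal. -/
theorem sep_select {M : Ideal AlgInt} [hMp : M.IsPrime] {n : Type*} [Fintype n] [DecidableEq n]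
    {r : ℕ} (Y : Matrix (Fin r) n ℂ) (W : Matrix n (Fin r) ℂ) (c : ℂ)
    (hY : ∀ i b, MemLocalRing M (Y i b)) (hW : ∀ b j, MemLocalRing M (W b j))
    (hc : MemLocalRing M c) (hc' : ¬ MemLocalIdeal M c)
    (h : ∀ i j, MemLocalIdeal M ((Y * W) i j - if i = j then c else 0)) :
    ∃ e : Fin r → n, Function.Injective e ∧
      ¬ MemLocalIdeal M (Matrix.det (Matrix.of fun i j : Fin r => W (e i) j)) := by
  classical
  haveI := sep_locIdeal_isMaximal (M := M)
  letI : Field (locRing M ⧸ locIdeal M) := Ideal.Quotient.field _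
  obtain ⟨Yl, hYl⟩ : ∃ Yl : Matrix (Fin r) n (locRing M), ∀ i b, (Yl i b : ℂ) = Y i b :=
    ⟨fun i b => ⟨Y i b, hY i b⟩, fun _ _ => rfl⟩
  obtain ⟨Wl, hWl⟩ : ∃ Wl : Matrix n (Fin r) (locRing M), ∀ b j, (Wl b j : ℂ) = W b j :=
    ⟨fun b j => ⟨W b j, hW b j⟩, fun _ _ => rfl⟩
  have hYW : Yl.map (Ideal.Quotient.mk (locIdeal M)) * Wl.map (Ideal.Quotient.mk (locIdeal M))
      = (Ideal.Quotient.mk (locIdeal M) ⟨c, hc⟩) •
        (1 : Matrix (Fin r) (Fin r) (locRing M ⧸ locIdeal M)) := by
    ext i j
    rw [← Matrix.map_mul, Matrix.map_apply, Matrix.smul_apply, Matrix.one_apply, smul_eq_mul,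
      mul_ite, mul_one, mul_zero]
    have key : Ideal.Quotient.mk (locIdeal M) ((Yl * Wl) i j)
        = Ideal.Quotient.mk (locIdeal M) (if i = j then (⟨c, hc⟩ : locRing M) else 0) := by
      rw [Ideal.Quotient.eq, mem_locIdeal]
      have hcoe : (((Yl * Wl) i j - (if i = j then (⟨c, hc⟩ : locRing M) else 0) : locRing M) : ℂ)
          = (Y * W) i j - if i = j then c else 0 := by
        show ((Yl * Wl) i j : ℂ) - ((if i = j then (⟨c, hc⟩ : locRing M) else 0 : locRing M) : ℂ)
          = (Y * W) i j - if i = j then c else 0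
        congr 1
        · rw [Matrix.mul_apply, Matrix.mul_apply]
          have h1 := map_sum (locRing M).subtype (fun b : n => Yl i b * Wl b j) Finset.univ
          refine h1.trans (Finset.sum_congr rfl fun b _ => ?_)
          show (Yl i b : ℂ) * (Wl b j : ℂ) = _
          rw [hYl, hWl]
        · by_cases hij : i = j
          · rw [if_pos hij, if_pos hij]
          · rw [if_neg hij, if_neg hij]
            rfl
      rw [hcoe]
      exact h i j
    rw [key]
    by_cases hij : i = j
    · rw [if_pos hij, if_pos hij]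
    · rw [if_neg hij, if_neg hij, map_zero]
  have hc0 : Ideal.Quotient.mk (locIdeal M) (⟨c, hc⟩ : locRing M) ≠ 0 := by
    intro h0
    rw [Ideal.Quotient.eq_zero_iff_mem, mem_locIdeal] at h0
    exact hc' h0
  obtain ⟨e, he, hdet⟩ := sep_exists_minor _ _ _ hc0 hYW
  refine ⟨e, he, fun hmem => hdet ?_⟩
  obtain ⟨Wl', hWl'⟩ : ∃ Wl' : Matrix (Fin r) (Fin r) (locRing M),
      Wl' = Matrix.of fun i j : Fin r => Wl (e i) j := ⟨_, rfl⟩
  have e1 : (locRing M).subtype.mapMatrix Wl' = Matrix.of fun i j : Fin r => W (e i) j := by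
    ext i j
    rw [hWl']
    exact hWl (e i) j
  have e2 : (Ideal.Quotient.mk (locIdeal M)).mapMatrix Wl'
      = Matrix.of fun i j : Fin r => (Wl.map (Ideal.Quotient.mk (locIdeal M))) (e i) j := by
    ext i j
    rw [hWl']
    rfl
  rw [← e2, ← RingHom.map_det, Ideal.Quotient.eq_zero_iff_mem, mem_locIdeal]
  have e3 : ((Wl'.det : locRing M) : ℂ) = Matrix.det (Matrix.of fun i j : Fin r => W (e i) j) := by
    rw [← e1, ← RingHom.map_det]
    rfl
  rw [e3]
  exact hmem

end Cfsg.Agent.Helper22
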