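import Mathlib
import Cfsg.Agent.Helper22.BlkSep2

/-!
helper22: blocks attached to `p`-separated classes with a common defect group.
-/

set_option autoImplicit false

namespace Cfsg.Agent.Helper22

open Cfsg Cfsg.Agent.Helper24 Cfsg.Agent.Helper5

universe u

theorem sep_main {G : Type u} [Group G] [Fintype G] {p : ℕ} [Fact p.Prime] {M : Ideal AlgInt}
    (hM : IsPModular p M) [hMp : M.IsPrime] (D : Subgroup G) {r : ℕ} (x : Fin r → G)
    (hx : ∀ i j : Fin r, IsConj (x i) (x j) → i = j)
    (hD : ∀ i : Fin r, ∃ S : Sylow p ↥(Subgroup.centralizer ({x i} : Set G)),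
      (S : Subgroup ↥(Subgroup.centralizer ({x i} : Set G))).map
        (Subgroup.centralizer ({x i} : Set G)).subtype = D)
    (hsep : ∀ i j : Fin r, ∀ g h : G, IsConj (x i) g → IsConj (x j) h →
      ∀ k : ℕ, 0 < k → orderOf (g * h⁻¹) ≠ p ^ k) :
    ∃ B : Fin r → Set (IrrCharacter G), Function.Injective B ∧
      (∀ i : Fin r, IsPBlock M (B i) ∧ IsDefectGroup p M (B i) D) ∧
      ∀ χ : Fin r → IrrCharacter G,
        (∀ i : Fin r, χ i ∈ B i ∧ blockHeight p (B i) (χ i : G → ℂ) = 0) →
        ¬ MemLocalIdeal M (Matrix.det (Matrix.of fun i j : Fin r => (χ i : G → ℂ) (x j))) := by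
  classical
  have hp : p.Prime := Fact.out
  obtain ⟨P₀⟩ : Nonempty (Sylow p G) := inferInstance
  haveI : Fintype (P₀ : Subgroup G) := Fintype.ofFinite _
  obtain ⟨d, hd⟩ : ∃ d : ℕ, ∀ j : Fin r,
      (Nat.card (Subgroup.centralizer ({x j} : Set G))).factorization p = d := by
    refine ⟨(Nat.card D).factorization p, fun j => ?_⟩
    obtain ⟨S, hS⟩ := hD j
    rw [← hS, Subgroup.card_map_of_injective (Subgroup.subtype_injective _),
      S.card_eq_multiplicity, hp.factorization_pow, Finsupp.single_eq_same]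
  have hidxv : ∀ j : Fin r, ((Subgroup.centralizer ({x j} : Set G)).index).factorization p + d
      = (Nat.card G).factorization p := by
    intro j
    have hmul := Subgroup.card_mul_index (Subgroup.centralizer ({x j} : Set G))
    have h0 : (Subgroup.centralizer ({x j} : Set G)).index ≠ 0 := Subgroup.index_ne_zero_of_finite
    have hC0 : Nat.card (Subgroup.centralizer ({x j} : Set G)) ≠ 0 := Nat.card_pos.ne'
    rw [← hmul, Nat.factorization_mul hC0 h0, Finsupp.add_apply, hd j, add_comm]
  haveI : Fintype {B : Set (IrrCharacter G) // IsPBlock M B} := Fintype.ofFinite _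
  choose χf hχf using fun B : {B : Set (IrrCharacter G) // IsPBlock M B} => B.2
  have hmex : ∀ χ : IrrCharacter G, ∃ k : ℕ,
      classInner (fun t : (P₀ : Subgroup G) => (χ : G → ℂ) t) (fun _ => (1 : ℂ)) = k :=
    fun χ => classInner_isCharacter_natCast
      (isCharacter_restrict _ (isCharacter_of_isIrrCharacter χ.2))
      (isCharacter_of_isIrrCharacter Cfsg.Agent.Helper24.isIrrCharacter_one)
  choose m hm using hmex
  have hH : ∀ i j : Fin r, ∀ t ∈ (P₀ : Subgroup G), ∀ g : G,
      IsConj (t * g * x j * g⁻¹) (x i) → t = 1 := by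
    intro i j t ht g hc
    by_contra hne
    obtain ⟨k, hk⟩ := P₀.isPGroup' ⟨t, ht⟩
    have hk' : t ^ p ^ k = 1 := by
      have := congrArg Subtype.val hk
      simpa using this
    obtain ⟨l, -, hol⟩ := (Nat.dvd_prime_pow hp).mp (orderOf_dvd_of_pow_eq_one hk')
    have hl0 : 0 < l := by
      rcases Nat.eq_zero_or_pos l with h0 | h0
      · rw [h0, pow_zero, orderOf_eq_one_iff] at hol
        exact absurd hol hne
      · exact h0
    have hconj2 : IsConj (x j) (g * x j * g⁻¹) := isConj_iff.mpr ⟨g, rfl⟩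
    apply hsep i j _ _ hc.symm hconj2 l hl0
    rw [← hol]
    congr 1
    group
  have hid : ∀ i j : Fin r, ∑ χ : IrrCharacter G,
      (m χ : ℂ) * (χ : G → ℂ) (x i)⁻¹ * centralChar (χ : G → ℂ) (x j)
      = if i = j then ((P₀ : Subgroup G).index : ℂ) else 0 := by
    intro i j
    have h1 := sep_identity (P₀ : Subgroup G) (x i) (x j) (hH i j) (by
      by_cases hij : i = j
      · left
        rw [hij]
      · right
        intro hc
        exact hij (hx i j hc.symm))
    have h3 : ∑ χ : IrrCharacter G,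
        (m χ : ℂ) * (χ : G → ℂ) (x i)⁻¹ * centralChar (χ : G → ℂ) (x j)
        = ∑ χ : IrrCharacter G,
          classInner (fun t : (P₀ : Subgroup G) => (χ : G → ℂ) t) (fun _ => (1 : ℂ))
          * (χ : G → ℂ) (x i)⁻¹ * centralChar (χ : G → ℂ) (x j) :=
      Finset.sum_congr rfl fun χ _ => by rw [hm χ]
    rw [h3]
    by_cases hij : i = j
    · rw [if_pos hij]
      exact h1.1 (by rw [hij])
    · rw [if_neg hij]
      exact h1.2 (fun h => hij (hx i j (h ▸ IsConj.refl (x i))))
  obtain ⟨av, hav⟩ : ∃ av : Fin r → IrrCharacter G → ℂ,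
      ∀ i χ, av i χ = (m χ : ℂ) * (χ : G → ℂ) (x i)⁻¹ := ⟨_, fun _ _ => rfl⟩
  have haloc : ∀ i χ, MemLocalRing M (av i χ) := by
    intro i χ
    rw [hav]
    exact (locRing M).mul_mem (natCast_memLocalRing _) (integral_mem_locRing (irr_isIntegral χ _))
  obtain ⟨yv, hyv⟩ : ∃ yv : Fin r → {B : Set (IrrCharacter G) // IsPBlock M B} → ℂ,
      ∀ i B, yv i B = ∑ χ : IrrCharacter G, if χ ∈ B.1 then av i χ else 0 :=
    ⟨_, fun _ _ => rfl⟩
  have hyloc : ∀ i B, MemLocalRing M (yv i B) := by
    intro i B
    rw [hyv]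
    refine (locRing M).sum_mem fun χ _ => ?_
    by_cases h : χ ∈ B.1
    · rw [if_pos h]
      exact haloc i χ
    · rw [if_neg h]
      exact (locRing M).zero_mem
  have hall : ∀ i j : Fin r, MemLocalIdeal M
      ((∑ B : {B : Set (IrrCharacter G) // IsPBlock M B},
          yv i B * centralChar (χf B : G → ℂ) (x j))
        - if i = j then ((P₀ : Subgroup G).index : ℂ) else 0) := by
    intro i j
    have hentry : ∑ B : {B : Set (IrrCharacter G) // IsPBlock M B},
          yv i B * centralChar (χf B : G → ℂ) (x j)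
        = ∑ B : {B : Set (IrrCharacter G) // IsPBlock M B}, ∑ χ : IrrCharacter G,
          (if χ ∈ B.1 then av i χ * centralChar (χf B : G → ℂ) (x j) else 0) := by
      refine Finset.sum_congr rfl fun B _ => ?_
      rw [hyv, Finset.sum_mul]
      refine Finset.sum_congr rfl fun χ _ => ?_
      by_cases hχ : χ ∈ B.1
      · rw [if_pos hχ, if_pos hχ]
      · rw [if_neg hχ, if_neg hχ, zero_mul]
    have hT : (if i = j then ((P₀ : Subgroup G).index : ℂ) else 0)
        = ∑ B : {B : Set (IrrCharacter G) // IsPBlock M B}, ∑ χ : IrrCharacter G,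
          (if χ ∈ B.1 then av i χ * centralChar (χ : G → ℂ) (x j) else 0) := by
      rw [← hid i j, Finset.sum_comm]
      refine Finset.sum_congr rfl fun χ _ => ?_
      rw [Finset.sum_eq_single (⟨blockOf M (χ : G → ℂ), ⟨χ, rfl⟩⟩ :
        {B : Set (IrrCharacter G) // IsPBlock M B})]
      · rw [if_pos (show χ ∈ blockOf M (χ : G → ℂ) from sameBlock_refl _), hav]
      · intro B _ hB
        rw [if_neg]
        intro hmem
        apply hB
        apply Subtype.ext
        show B.1 = blockOf M (χ : G → ℂ)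
        rw [hχf B] at hmem ⊢
        exact blockOf_eq_of_sameBlock hmem
      · intro h
        exact absurd (Finset.mem_univ _) h
    rw [hentry, hT, ← Finset.sum_sub_distrib]
    refine memLocalIdeal_sum _ _ fun B _ => ?_
    rw [← Finset.sum_sub_distrib]
    refine memLocalIdeal_sum _ _ fun χ _ => ?_
    by_cases hχ : χ ∈ B.1
    · rw [if_pos hχ, if_pos hχ, ← mul_sub]
      refine memLocalIdeal_mul_left (haloc i χ) ?_
      have hsb : SameBlock M (χf B : G → ℂ) (χ : G → ℂ) := by
        have h3 := hχ
        rw [hχf B] at h3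
        exact h3
      exact hsb (x j)
    · rw [if_neg hχ, if_neg hχ, sub_zero]
      exact memLocalIdeal_zero hMp.ne_top
  obtain ⟨good, hgood⟩ : ∃ good : {B : Set (IrrCharacter G) // IsPBlock M B} → Prop,
      ∀ B, good B ↔ ((∃ j : Fin r, ¬ MemLocalIdeal M (centralChar (χf B : G → ℂ) (x j))) ∧
        d ≤ blockDefect p B.1) := ⟨_, fun _ => Iff.rfl⟩
  have hbad : ∀ (i j : Fin r) (B : {B : Set (IrrCharacter G) // IsPBlock M B}), ¬ good B →
      MemLocalIdeal M (yv i B * centralChar (χf B : G → ℂ) (x j)) := by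
    intro i j B hB
    rw [hgood, not_and_or] at hB
    rcases hB with h | h
    · have h' : MemLocalIdeal M (centralChar (χf B : G → ℂ) (x j)) := by
        by_contra hn
        exact h ⟨j, hn⟩
      exact memLocalIdeal_mul_left (hyloc i B) h'
    · have hy : MemLocalIdeal M (yv i B) := by
        rw [hyv]
        refine memLocalIdeal_sum _ _ fun χ _ => ?_
        by_cases hχ : χ ∈ B.1
        · rw [if_pos hχ, hav]
          refine memLocalIdeal_mul_left (natCast_memLocalRing _) (sep_vanish hM χ (x i) ?_)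
          have h1 : sInf ((fun χ : IrrCharacter G =>
              (charDegree (χ : G → ℂ)).factorization p) '' B.1)
              ≤ (charDegree (χ : G → ℂ)).factorization p := Nat.sInf_le ⟨χ, hχ, rfl⟩
          have h2 := hidxv i
          unfold blockDefect at h
          omega
        · rw [if_neg hχ]
          exact memLocalIdeal_zero hMp.ne_top
      rw [mul_comm]
      exact memLocalIdeal_mul_left (centralChar_memLocalRing _ _) hy
  have hu : ¬ MemLocalIdeal M (((P₀ : Subgroup G).index : ℕ) : ℂ) :=
    not_memLocalIdeal_natCast hM ((Nat.Prime.coprime_iff_not_dvd hp).mpr P₀.not_dvd_index).symm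
  obtain ⟨Y, hYs⟩ : ∃ Y : Matrix (Fin r)
      {B : {B : Set (IrrCharacter G) // IsPBlock M B} // good B} ℂ,
      ∀ i B, Y i B = yv i B.1 := ⟨_, fun _ _ => rfl⟩
  obtain ⟨W, hWs⟩ : ∃ W : Matrix {B : {B : Set (IrrCharacter G) // IsPBlock M B} // good B}
      (Fin r) ℂ, ∀ B j, W B j = centralChar (χf B.1 : G → ℂ) (x j) := ⟨_, fun _ _ => rfl⟩
  obtain ⟨e, he, hdet⟩ := sep_select (M := M) Y W (((P₀ : Subgroup G).index : ℕ) : ℂ)
    (fun i B => by rw [hYs]; exact hyloc i B.1)
    (fun B j => by rw [hWs]; exact centralChar_memLocalRing _ _)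
    (natCast_memLocalRing _) hu
    (by
      intro i j
      have hsplit := Fintype.sum_subtype_add_sum_subtype good
        (fun B : {B : Set (IrrCharacter G) // IsPBlock M B} =>
          yv i B * centralChar (χf B : G → ℂ) (x j))
      have hmul : (Y * W) i j
          = ∑ B : {B : {B : Set (IrrCharacter G) // IsPBlock M B} // good B},
            yv i B.1 * centralChar (χf B.1 : G → ℂ) (x j) := by
        rw [Matrix.mul_apply]
        exact Finset.sum_congr rfl fun B _ => by rw [hYs, hWs]
      have e : (Y * W) i j - (if i = j then (((P₀ : Subgroup G).index : ℕ) : ℂ) else 0)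
          = ((∑ B : {B : Set (IrrCharacter G) // IsPBlock M B},
              yv i B * centralChar (χf B : G → ℂ) (x j))
            - if i = j then ((P₀ : Subgroup G).index : ℂ) else 0)
            - ∑ B : {B : {B : Set (IrrCharacter G) // IsPBlock M B} // ¬ good B},
              yv i B.1 * centralChar (χf B.1 : G → ℂ) (x j) := by
        rw [hmul, ← hsplit]
        ring
      rw [e]
      exact memLocalIdeal_sub (hall i j) (memLocalIdeal_sum _ _ fun B _ => hbad i j B.1 B.2))
  refine ⟨fun i => ((e i).1).1, ?_, ?_, ?_⟩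
  · intro i i' h
    exact he (Subtype.ext (Subtype.ext h))
  · intro i
    refine ⟨((e i).1).2, ?_⟩
    obtain ⟨⟨j, hj⟩, hdB⟩ := (hgood (e i).1).mp (e i).2
    obtain ⟨S, hS⟩ := hD j
    have h1 := sep_defect_group hM (χf (e i).1) (x j) hj S (by
      rw [hd j, ← hχf (e i).1]
      exact hdB)
    rw [hS, ← hχf (e i).1] at h1
    exact h1
  · intro χ hχ hmem
    apply hdet
    have hW' : (Matrix.of fun i j : Fin r => W (e i) j)
        = Matrix.of fun i j : Fin r => centralChar (χf (e i).1 : G → ℂ) (x j) := by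
      ext i j
      exact hWs (e i) j
    rw [hW']
    refine sep_det hM x χ (fun i => χf (e i).1) ?_ ?_ hmem
    · intro i
      have h3 : χ i ∈ ((e i).1).1 := (hχ i).1
      rw [hχf (e i).1] at h3
      exact h3
    · intro i
      obtain ⟨⟨j, hj⟩, hdB⟩ := (hgood (e i).1).mp (e i).2
      have hle := blockDefect_le_of_centralChar hM (χf (e i).1) (x j) hj
      rw [← hχf (e i).1, hd j] at hle
      have hht : blockHeight p ((e i).1).1 (χ i : G → ℂ) = 0 := (hχ i).2
      have hmemχ : χ i ∈ ((e i).1).1 := (hχ i).1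
      have h1 : sInf ((fun χ : IrrCharacter G =>
          (charDegree (χ : G → ℂ)).factorization p) '' ((e i).1).1)
          ≤ (charDegree (χ i : G → ℂ)).factorization p := Nat.sInf_le ⟨χ i, hmemχ, rfl⟩
      obtain ⟨-, h20, h2⟩ := irr_charDegree_spec (χ i)
      have h3 : (charDegree (χ i : G → ℂ)).factorization p ≤ (Nat.card G).factorization p :=
        (Nat.factorization_le_iff_dvd h20 Nat.card_pos.ne').mpr h2 p
      have h4 := hidxv i
      unfold blockDefect at hle hdB
      unfold blockHeight at hht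
      omega

end Cfsg.Agent.Helper22
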