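import Mathlib
import Cfsg.Agent.Helper22.BlkSubsec2
import Cfsg.Agent.Helper22.Brauer3
import Cfsg.Agent.Helper5.BlkSec2

/-!
# Subsections, pointwise form; the principal block at a `p`-element (helper22)

* `smt_not_mem`, `section_decomp`: the second main theorem at the `p`-section of `x`.
* `subsection_point`: `∑_χ (P_e χ(u·))(s) χ(u⁻¹ s⁻¹) = ∑_{ψ ∈ e} ψ(s) conj ψ(s)` for `p`-regular `s`.
* `block_norm_pelement`: `∑_{χ ∈ B} χ(x) χ(x⁻¹) = ∑_{b^G = B} ∑_{ψ ∈ b} ψ(1)²` for a `p`-element `x`.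
* `principal_norm_pelement`: the same for principal blocks (third main theorem).
* `count_conj_sub`: the number of `n ∈ N` with `n y n⁻¹ = z`.
-/

set_option autoImplicit false

namespace Cfsg.Agent.Helper22

open Cfsg Cfsg.Agent.Helper5 Cfsg.Agent.Helper24

universe u

theorem finsum_mem_eq_sum_ite_gen {α : Type*} [Fintype α] {A : Type*} [AddCommMonoid A]
    (B : Set α) [DecidablePred (· ∈ B)] (f : α → A) :
    ∑ᶠ x ∈ B, f x = ∑ x : α, if x ∈ B then f x else 0 := by
  rw [finsum_mem_eq_finite_toFinset_sum _ (Set.toFinite _), ← Finset.sum_filter]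
  refine Finset.sum_congr ?_ (fun _ _ => rfl)
  ext x; simp

/-- second main theorem: outside `B`, the parts in blocks inducing `B` vanish on `p`-regular
elements of the centralizer -/
theorem smt_not_mem {G : Type u} [Group G] [Fintype G] {p : ℕ} [Fact p.Prime]
    {M : Ideal AlgInt} (hM : IsPModular p M) (χ₀ : IrrCharacter G) (x : G)
    (hx : ∃ k : ℕ, orderOf x = p ^ k) (ξ₀ : IrrCharacter ↥(Subgroup.centralizer ({x} : Set G)))
    (hind : IsInducedBlock M (Subgroup.centralizer ({x} : Set G)) (blockOf M (ξ₀ : ↥(Subgroup.centralizer ({x} : Set G)) → ℂ)) (blockOf M (χ₀ : G → ℂ)))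
    (χ : IrrCharacter G) (hχ : χ ∉ blockOf M (χ₀ : G → ℂ)) (s : ↥(Subgroup.centralizer ({x} : Set G))) (hs : ¬ p ∣ orderOf s) :
    blockPart (blockOf M (ξ₀ : ↥(Subgroup.centralizer ({x} : Set G)) → ℂ)) (fun c : ↥(Subgroup.centralizer ({x} : Set G)) => (χ : G → ℂ) (x * c)) s = 0 := by
  classical
  haveI hMp : M.IsPrime := hM.2.1.isPrime
  have hp : p.Prime := Fact.out
  haveI : Fintype ↥(Subgroup.centralizer ({x} : Set G)) := Fintype.ofFinite _
  have hH : ∀ g : G, g ∈ (Subgroup.centralizer ({x} : Set G)) ↔ g * x = x * g := fun g => Subgroup.mem_centralizer_singleton_iff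
  have hcomm : ∀ h : ↥(Subgroup.centralizer ({x} : Set G)), (h : G) * x = x * (h : G) := fun h => (hH h).mp h.2
  have hxC : x ∈ (Subgroup.centralizer ({x} : Set G)) := (hH x).mpr rfl
  rw [blockPart_eq_sum _ _ (shift_isClassFunction (Subgroup.centralizer ({x} : Set G)) x hcomm χ) s]
  have hsG : ¬ p ∣ orderOf (s : G) := by rw [Subgroup.orderOf_coe]; exact hs
  have hsu : (s : G) * x = x * (s : G) := hcomm s
  have hC : ∀ z : G, IsPPart p (((⟨x, hxC⟩ : ↥(Subgroup.centralizer ({x} : Set G))) * s : ↥(Subgroup.centralizer ({x} : Set G))) : G) z →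
      Subgroup.centralizer ({z} : Set G) ≤ (Subgroup.centralizer ({x} : Set G)) := by
    intro z hz
    have h1 : IsPPart p (x * (s : G)) x := ⟨(s : G), rfl, hsu.symm, hx, hsG⟩
    have hz' : IsPPart p (x * (s : G)) z := hz
    have hzu : z = x := isPPart_unique hp hz' h1
    subst hzu
    exact le_refl _
  have hkey := second_main_key hM (Subgroup.centralizer ({x} : Set G)) ξ₀ χ₀ hind ((⟨x, hxC⟩ : ↥(Subgroup.centralizer ({x} : Set G))) * s) hC χ hχ
  refine Eq.trans (Finset.sum_congr rfl fun k _ => ?_) hkey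
  have e : x * ((k * s : ↥(Subgroup.centralizer ({x} : Set G))) : G) = (k : G) * (((⟨x, hxC⟩ : ↥(Subgroup.centralizer ({x} : Set G))) * s : ↥(Subgroup.centralizer ({x} : Set G))) : G) := by
    show x * ((k : G) * (s : G)) = (k : G) * (x * (s : G))
    rw [← mul_assoc, ← mul_assoc, hcomm k]
  show blockCoeff _ k * (χ : G → ℂ) (x * ((k * s : ↥(Subgroup.centralizer ({x} : Set G))) : G)) = _
  rw [e]

open Classical in
/-- second main theorem: on the `p`-section of `x`, a character of `B` is the sum of its parts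
in the blocks of the centralizer inducing `B` -/
theorem section_decomp {G : Type u} [Group G] [Fintype G] {p : ℕ} [Fact p.Prime]
    {M : Ideal AlgInt} (hM : IsPModular p M) (χ₀ : IrrCharacter G) (x : G)
    (hx : ∃ k : ℕ, orderOf x = p ^ k) (χ : IrrCharacter G)
    (hχ : χ ∈ blockOf M (χ₀ : G → ℂ)) (s : ↥(Subgroup.centralizer ({x} : Set G))) (hs : ¬ p ∣ orderOf s) :
    (χ : G → ℂ) (x * (s : G)) =
      ∑ e : Set (IrrCharacter ↥(Subgroup.centralizer ({x} : Set G))), if IsInducedBlock M (Subgroup.centralizer ({x} : Set G)) e (blockOf M (χ₀ : G → ℂ)) then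
        blockPart e (fun c : ↥(Subgroup.centralizer ({x} : Set G)) => (χ : G → ℂ) (x * c)) s else 0 := by
  haveI hMp : M.IsPrime := hM.2.1.isPrime
  haveI : Fintype ↥(Subgroup.centralizer ({x} : Set G)) := Fintype.ofFinite _
  have hH : ∀ g : G, g ∈ (Subgroup.centralizer ({x} : Set G)) ↔ g * x = x * g := fun g => Subgroup.mem_centralizer_singleton_iff
  have hcomm : ∀ h : ↥(Subgroup.centralizer ({x} : Set G)), (h : G) * x = x * (h : G) := fun h => (hH h).mp h.2
  have h1 := congrFun (classFunction_eq_sum_irr _ (shift_isClassFunction (Subgroup.centralizer ({x} : Set G)) x hcomm χ)) s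
  rw [Finset.sum_apply] at h1
  have h2 : (χ : G → ℂ) (x * (s : G)) = ∑ ψ : IrrCharacter ↥(Subgroup.centralizer ({x} : Set G)),
      classInner (fun c : ↥(Subgroup.centralizer ({x} : Set G)) => (χ : G → ℂ) (x * c)) (ψ : ↥(Subgroup.centralizer ({x} : Set G)) → ℂ) * (ψ : ↥(Subgroup.centralizer ({x} : Set G)) → ℂ) s := h1
  rw [h2, sum_irr_eq_sum_blocks hM]
  refine Finset.sum_congr rfl fun e _ => ?_
  by_cases hI : IsInducedBlock M (Subgroup.centralizer ({x} : Set G)) e (blockOf M (χ₀ : G → ℂ))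
  · rw [if_pos hI, if_pos hI.1, blockPart_eq, finsum_mem_eq_sum_ite]
  · rw [if_neg hI]
    by_cases he : IsPBlock M e
    · rw [if_pos he, ← finsum_mem_eq_sum_ite, ← blockPart_eq]
      obtain ⟨ξ₀, rfl⟩ := he
      exact smt_char hM x hx χ₀ χ hχ ξ₀ hI s hs
    · rw [if_neg he]

open Classical in
/-- pointwise norm of the subsection column at a `p`-regular element `s` of `H = C_G(u)` -/
theorem subsection_point {G : Type u} [Group G] [Fintype G] {p : ℕ} [Fact p.Prime]
    {M : Ideal AlgInt} (hM : IsPModular p M) (u : G) (hu : ∃ k : ℕ, orderOf u = p ^ k)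
    (H : Subgroup G) [Fintype H] (hH : ∀ g : G, g ∈ H ↔ g * u = u * g)
    (ξ₀ : IrrCharacter H) (s : H) (hs : ¬ p ∣ orderOf s) :
    ∑ χ : IrrCharacter G,
      blockPart (blockOf M (ξ₀ : H → ℂ)) (fun c : H => (χ : G → ℂ) (u * c)) s *
        (χ : G → ℂ) (u⁻¹ * ((s⁻¹ : H) : G)) =
    ∑ ψ : IrrCharacter H, if ψ ∈ blockOf M (ξ₀ : H → ℂ) then
      (ψ : H → ℂ) s * starRingEnd ℂ ((ψ : H → ℂ) s) else 0 := by
  haveI hMp : M.IsPrime := hM.2.1.isPrime
  have hp : p.Prime := Fact.out
  obtain ⟨b, hb⟩ : ∃ b : Set (IrrCharacter H), b = blockOf M (ξ₀ : H → ℂ) := ⟨_, rfl⟩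
  rw [← hb]
  have hH0 : (Nat.card H : ℂ) ≠ 0 := Nat.cast_ne_zero.mpr Nat.card_pos.ne'
  obtain ⟨W, hW⟩ : ∃ W : H → ℂ, W = fun c => ∑ ψ : IrrCharacter H,
      if ψ ∈ b then (ψ : H → ℂ) s * starRingEnd ℂ ((ψ : H → ℂ) c) else 0 := ⟨_, rfl⟩
  have hWapp : ∀ c : H, W c = ∑ ψ : IrrCharacter H,
      if ψ ∈ b then (ψ : H → ℂ) s * starRingEnd ℂ ((ψ : H → ℂ) c) else 0 :=
    fun c => by rw [hW]
  have h1 : ∀ (χ : IrrCharacter G),
      blockPart b (fun c : H => (χ : G → ℂ) (u * c)) s *
        (χ : G → ℂ) (u⁻¹ * ((s⁻¹ : H) : G)) =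
      ∑ c : H, (Nat.card H : ℂ)⁻¹ * (W c *
        ((χ : G → ℂ) (u * (c : G)) * (χ : G → ℂ) (u * (s : G))⁻¹)) := by
    intro χ
    rw [← pRegularPart_of_reg p (blockPart b (fun c : H => (χ : G → ℂ) (u * c))) hs,
      regPart_blockPart_kernel, Finset.mul_sum, Finset.sum_mul]
    refine Finset.sum_congr rfl fun c _ => ?_
    rw [if_neg hs, ← hWapp c]
    have e : u⁻¹ * ((s⁻¹ : H) : G) = (u * (s : G))⁻¹ := by
      have hsu : (s : G) * u = u * (s : G) := (hH s).mp s.2
      rw [Subgroup.coe_inv, ← hsu, mul_inv_rev]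
    rw [e]
    beta_reduce
    ring
  have h2 : ∀ c : H, ∑ χ : IrrCharacter G,
      (χ : G → ℂ) (u * (c : G)) * (χ : G → ℂ) (u * (s : G))⁻¹ =
      ∑ x : G, if x * (u * (c : G)) * x⁻¹ = u * (s : G) then (1 : ℂ) else 0 :=
    fun c => sum_irr_pair_count _ _
  have h3 : ∀ c : H, W c *
      (∑ x : G, if x * (u * (c : G)) * x⁻¹ = u * (s : G) then (1 : ℂ) else 0) =
      W c * ∑ h : H, if h * c * h⁻¹ = s then (1 : ℂ) else 0 := by
    intro c
    by_cases hc : p ∣ orderOf c
    · have hz : W c = 0 := by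
        rw [hWapp]
        have hw := weak_block_orth hM ξ₀ s c hs hc
        rw [finsum_mem_eq_sum_ite] at hw
        rw [hb]
        exact hw
      rw [hz, zero_mul, zero_mul]
    · rw [count_conj_section hp u hu H hH c s hc hs]
  have h4 : ∀ (c h : H), h * c * h⁻¹ = s → W c = W s := by
    intro c h hcs
    rw [hWapp, hWapp]
    refine Finset.sum_congr rfl fun ψ _ => ?_
    have e : (ψ : H → ℂ) s = (ψ : H → ℂ) c := by rw [← hcs, irr_conj]
    rw [e]
  calc ∑ χ : IrrCharacter G, blockPart b (fun c : H => (χ : G → ℂ) (u * c)) s *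
        (χ : G → ℂ) (u⁻¹ * ((s⁻¹ : H) : G))
      = ∑ χ : IrrCharacter G, ∑ c : H, (Nat.card H : ℂ)⁻¹ * (W c *
          ((χ : G → ℂ) (u * (c : G)) * (χ : G → ℂ) (u * (s : G))⁻¹)) :=
        Finset.sum_congr rfl fun χ _ => h1 χ
    _ = ∑ c : H, (Nat.card H : ℂ)⁻¹ * (W c *
          ∑ χ : IrrCharacter G, (χ : G → ℂ) (u * (c : G)) * (χ : G → ℂ) (u * (s : G))⁻¹) := by
        rw [Finset.sum_comm]
        refine Finset.sum_congr rfl fun c _ => ?_
        rw [Finset.mul_sum, Finset.mul_sum]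
    _ = ∑ c : H, (Nat.card H : ℂ)⁻¹ * (W c *
          ∑ h : H, if h * c * h⁻¹ = s then (1 : ℂ) else 0) :=
        Finset.sum_congr rfl fun c _ => by rw [h2, h3]
    _ = ∑ c : H, ∑ h : H, if h * c * h⁻¹ = s then (Nat.card H : ℂ)⁻¹ * W s else 0 := by
        refine Finset.sum_congr rfl fun c _ => ?_
        rw [Finset.mul_sum, Finset.mul_sum]
        refine Finset.sum_congr rfl fun h _ => ?_
        by_cases hcs : h * c * h⁻¹ = s
        · rw [if_pos hcs, if_pos hcs, mul_one, h4 c h hcs]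
        · rw [if_neg hcs, if_neg hcs, mul_zero, mul_zero]
    _ = ∑ h : H, (Nat.card H : ℂ)⁻¹ * W s := by
        rw [Finset.sum_comm]
        refine Finset.sum_congr rfl fun h _ => ?_
        have e : h * (h⁻¹ * s * h) * h⁻¹ = s := by group
        rw [Finset.sum_eq_single (h⁻¹ * s * h)]
        · rw [if_pos e]
        · intro c _ hne
          rw [if_neg]
          intro hcs
          apply hne
          rw [← hcs]
          group
        · intro hh
          exact absurd (Finset.mem_univ _) hh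
    _ = W s := by
        rw [Finset.sum_const, Finset.card_univ, nsmul_eq_mul, ← Nat.card_eq_fintype_card,
          ← mul_assoc, mul_inv_cancel₀ hH0, one_mul]
    _ = ∑ ψ : IrrCharacter H, if ψ ∈ b then
          (ψ : H → ℂ) s * starRingEnd ℂ ((ψ : H → ℂ) s) else 0 := hWapp s

open Classical in
/-- the norm of the column of a block at a `p`-element, by blocks of the centralizer -/
theorem block_norm_pelement {G : Type u} [Group G] [Fintype G] {p : ℕ} [Fact p.Prime]
    {M : Ideal AlgInt} (hM : IsPModular p M) (χ₀ : IrrCharacter G) (x : G)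
    (hx : ∃ k : ℕ, orderOf x = p ^ k) :
    ∑ χ : IrrCharacter G, (if χ ∈ blockOf M (χ₀ : G → ℂ) then
      (χ : G → ℂ) x * (χ : G → ℂ) x⁻¹ else 0) =
    ∑ e : Set (IrrCharacter ↥(Subgroup.centralizer ({x} : Set G))), if IsInducedBlock M (Subgroup.centralizer ({x} : Set G)) e (blockOf M (χ₀ : G → ℂ)) then
      ∑ ψ : IrrCharacter ↥(Subgroup.centralizer ({x} : Set G)), (if ψ ∈ e then
        (ψ : ↥(Subgroup.centralizer ({x} : Set G)) → ℂ) 1 * starRingEnd ℂ ((ψ : ↥(Subgroup.centralizer ({x} : Set G)) → ℂ) 1) else 0) else 0 := by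
  haveI hMp : M.IsPrime := hM.2.1.isPrime
  have hp : p.Prime := Fact.out
  haveI : Fintype ↥(Subgroup.centralizer ({x} : Set G)) := Fintype.ofFinite _
  have hH : ∀ g : G, g ∈ (Subgroup.centralizer ({x} : Set G)) ↔ g * x = x * g := fun g => Subgroup.mem_centralizer_singleton_iff
  have h1reg : ¬ p ∣ orderOf (1 : ↥(Subgroup.centralizer ({x} : Set G))) := by rw [orderOf_one]; exact hp.not_dvd_one
  have hx1 : x * ((1 : ↥(Subgroup.centralizer ({x} : Set G))) : G) = x := by rw [Subgroup.coe_one, mul_one]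
  have hx1' : x⁻¹ * (((1 : ↥(Subgroup.centralizer ({x} : Set G)))⁻¹ : ↥(Subgroup.centralizer ({x} : Set G))) : G) = x⁻¹ := by
    rw [inv_one, Subgroup.coe_one, mul_one]
  calc ∑ χ : IrrCharacter G, (if χ ∈ blockOf M (χ₀ : G → ℂ) then
        (χ : G → ℂ) x * (χ : G → ℂ) x⁻¹ else 0)
      = ∑ χ : IrrCharacter G, ∑ e : Set (IrrCharacter ↥(Subgroup.centralizer ({x} : Set G))),
          (if IsInducedBlock M (Subgroup.centralizer ({x} : Set G)) e (blockOf M (χ₀ : G → ℂ)) then
            (if χ ∈ blockOf M (χ₀ : G → ℂ) then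
              blockPart e (fun c : ↥(Subgroup.centralizer ({x} : Set G)) => (χ : G → ℂ) (x * c)) 1 * (χ : G → ℂ) x⁻¹
            else 0) else 0) := by
        refine Finset.sum_congr rfl fun χ _ => ?_
        by_cases hχ : χ ∈ blockOf M (χ₀ : G → ℂ)
        · simp only [if_pos hχ]
          have h := section_decomp hM χ₀ x hx χ hχ 1 h1reg
          rw [hx1] at h
          rw [h, Finset.sum_mul]
          refine Finset.sum_congr rfl fun e _ => ?_
          split_ifs
          · rfl
          · rw [zero_mul]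
        · simp only [if_neg hχ, ite_self, Finset.sum_const_zero]
    _ = ∑ e : Set (IrrCharacter ↥(Subgroup.centralizer ({x} : Set G))),
          (if IsInducedBlock M (Subgroup.centralizer ({x} : Set G)) e (blockOf M (χ₀ : G → ℂ)) then
            ∑ χ : IrrCharacter G, (if χ ∈ blockOf M (χ₀ : G → ℂ) then
              blockPart e (fun c : ↥(Subgroup.centralizer ({x} : Set G)) => (χ : G → ℂ) (x * c)) 1 * (χ : G → ℂ) x⁻¹
            else 0) else 0) := by
        rw [Finset.sum_comm]
        refine Finset.sum_congr rfl fun e _ => ?_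
        by_cases he : IsInducedBlock M (Subgroup.centralizer ({x} : Set G)) e (blockOf M (χ₀ : G → ℂ))
        · simp only [if_pos he]
        · simp only [if_neg he, Finset.sum_const_zero]
    _ = ∑ e : Set (IrrCharacter ↥(Subgroup.centralizer ({x} : Set G))),
          (if IsInducedBlock M (Subgroup.centralizer ({x} : Set G)) e (blockOf M (χ₀ : G → ℂ)) then
            ∑ ψ : IrrCharacter ↥(Subgroup.centralizer ({x} : Set G)), (if ψ ∈ e then
              (ψ : ↥(Subgroup.centralizer ({x} : Set G)) → ℂ) 1 * starRingEnd ℂ ((ψ : ↥(Subgroup.centralizer ({x} : Set G)) → ℂ) 1) else 0) else 0) := by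
        refine Finset.sum_congr rfl fun e _ => ?_
        by_cases he : IsInducedBlock M (Subgroup.centralizer ({x} : Set G)) e (blockOf M (χ₀ : G → ℂ))
        · rw [if_pos he, if_pos he]
          obtain ⟨ξ₀, rfl⟩ := he.1
          have hpt := subsection_point hM x hx (Subgroup.centralizer ({x} : Set G)) hH ξ₀ 1 h1reg
          rw [hx1'] at hpt
          rw [← hpt]
          refine Finset.sum_congr rfl fun χ _ => ?_
          by_cases hχ : χ ∈ blockOf M (χ₀ : G → ℂ)
          · rw [if_pos hχ]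
          · rw [if_neg hχ, smt_not_mem hM χ₀ x hx ξ₀ he χ hχ 1 h1reg, zero_mul]
        · rw [if_neg he, if_neg he]

open Classical in
/-- the norm of the column of the principal block at a `p`-element `x` is the sum of the squares
of the degrees of the principal block of `C_G(x)` -/
theorem principal_norm_pelement {G : Type u} [Group G] [Fintype G] {p : ℕ} [Fact p.Prime]
    {M : Ideal AlgInt} (hM : IsPModular p M) (x : G) (hx : ∃ k : ℕ, orderOf x = p ^ k) :
    ∑ χ : IrrCharacter G, (if χ ∈ principalBlock M G then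
      (χ : G → ℂ) x * (χ : G → ℂ) x⁻¹ else 0) =
    ∑ ψ : IrrCharacter ↥(Subgroup.centralizer ({x} : Set G)), (if ψ ∈ principalBlock M ↥(Subgroup.centralizer ({x} : Set G)) then
      ((charDegree (ψ : ↥(Subgroup.centralizer ({x} : Set G)) → ℂ) : ℂ)) ^ 2 else 0) := by
  haveI hMp : M.IsPrime := hM.2.1.isPrime
  haveI : Fintype ↥(Subgroup.centralizer ({x} : Set G)) := Fintype.ofFinite _
  obtain ⟨triv, htriv⟩ : ∃ t : IrrCharacter G, (t : G → ℂ) = fun _ => 1 :=
    ⟨⟨_, Cfsg.Agent.Helper24.isIrrCharacter_one⟩, rfl⟩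
  obtain ⟨trivC, htrivC⟩ : ∃ t : IrrCharacter ↥(Subgroup.centralizer ({x} : Set G)), (t : ↥(Subgroup.centralizer ({x} : Set G)) → ℂ) = fun _ => 1 :=
    ⟨⟨_, Cfsg.Agent.Helper24.isIrrCharacter_one⟩, rfl⟩
  have hPB := principalBlock_eq_blockOf M triv htriv
  have hPC := principalBlock_eq_blockOf M trivC htrivC
  have hiff := principal_induced_iff hM x hx
  have hInd : IsInducedBlock M (Subgroup.centralizer ({x} : Set G)) (principalBlock M ↥(Subgroup.centralizer ({x} : Set G))) (blockOf M (triv : G → ℂ)) := by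
    have h1 : trivC ∈ principalBlock M ↥(Subgroup.centralizer ({x} : Set G)) := by rw [hPC]; exact sameBlock_refl _
    have h2 := (hiff trivC).mpr h1
    rw [hPB, ← hPC] at h2
    exact h2
  rw [hPB, block_norm_pelement hM triv x hx, Finset.sum_eq_single (principalBlock M ↥(Subgroup.centralizer ({x} : Set G)))]
  · rw [if_pos hInd]
    refine Finset.sum_congr rfl fun ψ _ => ?_
    by_cases hψ : ψ ∈ principalBlock M ↥(Subgroup.centralizer ({x} : Set G))
    · rw [if_pos hψ, if_pos hψ, (irr_charDegree_spec ψ).1, Complex.conj_natCast, sq]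
    · rw [if_neg hψ, if_neg hψ]
  · intro e _ hne
    rw [if_neg]
    intro hI
    apply hne
    obtain ⟨ψ, rfl⟩ := hI.1
    rw [← hPB] at hI
    have h1 := (hiff ψ).mp hI
    rw [hPC] at h1 ⊢
    exact (blockOf_eq_of_sameBlock h1).symm
  · intro h
    exact absurd (Finset.mem_univ _) h

theorem card_centralizer_sub {G : Type u} [Group G] (N : Subgroup G) (y : G) (hy : y ∈ N) :
    Nat.card ↥(Subgroup.centralizer ({(⟨y, hy⟩ : ↥N)} : Set ↥N)) =
      Nat.card ↥(N ⊓ Subgroup.centralizer ({y} : Set G)) := by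
  refine Nat.card_congr
    { toFun := fun c => ⟨((c : ↥N) : G), Subgroup.mem_inf.mpr ⟨(c : ↥N).2,
        Subgroup.mem_centralizer_singleton_iff.mpr
          (congrArg Subtype.val (Subgroup.mem_centralizer_singleton_iff.mp c.2))⟩⟩
      invFun := fun g => ⟨⟨(g : G), (Subgroup.mem_inf.mp g.2).1⟩,
        Subgroup.mem_centralizer_singleton_iff.mpr
          (Subtype.ext (Subgroup.mem_centralizer_singleton_iff.mp (Subgroup.mem_inf.mp g.2).2))⟩
      left_inv := fun c => rfl
      right_inv := fun g => rfl }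

open Classical in
/-- the number of `n ∈ N` conjugating `y` to `z` -/
theorem count_conj_sub {G : Type u} [Group G] (N : Subgroup G) [Fintype N] (y z : G)
    (hy : y ∈ N) (h : ∃ n ∈ N, n * y * n⁻¹ = z) :
    ∑ x : ↥N, (if (x : G) * y * (x : G)⁻¹ = z then (1 : ℂ) else 0) =
      (Nat.card ↥(N ⊓ Subgroup.centralizer ({y} : Set G)) : ℂ) := by
  obtain ⟨n, hn, hnz⟩ := h
  have hz : z ∈ N := by rw [← hnz]; exact N.mul_mem (N.mul_mem hn hy) (N.inv_mem hn)
  have hconj : IsConj (⟨y, hy⟩ : ↥N) ⟨z, hz⟩ := isConj_iff.mpr ⟨⟨n, hn⟩, Subtype.ext hnz⟩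
  have hc := card_filter_conj_eq hconj
  rw [← card_centralizer_sub N y hy, ← hc, Finset.natCast_card_filter]
  refine Finset.sum_congr rfl fun x _ => ?_
  exact if_congr ⟨fun h => Subtype.ext h, fun h => congrArg Subtype.val h⟩ rfl rfl

end Cfsg.Agent.Helper22
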