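import Mathlib
import Cfsg.Agent.Helper24.CharComplete
import Cfsg.Agent.Helper24.CharDecomp
import Cfsg.Agent.Helper24.CharIntegral
import Cfsg.Agent.Helper5.CentralChar
import Cfsg.Prelude.Def_Blocks

/-!
# A real element with centralizer of odd order forces an irreducible character of even degree

`exists_even_degree_of_real_odd_centralizer` : if `u ≠ 1` is conjugate to its inverse and
`|C_G(u)|` is odd, then `G` has an irreducible character of even degree (second orthogonality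
modulo `2` in the ring of algebraic integers).  (helper22)
-/

set_option autoImplicit false

namespace Cfsg.Agent.Helper22

open Cfsg Cfsg.Agent.Helper24

universe u

theorem sq_sum_int {ι : Type*} (I : Finset ι) (a : ι → ℂ) (ha : ∀ i ∈ I, IsIntegral ℤ (a i)) :
    ∃ B : ℂ, IsIntegral ℤ B ∧ (∑ i ∈ I, a i) ^ 2 = ∑ i ∈ I, a i ^ 2 + (B + B) := by
  classical
  induction I using Finset.induction_on with
  | empty => exact ⟨0, isIntegral_zero, by simp⟩
  | insert j s hj ih =>
    obtain ⟨B, hB, hs⟩ := ih (fun i hi => ha i (Finset.mem_insert_of_mem hi))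
    have hsum : IsIntegral ℤ (∑ i ∈ s, a i) :=
      IsIntegral.sum _ (fun i hi => ha i (Finset.mem_insert_of_mem hi))
    refine ⟨B + a j * ∑ i ∈ s, a i, hB.add ((ha j (Finset.mem_insert_self j s)).mul hsum), ?_⟩
    rw [Finset.sum_insert hj, Finset.sum_insert hj, add_sq, hs]
    ring

theorem exists_even_degree_of_real_odd_centralizer {G : Type u} [Group G] [Finite G] (u g : G)
    (hu1 : u ≠ 1) (hreal : g * u * g⁻¹ = u⁻¹)
    (hodd : Odd (Nat.card ↥(Subgroup.centralizer ({u} : Set G)))) :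
    ∃ χ : IrrCharacter G, Even (Cfsg.charDegree (χ : G → ℂ)) := by
  classical
  by_contra hcon
  have hall : ∀ χ : IrrCharacter G, ∃ k : ℕ, (χ : G → ℂ) 1 = ((2 * k + 1 : ℕ) : ℂ) := by
    intro χ
    obtain ⟨n, -, hn⟩ := Cfsg.Agent.Helper5.irr_one_eq_natCast_pos χ
    have hdeg : Cfsg.charDegree (χ : G → ℂ) = n := by
      unfold Cfsg.charDegree
      rw [hn, Complex.natCast_re, Nat.floor_natCast]
    have hoddn : Odd n := by
      rw [← Nat.not_even_iff_odd]
      intro he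
      exact hcon ⟨χ, by rw [hdeg]; exact he⟩
    obtain ⟨k, hk⟩ := hoddn
    exact ⟨k, by rw [hn, hk]⟩
  choose k hk using hall
  have hre : ∀ χ : IrrCharacter G, starRingEnd ℂ ((χ : G → ℂ) u) = (χ : G → ℂ) u := by
    intro χ
    rw [← irr_inv, ← hreal, irr_conj]
  have h1 := (sum_irr_mul_conj u u).1 (IsConj.refl u)
  have h2 := (sum_irr_mul_conj u (1 : G)).2 (fun hc => hu1 (isConj_one_left.mp hc))
  have h1' : ∑ χ : IrrCharacter G, (χ : G → ℂ) u ^ 2 =
      (Nat.card ↥(Subgroup.centralizer ({u} : Set G)) : ℂ) := by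
    rw [← h1]
    refine Finset.sum_congr rfl fun χ _ => ?_
    rw [hre χ, sq]
  obtain ⟨A, hAdef⟩ : ∃ A : ℂ, A = ∑ χ : IrrCharacter G, (k χ : ℂ) * (χ : G → ℂ) u :=
    ⟨_, rfl⟩
  have hA : IsIntegral ℤ A := by
    rw [hAdef]
    exact IsIntegral.sum _ (fun χ _ => (isIntegral_natCast (k χ)).mul (irr_isIntegral χ u))
  have h2' : ∑ χ : IrrCharacter G, (χ : G → ℂ) u + 2 * A = 0 := by
    rw [hAdef, ← h2, Finset.mul_sum, ← Finset.sum_add_distrib]
    refine Finset.sum_congr rfl fun χ _ => ?_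
    rw [hk χ, Complex.conj_natCast]
    push_cast
    ring
  obtain ⟨B, hB, hsq⟩ := sq_sum_int Finset.univ (fun χ : IrrCharacter G => (χ : G → ℂ) u)
    (fun χ _ => irr_isIntegral χ u)
  have hsq' : (∑ χ : IrrCharacter G, (χ : G → ℂ) u) ^ 2 =
      ∑ χ : IrrCharacter G, (χ : G → ℂ) u ^ 2 + (B + B) := hsq
  obtain ⟨m, hm⟩ := hodd
  have hS : ∑ χ : IrrCharacter G, (χ : G → ℂ) u = -2 * A := by linear_combination h2'
  have h3 : (-2 * A) ^ 2 = ((2 * m + 1 : ℕ) : ℂ) + (B + B) := by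
    rw [← hS, hsq', h1', hm]
  have e : (((1 / 2 : ℚ) : ℚ) : ℂ) = A ^ 2 + A ^ 2 - B - (m : ℂ) := by
    push_cast at h3 ⊢
    linear_combination (-1 / 2 : ℂ) * h3
  have hint : IsIntegral ℤ (((1 / 2 : ℚ) : ℚ) : ℂ) := by
    rw [e]
    exact (((hA.pow 2).add (hA.pow 2)).sub hB).sub (isIntegral_natCast m)
  obtain ⟨z, hz⟩ := exists_int_of_isIntegral_ratCast hint
  have h4 : (2 * z : ℚ) = 1 := by rw [hz]; norm_num
  have h5 : 2 * z = 1 := by exact_mod_cast h4
  omega

end Cfsg.Agent.Helper22
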