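import Mathlib
import Cfsg.Agent.Helper24.CharLinear
import Cfsg.Agent.Helper24.CharGagola
import Cfsg.Agent.Helper24.CharInd
import Cfsg.Agent.Helper24.CharComplete

/-!
# Averaging a character over a normal subgroup (helper22)

`S` is a finset of a finite group `K` carrying a normal subgroup (`IsNormalFinset`).
`avgS S φ g = ∑ a ∈ S, φ (a * g)` and `fixPart S φ = |S|⁻¹ • avgS S φ` (the character of the
`S`-fixed part when `φ` is a character).  Main facts: `φ - fixPart S φ` is a character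
(`isCharacter_sub_fixPart`), it is orthogonal to `fixPart S φ` (`fixPart_cross`), it vanishes at
elements with trivial centralizer in `S` (`fixPart_of_fpf`), and a nonzero character has
`∑ ‖ψ g‖² ≥ |K|` (`card_le_sum_normSq`).
-/

set_option autoImplicit false

namespace Cfsg.Agent.Helper22

open Cfsg Cfsg.Agent.Helper24

universe u

section Local

variable {K : Type u} [Group K] [Fintype K] [DecidableEq K]

/-- `S` is the element set of a normal subgroup -/
structure IsNormalFinset (S : Finset K) : Prop where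
  one_mem : (1 : K) ∈ S
  mul_mem : ∀ a ∈ S, ∀ b ∈ S, a * b ∈ S
  inv_mem : ∀ a ∈ S, a⁻¹ ∈ S
  conj_mem : ∀ x : K, ∀ a ∈ S, x * a * x⁻¹ ∈ S

/-- left-translate sum -/
noncomputable def avgS (S : Finset K) (φ : K → ℂ) (g : K) : ℂ := ∑ a ∈ S, φ (a * g)

/-- the `S`-fixed part of `φ` -/
noncomputable def fixPart (S : Finset K) (φ : K → ℂ) (g : K) : ℂ := (S.card : ℂ)⁻¹ * avgS S φ g

theorem IsNormalFinset.card_ne_zero {S : Finset K} (hS : IsNormalFinset S) : (S.card : ℂ) ≠ 0 :=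
  Nat.cast_ne_zero.mpr (Finset.card_pos.mpr ⟨1, hS.one_mem⟩).ne'

theorem avgS_mul_left {S : Finset K} (hS : IsNormalFinset S) (φ : K → ℂ) (b : K) (hb : b ∈ S)
    (g : K) : avgS S φ (b * g) = avgS S φ g := by
  unfold avgS
  exact Finset.sum_bij' (fun a _ => a * b) (fun a _ => a * b⁻¹)
    (fun a ha => hS.mul_mem a ha b hb) (fun a ha => hS.mul_mem a ha _ (hS.inv_mem b hb))
    (fun a _ => by simp) (fun a _ => by simp) (fun a _ => by rw [mul_assoc])

theorem fixPart_mul_left {S : Finset K} (hS : IsNormalFinset S) (φ : K → ℂ) (b : K) (hb : b ∈ S)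
    (g : K) : fixPart S φ (b * g) = fixPart S φ g := by
  unfold fixPart; rw [avgS_mul_left hS φ b hb g]

theorem irr_avgS {S : Finset K} (hS : IsNormalFinset S) (θ : IrrCharacter K) (g : K) :
    avgS S (θ : K → ℂ) g * (θ : K → ℂ) 1 = (θ : K → ℂ) g * avgS S (θ : K → ℂ) 1 := by
  obtain ⟨θ, n, ρ, hirr, rfl⟩ := θ
  haveI := hirr
  show (∑ a ∈ S, ρ.character (a * g)) * ρ.character 1 =
    ρ.character g * ∑ a ∈ S, ρ.character (a * 1)
  have hn : (Module.finrank ℂ (Fin n → ℂ) : ℂ) = ρ.character 1 := (Representation.char_one ρ).symm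
  have h1 : ρ.character 1 ≠ 0 := by
    rw [Representation.char_one]
    exact Nat.cast_ne_zero.mpr (finrank_pos_of_irreducible ρ).ne'
  have hK : (Nat.card K : ℂ) ≠ 0 := Nat.cast_ne_zero.mpr Nat.card_pos.ne'
  have key : ∀ a : K, ∑ x : K, ρ.character (x * a * x⁻¹ * g) =
      (Nat.card K : ℂ) * ρ.character a * ρ.character g / ρ.character 1 := fun a => by
    rw [sum_char_conj_mul ρ a g, hn]
  have e1 : ∑ a ∈ S, ∑ x : K, ρ.character (x * a * x⁻¹ * g) =
      (Nat.card K : ℂ) * ∑ a ∈ S, ρ.character (a * g) := by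
    rw [Finset.sum_comm]
    have : ∀ x : K, ∑ a ∈ S, ρ.character (x * a * x⁻¹ * g) = ∑ a ∈ S, ρ.character (a * g) := by
      intro x
      exact Finset.sum_bij' (fun a _ => x * a * x⁻¹) (fun a _ => x⁻¹ * a * x)
        (fun a ha => hS.conj_mem x a ha) (fun a ha => by simpa using hS.conj_mem x⁻¹ a ha)
        (fun a _ => by group) (fun a _ => by group) (fun a _ => rfl)
    rw [Finset.sum_congr rfl fun x _ => this x, Finset.sum_const, Finset.card_univ, nsmul_eq_mul,
      Nat.card_eq_fintype_card]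
  have e2 : ∑ a ∈ S, ∑ x : K, ρ.character (x * a * x⁻¹ * g) =
      (Nat.card K : ℂ) * (∑ a ∈ S, ρ.character a) * ρ.character g / ρ.character 1 := by
    rw [Finset.sum_congr rfl fun a _ => key a, ← Finset.sum_div, ← Finset.sum_mul,
      ← Finset.mul_sum]
  have e3 : (∑ a ∈ S, ρ.character (a * g)) =
      (∑ a ∈ S, ρ.character a) * ρ.character g / ρ.character 1 := by
    have h := e1.symm.trans e2
    apply mul_left_cancel₀ hK
    rw [h]; ring
  rw [e3]
  simp only [mul_one]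
  field_simp

theorem irr_avgS_cases {S : Finset K} (hS : IsNormalFinset S) (θ : IrrCharacter K) :
    (∀ g, avgS S (θ : K → ℂ) g = 0) ∨
      (∀ g, avgS S (θ : K → ℂ) g = (S.card : ℂ) * (θ : K → ℂ) g) := by
  have h1 := irr_one_ne_zero θ
  have hb : ∀ b ∈ S, avgS S (θ : K → ℂ) 1 * (θ : K → ℂ) 1 =
      (θ : K → ℂ) b * avgS S (θ : K → ℂ) 1 := by
    intro b hb
    have e := avgS_mul_left hS (θ : K → ℂ) b hb 1
    rw [mul_one] at e
    have h := irr_avgS hS θ b
    rw [e] at h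
    exact h
  have hs : avgS S (θ : K → ℂ) 1 = ∑ b ∈ S, (θ : K → ℂ) b := by
    unfold avgS; simp only [mul_one]
  have hsum : (S.card : ℂ) * (avgS S (θ : K → ℂ) 1 * (θ : K → ℂ) 1) =
      avgS S (θ : K → ℂ) 1 * avgS S (θ : K → ℂ) 1 := by
    have h : ∑ b ∈ S, avgS S (θ : K → ℂ) 1 * (θ : K → ℂ) 1 =
        ∑ b ∈ S, (θ : K → ℂ) b * avgS S (θ : K → ℂ) 1 := Finset.sum_congr rfl hb
    rw [Finset.sum_const, nsmul_eq_mul, ← Finset.sum_mul, ← hs] at h
    exact h
  by_cases h0 : avgS S (θ : K → ℂ) 1 = 0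
  · left
    intro g
    have h := irr_avgS hS θ g
    rw [h0, mul_zero] at h
    exact (mul_eq_zero.mp h).resolve_right h1
  · right
    intro g
    have hval : avgS S (θ : K → ℂ) 1 = (S.card : ℂ) * (θ : K → ℂ) 1 := by
      have h : avgS S (θ : K → ℂ) 1 * ((S.card : ℂ) * (θ : K → ℂ) 1) =
          avgS S (θ : K → ℂ) 1 * avgS S (θ : K → ℂ) 1 := by rw [← hsum]; ring
      exact (mul_left_cancel₀ h0 h).symm
    have h := irr_avgS hS θ g
    rw [hval] at h
    apply mul_right_cancel₀ h1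
    rw [h]; ring

theorem isCharacter_natCast_smul {ψ : K → ℂ} (hψ : IsCharacter K ψ) (m : ℕ) :
    IsCharacter K ((m : ℂ) • ψ) := by
  induction m with
  | zero => simp only [Nat.cast_zero, zero_smul]; exact isCharacter_zero
  | succ m ih => rw [Nat.cast_succ, add_smul, one_smul]; exact isCharacter_add ih hψ

theorem isCharacter_sub_fixPart {S : Finset K} (hS : IsNormalFinset S) {φ : K → ℂ}
    (hφ : IsCharacter K φ) : IsCharacter K (fun g => φ g - fixPart S φ g) := by
  classical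
  obtain ⟨c, hc, hdec⟩ := isCharacter_decomp hφ
  have hcard := hS.card_ne_zero
  have hφg : ∀ g, φ g = ∑ ψ : IrrCharacter K, (c ψ : ℂ) * (ψ : K → ℂ) g := by
    intro g
    have h := congrFun hdec g
    simpa only [Finset.sum_apply, Pi.smul_apply, smul_eq_mul] using h
  have havg : ∀ g, avgS S φ g = ∑ ψ : IrrCharacter K, (c ψ : ℂ) * avgS S (ψ : K → ℂ) g := by
    intro g
    unfold avgS
    rw [Finset.sum_congr rfl fun a _ => hφg (a * g), Finset.sum_comm]
    exact Finset.sum_congr rfl fun ψ _ => (Finset.mul_sum _ _ _).symm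
  have hfun : (fun g => φ g - fixPart S φ g) =
      ∑ ψ ∈ Finset.univ.filter (fun ψ : IrrCharacter K => ∀ g, avgS S (ψ : K → ℂ) g = 0),
        (c ψ : ℂ) • (ψ : K → ℂ) := by
    funext g
    unfold fixPart
    rw [Finset.sum_apply, havg g, Finset.mul_sum]
    conv_lhs => rw [hφg g]
    rw [← Finset.sum_sub_distrib, Finset.sum_filter]
    refine Finset.sum_congr rfl fun ψ _ => ?_
    by_cases hP : ∀ g, avgS S (ψ : K → ℂ) g = 0
    · rw [if_pos hP, hP g]; simp
    · rw [if_neg hP]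
      have h2 := (irr_avgS_cases hS ψ).resolve_left hP g
      have h3 : (S.card : ℂ)⁻¹ * ((c ψ : ℂ) * ((S.card : ℂ) * (ψ : K → ℂ) g)) =
          (c ψ : ℂ) * (ψ : K → ℂ) g := by
        rw [mul_left_comm, ← mul_assoc (S.card : ℂ)⁻¹, inv_mul_cancel₀ hcard, one_mul]
      rw [h2, h3, sub_self]
  rw [hfun]
  exact isCharacter_sum _ _ fun ψ _ =>
    isCharacter_natCast_smul (isCharacter_of_isIrrCharacter ψ.2) (c ψ)

theorem fixPart_cross {S : Finset K} (hS : IsNormalFinset S) (φ : K → ℂ) :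
    ∑ g : K, fixPart S φ g * starRingEnd ℂ (φ g - fixPart S φ g) = 0 := by
  have hcard := hS.card_ne_zero
  have hα : ∀ b ∈ S, ∀ g, fixPart S φ (b * g) = fixPart S φ g :=
    fun b hb g => fixPart_mul_left hS φ b hb g
  have hβ : ∀ g, ∑ b ∈ S, (φ (b * g) - fixPart S φ g) = 0 := by
    intro g
    rw [Finset.sum_sub_distrib, Finset.sum_const, nsmul_eq_mul]
    unfold fixPart
    rw [← mul_assoc, mul_inv_cancel₀ hcard, one_mul]
    exact sub_self _
  have hT : ∀ b ∈ S, ∑ g : K, fixPart S φ (b * g) *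
      starRingEnd ℂ (φ (b * g) - fixPart S φ (b * g)) =
      ∑ g : K, fixPart S φ g * starRingEnd ℂ (φ g - fixPart S φ g) :=
    fun b _ => Fintype.sum_equiv (Equiv.mulLeft b) _ _ fun g => rfl
  have h2 : ∑ b ∈ S, ∑ g : K, fixPart S φ (b * g) *
      starRingEnd ℂ (φ (b * g) - fixPart S φ (b * g)) = 0 := by
    rw [Finset.sum_comm]
    refine Finset.sum_eq_zero fun g _ => ?_
    have h3 : ∀ b ∈ S, fixPart S φ (b * g) * starRingEnd ℂ (φ (b * g) - fixPart S φ (b * g)) =
        fixPart S φ g * starRingEnd ℂ (φ (b * g) - fixPart S φ g) :=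
      fun b hb => by rw [hα b hb g]
    rw [Finset.sum_congr rfl h3, ← Finset.mul_sum, ← map_sum, hβ g, map_zero, mul_zero]
  rw [Finset.sum_congr rfl hT, Finset.sum_const, nsmul_eq_mul] at h2
  exact (mul_eq_zero.mp h2).resolve_left hcard

theorem avgS_of_fpf {S : Finset K} (hS : IsNormalFinset S) {φ : K → ℂ}
    (hφ : IsClassFunction K φ) (g : K) (hg : ∀ a ∈ S, a * g = g * a → a = 1) :
    avgS S φ g = (S.card : ℂ) * φ g := by
  obtain ⟨f, hf⟩ : ∃ f : K → K, ∀ b, f b = b * g * b⁻¹ * g⁻¹ := ⟨_, fun _ => rfl⟩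
  have hmem : ∀ b ∈ S, f b ∈ S := by
    intro b hb
    have h := hS.mul_mem b hb _ (hS.conj_mem g _ (hS.inv_mem b hb))
    have e : f b = b * (g * b⁻¹ * g⁻¹) := by rw [hf]; group
    rw [e]; exact h
  have hinj : Set.InjOn f (S : Set K) := by
    intro b hb b' hb' h
    rw [hf, hf] at h
    have e : b * g * b⁻¹ = b' * g * b'⁻¹ := mul_right_cancel h
    have e1 : b * g = b' * g * b'⁻¹ * b := by rw [← e]; group
    have e2 : b'⁻¹ * b * g = g * (b'⁻¹ * b) := by
      calc b'⁻¹ * b * g = b'⁻¹ * (b * g) := by group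
        _ = b'⁻¹ * (b' * g * b'⁻¹ * b) := by rw [e1]
        _ = g * (b'⁻¹ * b) := by group
    have h3 := hg _ (hS.mul_mem _ (hS.inv_mem b' hb') b hb) e2
    exact (inv_mul_eq_one.mp h3).symm
  have himg : S.image f = S := by
    apply Finset.eq_of_subset_of_card_le
    · intro x hx
      obtain ⟨b, hb, rfl⟩ := Finset.mem_image.mp hx
      exact hmem b hb
    · rw [Finset.card_image_of_injOn hinj]
  unfold avgS
  have e0 : ∑ a ∈ S, φ (a * g) = ∑ a ∈ S.image f, φ (a * g) := by rw [himg]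
  rw [e0, Finset.sum_image hinj]
  have e4 : ∀ b ∈ S, φ (f b * g) = φ g := by
    intro b _
    have e5 : f b * g = b * g * b⁻¹ := by rw [hf]; group
    rw [e5, hφ g b]
  rw [Finset.sum_congr rfl e4, Finset.sum_const, nsmul_eq_mul]

theorem fixPart_of_fpf {S : Finset K} (hS : IsNormalFinset S) {φ : K → ℂ}
    (hφ : IsClassFunction K φ) (g : K) (hg : ∀ a ∈ S, a * g = g * a → a = 1) :
    φ g - fixPart S φ g = 0 := by
  unfold fixPart
  rw [avgS_of_fpf hS hφ g hg, ← mul_assoc, inv_mul_cancel₀ hS.card_ne_zero, one_mul, sub_self]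

omit [DecidableEq K] in
theorem sum_normSq_eq_inner (ψ : K → ℂ) :
    ((∑ g : K, ‖ψ g‖ ^ 2 : ℝ) : ℂ) = (Nat.card K : ℂ) * classInner ψ ψ := by
  have hK : (Nat.card K : ℂ) ≠ 0 := Nat.cast_ne_zero.mpr Nat.card_pos.ne'
  rw [classInner_def', ← mul_assoc, mul_inv_cancel₀ hK, one_mul, Complex.ofReal_sum]
  refine Finset.sum_congr rfl fun g _ => ?_
  rw [Complex.mul_conj, Complex.normSq_eq_norm_sq]

omit [DecidableEq K] in
theorem card_le_sum_normSq {ψ : K → ℂ} (hψ : IsCharacter K ψ) (hne : ∃ g, ψ g ≠ 0) :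
    (Nat.card K : ℝ) ≤ ∑ g : K, ‖ψ g‖ ^ 2 := by
  obtain ⟨k, hk⟩ := classInner_isCharacter_natCast hψ hψ
  have h := sum_normSq_eq_inner ψ
  rw [hk] at h
  have hreal : (∑ g : K, ‖ψ g‖ ^ 2 : ℝ) = (Nat.card K : ℝ) * (k : ℝ) := by
    apply Complex.ofReal_injective
    rw [h]; push_cast; rfl
  have hkpos : 1 ≤ k := by
    by_contra h0
    have hk0 : k = 0 := by omega
    rw [hk0] at hreal
    simp only [Nat.cast_zero, mul_zero] at hreal
    obtain ⟨g, hg⟩ := hne
    have h1 := Finset.single_le_sum (f := fun g => ‖ψ g‖ ^ 2) (fun i _ => by positivity)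
      (Finset.mem_univ g)
    rw [hreal] at h1
    have h4 : ‖ψ g‖ ^ 2 = 0 := le_antisymm h1 (sq_nonneg _)
    exact hg (norm_eq_zero.mp ((pow_eq_zero_iff two_ne_zero).mp h4))
  rw [hreal]
  have h5 : (1 : ℝ) ≤ k := by exact_mod_cast hkpos
  nlinarith [show (0 : ℝ) ≤ Nat.card K from Nat.cast_nonneg _]

theorem sum_normSq_decomp {S : Finset K} (hS : IsNormalFinset S) (φ : K → ℂ) (D : Finset K)
    (hvan : ∀ g, g ∉ D → φ g - fixPart S φ g = 0) :
    ∑ g ∈ D, ‖φ g‖ ^ 2 =
      ∑ g ∈ D, ‖fixPart S φ g‖ ^ 2 + ∑ g : K, ‖φ g - fixPart S φ g‖ ^ 2 := by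
  have hcross := fixPart_cross hS φ
  have hpt : ∀ g, ‖φ g‖ ^ 2 = ‖fixPart S φ g‖ ^ 2 + ‖φ g - fixPart S φ g‖ ^ 2 +
      2 * (fixPart S φ g * starRingEnd ℂ (φ g - fixPart S φ g)).re := by
    intro g
    have h := Complex.normSq_add (fixPart S φ g) (φ g - fixPart S φ g)
    have e : fixPart S φ g + (φ g - fixPart S φ g) = φ g := by ring
    rw [e] at h
    simp only [Complex.normSq_eq_norm_sq] at h
    exact h
  have hsumD : ∑ g ∈ D, (fixPart S φ g * starRingEnd ℂ (φ g - fixPart S φ g)) = 0 := by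
    rw [Finset.sum_subset (Finset.subset_univ D)
      (fun g _ hg => by rw [hvan g hg, map_zero, mul_zero])]
    exact hcross
  have hβD : ∑ g ∈ D, ‖φ g - fixPart S φ g‖ ^ 2 = ∑ g : K, ‖φ g - fixPart S φ g‖ ^ 2 :=
    Finset.sum_subset (Finset.subset_univ D) (fun g _ hg => by rw [hvan g hg]; simp)
  have hre : ∑ g ∈ D, (fixPart S φ g * starRingEnd ℂ (φ g - fixPart S φ g)).re = 0 := by
    rw [← Complex.re_sum, hsumD, Complex.zero_re]
  rw [Finset.sum_congr rfl fun g _ => hpt g, Finset.sum_add_distrib, Finset.sum_add_distrib,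
    hβD, ← Finset.mul_sum, hre, mul_zero, add_zero]

end Local

end Cfsg.Agent.Helper22
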