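import Mathlib
import Cfsg.Agent.Helper22.FT2
import Cfsg.Agent.Helper5.CentralChar
import Cfsg.Agent.Helper5.Isom
import Cfsg.Agent.Helper24.CharDecomp
import Cfsg.Agent.Helper24.CharEigen

/-!
# The Feit–Thompson inequality, second half (helper22)

`sum_normSq_abelian_ge`: for a character `χ` and an abelian subgroup `H`,
`|H| χ(1) ≤ ∑_{h ∈ H} |χ(h)|²`.  `exists_ne_of_not_one`: if no proper normal subgroup contains
`H`, then `H` is not in the kernel of a nonprincipal irreducible character.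
`ft_bound2`: under the Feit–Thompson hypothesis, `|H| < (1 + χ(1))²` for nonlinear `χ`.
-/

set_option autoImplicit false

namespace Cfsg.Agent.Helper22

open Cfsg Cfsg.Agent.Helper24

universe u

section Global

variable {G : Type u} [Group G] [Fintype G] [DecidableEq G]

omit [DecidableEq G] in
theorem sum_normSq_abelian_ge (H : Subgroup G) (hab : ∀ a ∈ H, ∀ b ∈ H, a * b = b * a)
    {χ : G → ℂ} (hχ : IsCharacter G χ) (HF : Finset G) (hHF : ∀ y, y ∈ HF ↔ y ∈ H) :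
    (HF.card : ℝ) * ‖χ 1‖ ≤ ∑ h ∈ HF, ‖χ h‖ ^ 2 := by
  classical
  haveI : Fintype ↥H := Fintype.ofFinite _
  have hcard : Nat.card ↥H = HF.card := Nat.subtype_card HF hHF
  have hχH : IsCharacter ↥H (fun h : ↥H => χ h) := isCharacter_restrict H hχ
  obtain ⟨a, ha, hdec⟩ := isCharacter_decomp hχH
  have habH : ∀ x y : ↥H, x * y = y * x := fun x y => Subtype.ext (hab x x.2 y y.2)
  have h1 : χ 1 = ((∑ θ : IrrCharacter ↥H, a θ : ℕ) : ℂ) := by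
    have h := congrFun hdec 1
    simp only [Finset.sum_apply, Pi.smul_apply, smul_eq_mul, OneMemClass.coe_one] at h
    rw [h, Nat.cast_sum]
    refine Finset.sum_congr rfl fun θ _ => ?_
    rw [irr_one_of_comm habH θ, mul_one]
  have h2 : classInner (fun h : ↥H => χ h) (fun h : ↥H => χ h) =
      ((∑ θ : IrrCharacter ↥H, a θ * a θ : ℕ) : ℂ) := by
    have e : classInner (fun h : ↥H => χ h) (fun h : ↥H => χ h) =
        classInner (∑ θ : IrrCharacter ↥H, (a θ : ℂ) • (θ : ↥H → ℂ)) (fun h : ↥H => χ h) :=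
      congrArg (fun f => classInner f (fun h : ↥H => χ h)) hdec
    rw [e, classInner_sum_left, Nat.cast_sum]
    refine Finset.sum_congr rfl fun θ _ => ?_
    rw [classInner_smul_left, classInner_conj_symm, ha θ, Complex.conj_natCast, Nat.cast_mul]
  have h3 := sum_normSq_eq_inner (fun h : ↥H => χ h)
  rw [h2, hcard] at h3
  have h4 : (∑ g : ↥H, ‖χ (g : G)‖ ^ 2 : ℝ) =
      (HF.card : ℝ) * ((∑ θ : IrrCharacter ↥H, a θ * a θ : ℕ) : ℝ) := by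
    exact_mod_cast h3
  have hsum : ∑ h ∈ HF, ‖χ h‖ ^ 2 = ∑ g : ↥H, ‖χ (g : G)‖ ^ 2 :=
    Finset.sum_subtype HF hHF (fun h => ‖χ h‖ ^ 2)
  rw [hsum, h4, h1, Complex.norm_natCast]
  refine mul_le_mul_of_nonneg_left ?_ (Nat.cast_nonneg _)
  have h5 : ∑ θ : IrrCharacter ↥H, a θ ≤ ∑ θ : IrrCharacter ↥H, a θ * a θ :=
    Finset.sum_le_sum fun θ _ => Nat.le_mul_self _
  exact_mod_cast h5

omit [DecidableEq G] in
theorem exists_ne_of_not_one (H : Subgroup G)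
    (hM : ∀ M : Subgroup G, M.Normal → H ≤ M → M = ⊤) (ψ : IrrCharacter G)
    (hne : (ψ : G → ℂ) ≠ fun _ => 1) : ∃ h ∈ H, (ψ : G → ℂ) h ≠ (ψ : G → ℂ) 1 := by
  by_contra hcon
  have hall : ∀ h ∈ H, (ψ : G → ℂ) h = (ψ : G → ℂ) 1 := by
    intro h hh
    by_contra h'
    exact hcon ⟨h, hh, h'⟩
  obtain ⟨n, ρ, hρ, hψ⟩ := ψ.2
  have hker : H ≤ MonoidHom.ker ρ := by
    intro h hh
    rw [MonoidHom.mem_ker]
    have h1 := hall h hh
    rw [← hψ, Representation.char_one] at h1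
    exact (char_eq_finrank_iff ρ h).mp h1
  have htop := hM _ inferInstance hker
  have hconst : ∀ g : G, (ψ : G → ℂ) g = (ψ : G → ℂ) 1 := by
    intro g
    have hg : g ∈ MonoidHom.ker ρ := by rw [htop]; exact Subgroup.mem_top g
    rw [MonoidHom.mem_ker] at hg
    rw [← hψ]
    show LinearMap.trace ℂ _ (ρ g) = LinearMap.trace ℂ _ (ρ 1)
    rw [hg, map_one ρ]
  have h0 : classInner (ψ : G → ℂ) (fun _ => (1 : ℂ)) = 0 := by
    have h := irr_orthonormal ψ ⟨fun _ => 1, isIrrCharacter_one⟩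
    rw [if_neg (fun h => hne (congrArg Subtype.val h))] at h
    exact h
  have h1 : classInner (ψ : G → ℂ) (fun _ => (1 : ℂ)) = (ψ : G → ℂ) 1 := by
    have hs : ∑ g : G, (ψ : G → ℂ) g * starRingEnd ℂ (1 : ℂ) =
        (Nat.card G : ℂ) * (ψ : G → ℂ) 1 := by
      have hs' : ∀ g ∈ (Finset.univ : Finset G),
          (ψ : G → ℂ) g * starRingEnd ℂ (1 : ℂ) = (ψ : G → ℂ) 1 := by
        intro g _
        rw [hconst g, map_one, mul_one]
      rw [Finset.sum_congr rfl hs', Finset.sum_const, Finset.card_univ, nsmul_eq_mul,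
        Nat.card_eq_fintype_card]
    show (Nat.card G : ℂ)⁻¹ * ∑ g : G, (ψ : G → ℂ) g * starRingEnd ℂ (1 : ℂ) = _
    rw [hs, ← mul_assoc, inv_mul_cancel₀ (Nat.cast_ne_zero.mpr Nat.card_pos.ne'), one_mul]
  exact irr_one_ne_zero ψ (h1.symm.trans h0)

theorem ft_bound2 {H : Subgroup G} (hH : FTHyp H) (χ : IrrCharacter G)
    (hχ1 : (χ : G → ℂ) 1 ≠ 1) (hM : ∀ M : Subgroup G, M.Normal → H ≤ M → M = ⊤)
    (HF : Finset G) (hHF : ∀ y, y ∈ HF ↔ y ∈ H) :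
    (HF.card : ℝ) < (1 + ‖(χ : G → ℂ) 1‖) ^ 2 := by
  classical
  obtain ⟨n, hn, hχn⟩ := Cfsg.Agent.Helper5.irr_one_eq_natCast_pos χ
  have hn2 : 2 ≤ n := by
    rcases Nat.lt_or_ge n 2 with h | h
    · exfalso
      have h1 : n = 1 := by omega
      rw [h1, Nat.cast_one] at hχn
      exact hχ1 hχn
    · exact h
  have hf : ‖(χ : G → ℂ) 1‖ = (n : ℝ) := by rw [hχn, Complex.norm_natCast]
  have hf2 : (2 : ℝ) ≤ ‖(χ : G → ℂ) 1‖ := by rw [hf]; exact_mod_cast hn2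
  obtain ⟨f, hfdef⟩ : ∃ f : ℝ, f = ‖(χ : G → ℂ) 1‖ := ⟨_, rfl⟩
  rw [← hfdef] at hf2 ⊢
  have hcpos : 0 < HF.card := Finset.card_pos.mpr ⟨1, (hHF 1).mpr H.one_mem⟩
  have hcR : (0 : ℝ) < HF.card := by exact_mod_cast hcpos
  have hcC : (HF.card : ℂ) ≠ 0 := Nat.cast_ne_zero.mpr hcpos.ne'
  obtain ⟨s, hs0, hss⟩ : ∃ s : ℝ, 0 ≤ s ∧ s * s = (HF.card : ℝ) :=
    ⟨Real.sqrt HF.card, Real.sqrt_nonneg _, Real.mul_self_sqrt hcR.le⟩
  -- the character Ψ = χ χ̄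
  have hχc : IsCharacter G (χ : G → ℂ) := isCharacter_of_isIrrCharacter χ.2
  have hΨ0 : IsCharacter G ((χ : G → ℂ) * fun g => starRingEnd ℂ ((χ : G → ℂ) g)) :=
    Cfsg.Agent.Helper5.isCharacter_mul hχc (isCharacter_star hχc)
  obtain ⟨Ψ, hΨdef⟩ : ∃ Ψ : G → ℂ,
      Ψ = (χ : G → ℂ) * fun g => starRingEnd ℂ ((χ : G → ℂ) g) := ⟨_, rfl⟩
  have hΨ : IsCharacter G Ψ := by rw [hΨdef]; exact hΨ0
  have hΨapp : ∀ g, Ψ g = ((‖(χ : G → ℂ) g‖ ^ 2 : ℝ) : ℂ) := by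
    intro g
    rw [hΨdef, Pi.mul_apply, Complex.mul_conj, Complex.normSq_eq_norm_sq]
  obtain ⟨m, hm, hdec⟩ := isCharacter_decomp hΨ
  have hdec' : ∀ h : G, Ψ h = ∑ ψ : IrrCharacter G, (m ψ : ℂ) * (ψ : G → ℂ) h := by
    intro h
    have h2 := congrFun hdec h
    simp only [Finset.sum_apply, Pi.smul_apply, smul_eq_mul] at h2
    exact h2
  obtain ⟨one', hone'⟩ : ∃ o : IrrCharacter G, (o : G → ℂ) = fun _ => 1 :=
    ⟨⟨fun _ => 1, isIrrCharacter_one⟩, rfl⟩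
  have hone1 : ∀ g : G, (one' : G → ℂ) g = 1 := by
    intro g; rw [hone']
  have hm1 : m one' = 1 := by
    have h := hm one'
    have h2 : classInner Ψ (one' : G → ℂ) = classInner (χ : G → ℂ) (χ : G → ℂ) := by
      rw [classInner_def', classInner_def']
      congr 1
      refine Finset.sum_congr rfl fun g _ => ?_
      rw [hone1 g, map_one, mul_one, hΨdef, Pi.mul_apply]
    rw [h2, irr_inner_self] at h
    exact_mod_cast h.symm
  -- the averaging functional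
  obtain ⟨av, hav⟩ : ∃ av : (G → ℂ) → ℂ, ∀ φ, av φ = (HF.card : ℂ)⁻¹ * ∑ h ∈ HF, φ h :=
    ⟨_, fun _ => rfl⟩
  have havΨ : av Ψ = ∑ ψ : IrrCharacter G, (m ψ : ℂ) * av (ψ : G → ℂ) := by
    rw [hav]
    have h3 : ∑ h ∈ HF, Ψ h = ∑ h ∈ HF, ∑ ψ : IrrCharacter G, (m ψ : ℂ) * (ψ : G → ℂ) h :=
      Finset.sum_congr rfl (fun h _ => hdec' h)
    rw [h3, Finset.sum_comm, Finset.mul_sum]
    refine Finset.sum_congr rfl fun ψ _ => ?_
    rw [hav, ← Finset.mul_sum]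
    ring
  have hav1 : av (one' : G → ℂ) = 1 := by
    rw [hav]
    have h3 : ∑ h ∈ HF, (one' : G → ℂ) h = (HF.card : ℂ) := by
      rw [Finset.sum_congr rfl (fun h _ => hone1 h), Finset.sum_const, nsmul_eq_mul, mul_one]
    rw [h3, inv_mul_cancel₀ hcC]
  obtain ⟨X, hXdef⟩ : ∃ X : ℝ, X = (HF.card : ℝ)⁻¹ * ∑ h ∈ HF, ‖(χ : G → ℂ) h‖ ^ 2 :=
    ⟨_, rfl⟩
  have hX : av Ψ = (X : ℂ) := by
    rw [hav, hXdef]
    have h3 : ∑ h ∈ HF, Ψ h = ((∑ h ∈ HF, ‖(χ : G → ℂ) h‖ ^ 2 : ℝ) : ℂ) := by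
      rw [Complex.ofReal_sum]
      exact Finset.sum_congr rfl (fun h _ => hΨapp h)
    rw [h3, Complex.ofReal_mul, Complex.ofReal_inv, Complex.ofReal_natCast]
  have hXf : f ≤ X := by
    have h1 := sum_normSq_abelian_ge H hH.ab hχc HF hHF
    rw [← hfdef] at h1
    rw [hXdef, le_inv_mul_iff₀ hcR]
    exact h1
  have hX0 : 0 ≤ X := by
    rw [hXdef]
    exact mul_nonneg (inv_nonneg.mpr hcR.le) (Finset.sum_nonneg fun h _ => by positivity)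
  have hXle : X ≤ ∑ ψ : IrrCharacter G, (m ψ : ℝ) * ‖av (ψ : G → ℂ)‖ := by
    have h1 : ‖av Ψ‖ = X := by
      rw [hX, Complex.norm_real, Real.norm_of_nonneg hX0]
    rw [← h1, havΨ]
    refine (norm_sum_le _ _).trans (le_of_eq ?_)
    refine Finset.sum_congr rfl fun ψ _ => ?_
    rw [norm_mul, Complex.norm_natCast]
  have hlt : ∀ ψ : IrrCharacter G, ψ ≠ one' →
      s * ‖av (ψ : G → ℂ)‖ < ‖(ψ : G → ℂ) 1‖ := by
    intro ψ hψ
    have hne : (ψ : G → ℂ) ≠ fun _ => 1 := by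
      intro h
      exact hψ (Subtype.ext (h.trans hone'.symm))
    have hex := exists_ne_of_not_one H hM ψ hne
    have hb := ft_bound hH ψ hex HF hHF
    have hb' : (HF.card : ℝ) * ‖av (ψ : G → ℂ)‖ ^ 2 < ‖(ψ : G → ℂ) 1‖ ^ 2 := by
      rw [hav]; exact hb
    by_contra hcon
    have hge : ‖(ψ : G → ℂ) 1‖ ≤ s * ‖av (ψ : G → ℂ)‖ := not_lt.mp hcon
    have h2 := pow_le_pow_left₀ (norm_nonneg _) hge 2
    have h3 : (s * ‖av (ψ : G → ℂ)‖) ^ 2 = (HF.card : ℝ) * ‖av (ψ : G → ℂ)‖ ^ 2 := by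
      rw [← hss]; ring
    rw [h3] at h2
    exact absurd hb' (not_lt.mpr h2)
  have hff : f ^ 2 = ∑ ψ : IrrCharacter G, (m ψ : ℝ) * ‖(ψ : G → ℂ) 1‖ := by
    apply Complex.ofReal_injective
    rw [hfdef, ← hΨapp 1, Complex.ofReal_sum, hdec' 1]
    refine Finset.sum_congr rfl fun ψ _ => ?_
    obtain ⟨k, _, hk⟩ := Cfsg.Agent.Helper5.irr_one_eq_natCast_pos ψ
    rw [hk, Complex.norm_natCast, Complex.ofReal_mul, Complex.ofReal_natCast,
      Complex.ofReal_natCast]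
  -- split off the principal character
  have hsplit1 : ∑ ψ : IrrCharacter G, (m ψ : ℝ) * ‖av (ψ : G → ℂ)‖ =
      1 + ∑ ψ ∈ Finset.univ.erase one', (m ψ : ℝ) * ‖av (ψ : G → ℂ)‖ := by
    rw [← Finset.add_sum_erase Finset.univ _ (Finset.mem_univ one'), hm1, hav1,
      Nat.cast_one, norm_one, one_mul]
  have hsplit2 : ∑ ψ : IrrCharacter G, (m ψ : ℝ) * ‖(ψ : G → ℂ) 1‖ =
      1 + ∑ ψ ∈ Finset.univ.erase one', (m ψ : ℝ) * ‖(ψ : G → ℂ) 1‖ := by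
    rw [← Finset.add_sum_erase Finset.univ _ (Finset.mem_univ one'), hm1, hone1 1,
      Nat.cast_one, norm_one, one_mul]
  have hR : s * ∑ ψ ∈ Finset.univ.erase one', (m ψ : ℝ) * ‖av (ψ : G → ℂ)‖ <
      ∑ ψ ∈ Finset.univ.erase one', (m ψ : ℝ) * ‖(ψ : G → ℂ) 1‖ := by
    rw [Finset.mul_sum]
    have hex : ∃ ψ₀ ∈ Finset.univ.erase one', 0 < m ψ₀ := by
      by_contra hcon
      have hz : ∀ ψ ∈ Finset.univ.erase one', (m ψ : ℝ) * ‖(ψ : G → ℂ) 1‖ = 0 := by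
        intro ψ hψ
        have h0 : m ψ = 0 := by
          by_contra h0
          exact hcon ⟨ψ, hψ, Nat.pos_of_ne_zero h0⟩
        rw [h0, Nat.cast_zero, zero_mul]
      rw [hsplit2, Finset.sum_eq_zero hz, add_zero] at hff
      nlinarith
    obtain ⟨ψ₀, hψ₀, hmψ₀⟩ := hex
    refine Finset.sum_lt_sum (fun ψ hψ => ?_) ⟨ψ₀, hψ₀, ?_⟩
    · have h1 := (hlt ψ (Finset.ne_of_mem_erase hψ)).le
      have h2 : (0 : ℝ) ≤ m ψ := Nat.cast_nonneg _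
      calc s * ((m ψ : ℝ) * ‖av (ψ : G → ℂ)‖)
          = (m ψ : ℝ) * (s * ‖av (ψ : G → ℂ)‖) := by ring
        _ ≤ (m ψ : ℝ) * ‖(ψ : G → ℂ) 1‖ := mul_le_mul_of_nonneg_left h1 h2
    · have h1 := hlt ψ₀ (Finset.ne_of_mem_erase hψ₀)
      have h2 : (0 : ℝ) < m ψ₀ := by exact_mod_cast hmψ₀
      calc s * ((m ψ₀ : ℝ) * ‖av (ψ₀ : G → ℂ)‖)
          = (m ψ₀ : ℝ) * (s * ‖av (ψ₀ : G → ℂ)‖) := by ring
        _ < (m ψ₀ : ℝ) * ‖(ψ₀ : G → ℂ) 1‖ := mul_lt_mul_of_pos_left h1 h2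
  -- conclude
  have hfin : s * f < s + (f ^ 2 - 1) := by
    have h1 : s * f ≤ s * X := mul_le_mul_of_nonneg_left hXf hs0
    have h2 : s * X ≤
        s * (1 + ∑ ψ ∈ Finset.univ.erase one', (m ψ : ℝ) * ‖av (ψ : G → ℂ)‖) := by
      rw [← hsplit1]; exact mul_le_mul_of_nonneg_left hXle hs0
    have h3 : f ^ 2 - 1 = ∑ ψ ∈ Finset.univ.erase one', (m ψ : ℝ) * ‖(ψ : G → ℂ) 1‖ := by
      rw [hff, hsplit2]; ring
    rw [h3]
    linarith
  have hsf : s < f + 1 := by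
    by_contra hcon
    have h1 : f + 1 ≤ s := not_lt.mp hcon
    nlinarith [mul_nonneg (sub_nonneg.mpr h1) (by linarith : (0 : ℝ) ≤ f - 1)]
  rw [← hss]
  nlinarith [mul_self_lt_mul_self hs0 hsf]

end Global

end Cfsg.Agent.Helper22
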