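import Mathlib
import Cfsg.Agent.Helper22.FT3

/-!
# `p`-closed subgroups, conjugate Sylow subgroups and the transfer kernel (helper22)

`IsPElt p x` : `x` is a `p`-element.  `PClosed p K` : the `p`-elements of the subgroup `K` are
closed under multiplication (equivalently `K` has a normal Sylow `p`-subgroup).  Toolkit:
`pSub` (the subgroup of `p`-elements), `exists_conj_of_pclosed`, `pclosed_of_conj`,
`mem_sylow_of_pclosed_top`, transport along `K.subtype` (`pclosed_map_iff`, `pclosed_top_iff`),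
`inter_conj_central` (in a group all of whose proper subgroups are `p`-closed, two distinct
abelian Sylow `p`-subgroups meet in the centre), and `exists_transfer_ker` (kernel of the
transfer into an abelian subgroup).
-/

set_option autoImplicit false

namespace Cfsg.Agent.Helper22

open Cfsg Cfsg.Agent.Helper24

universe u

section PClosed

variable {G : Type u} [Group G]

/-- `x` is a `p`-element -/
def IsPElt (p : ℕ) (x : G) : Prop := ∃ j : ℕ, x ^ p ^ j = 1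

/-- the `p`-elements of `K` are closed under multiplication -/
def PClosed (p : ℕ) (K : Subgroup G) : Prop :=
  ∀ x ∈ K, ∀ y ∈ K, IsPElt p x → IsPElt p y → IsPElt p (x * y)

theorem IsPElt.one (p : ℕ) : IsPElt p (1 : G) := ⟨0, one_pow _⟩

theorem IsPElt.inv {p : ℕ} {x : G} (h : IsPElt p x) : IsPElt p x⁻¹ := by
  obtain ⟨j, hj⟩ := h
  exact ⟨j, by rw [inv_pow, hj, inv_one]⟩

theorem IsPElt.conj {p : ℕ} {x : G} (h : IsPElt p x) (g : G) : IsPElt p (g * x * g⁻¹) := by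
  obtain ⟨j, hj⟩ := h
  exact ⟨j, by rw [conj_pow, hj, mul_one, mul_inv_cancel]⟩

theorem isPElt_of_mem_sylow {p : ℕ} (P : Sylow p G) {x : G} (hx : x ∈ (P : Subgroup G)) :
    IsPElt p x := by
  obtain ⟨j, hj⟩ := P.isPGroup' ⟨x, hx⟩
  have h := congrArg Subtype.val hj
  exact ⟨j, h⟩

/-- the `p`-elements of a `p`-closed subgroup -/
def pSub (p : ℕ) (K : Subgroup G) (h : PClosed p K) : Subgroup G where
  carrier := {x | x ∈ K ∧ IsPElt p x}
  mul_mem' := fun {a b} ha hb => ⟨K.mul_mem ha.1 hb.1, h a ha.1 b hb.1 ha.2 hb.2⟩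
  one_mem' := ⟨K.one_mem, IsPElt.one p⟩
  inv_mem' := fun {a} ha => ⟨K.inv_mem ha.1, ha.2.inv⟩

theorem mem_pSub {p : ℕ} {K : Subgroup G} (h : PClosed p K) (x : G) :
    x ∈ pSub p K h ↔ x ∈ K ∧ IsPElt p x := Iff.rfl

theorem pSub_isPGroup {p : ℕ} {K : Subgroup G} (h : PClosed p K) :
    IsPGroup p ↥(pSub p K h) := by
  intro x
  obtain ⟨j, hj⟩ := ((mem_pSub h x.1).mp x.2).2
  exact ⟨j, Subtype.ext hj⟩

theorem mem_smul_sylow {p : ℕ} (g : G) (P : Sylow p G) (x : G) :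
    x ∈ ((g • P : Sylow p G) : Subgroup G) ↔ g⁻¹ * x * g ∈ (P : Subgroup G) := by
  rw [Sylow.coe_subgroup_smul, Subgroup.mem_pointwise_smul_iff_inv_smul_mem,
    ← map_inv MulAut.conj g, MulAut.smul_def, MulAut.conj_apply, inv_inv]

theorem exists_conj_of_pclosed {p : ℕ} [Fact p.Prime] [Finite G] (P : Sylow p G)
    {K : Subgroup G} (hK : PClosed p K) :
    ∃ c : G, ∀ x ∈ K, IsPElt p x → c⁻¹ * x * c ∈ (P : Subgroup G) := by
  obtain ⟨Q, hQ⟩ := (pSub_isPGroup hK).exists_le_sylow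
  obtain ⟨c, hc⟩ := MulAction.exists_smul_eq G P Q
  refine ⟨c, fun x hx hpx => ?_⟩
  have h1 : x ∈ ((c • P : Sylow p G) : Subgroup G) := by
    rw [hc]; exact hQ ((mem_pSub hK x).mpr ⟨hx, hpx⟩)
  exact (mem_smul_sylow c P x).mp h1

theorem mem_of_isPElt_of_conj {p : ℕ} [Fact p.Prime] [Finite G] (P : Sylow p G)
    (hN : ∀ g x : G, x ∈ (P : Subgroup G) → g * x * g⁻¹ ∈ (P : Subgroup G)) {x : G}
    (hx : IsPElt p x) : x ∈ (P : Subgroup G) := by
  obtain ⟨j, hj⟩ := hx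
  have hZ : IsPGroup p ↥(Subgroup.zpowers x) := by
    have hdvd : orderOf x ∣ p ^ j := orderOf_dvd_of_pow_eq_one hj
    obtain ⟨i, -, hi⟩ := (Nat.dvd_prime_pow (Fact.out : p.Prime)).mp hdvd
    exact IsPGroup.of_card (n := i) (by rw [Nat.card_zpowers, hi])
  obtain ⟨Q, hQ⟩ := hZ.exists_le_sylow
  obtain ⟨c, hc⟩ := MulAction.exists_smul_eq G Q P
  have h1 : x ∈ (Q : Subgroup G) := hQ (Subgroup.mem_zpowers x)
  have h2 : c * x * c⁻¹ ∈ ((c • Q : Sylow p G) : Subgroup G) := by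
    rw [mem_smul_sylow]
    have e : c⁻¹ * (c * x * c⁻¹) * c = x := by group
    rw [e]; exact h1
  rw [hc] at h2
  have h3 := hN c⁻¹ _ h2
  have e : c⁻¹ * (c * x * c⁻¹) * c⁻¹⁻¹ = x := by group
  rw [e] at h3
  exact h3

theorem pclosed_of_conj {p : ℕ} [Fact p.Prime] [Finite G] (P : Sylow p G)
    (hN : ∀ g x : G, x ∈ (P : Subgroup G) → g * x * g⁻¹ ∈ (P : Subgroup G)) (K : Subgroup G) :
    PClosed p K := by
  intro x _ y _ hx hy
  exact isPElt_of_mem_sylow P ((P : Subgroup G).mul_mem (mem_of_isPElt_of_conj P hN hx)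
    (mem_of_isPElt_of_conj P hN hy))

theorem mem_sylow_of_pclosed_top {p : ℕ} (P : Sylow p G) (h : PClosed p (⊤ : Subgroup G))
    {x : G} (hx : IsPElt p x) : x ∈ (P : Subgroup G) := by
  have hle : (P : Subgroup G) ≤ pSub p ⊤ h := fun y hy =>
    (mem_pSub h y).mpr ⟨Subgroup.mem_top y, isPElt_of_mem_sylow P hy⟩
  have heq := P.is_maximal' (pSub_isPGroup h) hle
  rw [← heq]
  exact (mem_pSub h x).mpr ⟨Subgroup.mem_top x, hx⟩

theorem isPElt_coe {p : ℕ} {K : Subgroup G} (x : ↥K) : IsPElt p (x : G) ↔ IsPElt p x := by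
  constructor
  · rintro ⟨j, hj⟩
    exact ⟨j, Subtype.ext hj⟩
  · rintro ⟨j, hj⟩
    exact ⟨j, congrArg Subtype.val hj⟩

theorem pclosed_top_iff {p : ℕ} {K : Subgroup G} :
    PClosed p (⊤ : Subgroup ↥K) ↔ PClosed p K := by
  constructor
  · intro h x hx y hy hpx hpy
    have h1 := h ⟨x, hx⟩ (Subgroup.mem_top _) ⟨y, hy⟩ (Subgroup.mem_top _)
      ((isPElt_coe (⟨x, hx⟩ : ↥K)).mp hpx) ((isPElt_coe (⟨y, hy⟩ : ↥K)).mp hpy)
    exact (isPElt_coe ((⟨x, hx⟩ : ↥K) * (⟨y, hy⟩ : ↥K))).mpr h1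
  · intro h x _ y _ hpx hpy
    exact (isPElt_coe (x * y)).mp
      (h x x.2 y y.2 ((isPElt_coe x).mpr hpx) ((isPElt_coe y).mpr hpy))

theorem pclosed_map_iff {p : ℕ} {K : Subgroup G} (L : Subgroup ↥K) :
    PClosed p (L.map K.subtype) ↔ PClosed p L := by
  constructor
  · intro h x hx y hy hpx hpy
    exact (isPElt_coe (x * y)).mp (h x (Subgroup.mem_map_of_mem K.subtype hx) y
      (Subgroup.mem_map_of_mem K.subtype hy) ((isPElt_coe x).mpr hpx) ((isPElt_coe y).mpr hpy))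
  · intro h x hx y hy hpx hpy
    obtain ⟨x', hx', rfl⟩ := Subgroup.mem_map.mp hx
    obtain ⟨y', hy', rfl⟩ := Subgroup.mem_map.mp hy
    exact (isPElt_coe (x' * y')).mpr (h x' hx' y' hy' ((isPElt_coe x').mp hpx)
      ((isPElt_coe y').mp hpy))

theorem mem_map_conj_iff (H : Subgroup G) (a x : G) :
    x ∈ H.map (MulAut.conj a).toMonoidHom ↔ a⁻¹ * x * a ∈ H := by
  rw [Subgroup.mem_map]
  constructor
  · rintro ⟨y, hy, rfl⟩
    have e : a⁻¹ * (a * y * a⁻¹) * a = y := by group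
    have e' : a⁻¹ * ((MulAut.conj a).toMonoidHom y) * a = y := e
    rw [e']; exact hy
  · intro h
    refine ⟨a⁻¹ * x * a, h, ?_⟩
    show a * (a⁻¹ * x * a) * a⁻¹ = x
    group

theorem isPElt_pow_inv {p : ℕ} (hp : p.Prime) {h : G} (hh : IsPElt p h) {M : ℕ}
    (hM : ¬ p ∣ M) : ∃ e : ℕ, (h ^ M) ^ e = h := by
  obtain ⟨j, hj⟩ := hh
  rcases Nat.eq_or_lt_of_le (Nat.one_le_pow j p hp.pos) with h1 | h1
  · refine ⟨0, ?_⟩
    rw [← h1, pow_one] at hj
    rw [pow_zero, hj]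
  · have hcop : Nat.Coprime M (p ^ j) :=
      Nat.Coprime.pow_right j ((Nat.Prime.coprime_iff_not_dvd hp).mpr hM).symm
    obtain ⟨m, -, hm⟩ := Nat.exists_mul_mod_eq_one_of_coprime hcop h1
    refine ⟨m, ?_⟩
    have e := Nat.div_add_mod (M * m) (p ^ j)
    rw [hm] at e
    have e2 : h ^ (p ^ j * (M * m / p ^ j) + 1) = h := by
      rw [pow_add, pow_mul, hj, one_pow, one_mul, pow_one]
    rw [e] at e2
    rw [← pow_mul]; exact e2

theorem isPElt_eq_one_of_pow {p : ℕ} (hp : p.Prime) {z : G} (hz : IsPElt p z) {M : ℕ}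
    (hM : ¬ p ∣ M) (h : z ^ M = 1) : z = 1 := by
  obtain ⟨e, he⟩ := isPElt_pow_inv hp hz hM
  rw [← he, h, one_pow]

theorem inter_conj_central {p : ℕ} [Fact p.Prime] [Finite G] (P : Sylow p G)
    (hab : ∀ a ∈ (P : Subgroup G), ∀ b ∈ (P : Subgroup G), a * b = b * a)
    (hsub : ∀ K : Subgroup G, K ≠ ⊤ → PClosed p K) (g : G) (hg : g • P ≠ P) {z : G}
    (hz : z ∈ (P : Subgroup G)) (hz' : g⁻¹ * z * g ∈ (P : Subgroup G)) :
    z ∈ Subgroup.center G := by
  have hab2 : ∀ a ∈ ((g • P : Sylow p G) : Subgroup G), a * z = z * a := by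
    intro a ha
    have h1 := (mem_smul_sylow g P a).mp ha
    have h2 := hab _ h1 _ hz'
    have e1 : a * z = g * ((g⁻¹ * a * g) * (g⁻¹ * z * g)) * g⁻¹ := by group
    have e2 : z * a = g * ((g⁻¹ * z * g) * (g⁻¹ * a * g)) * g⁻¹ := by group
    rw [e1, e2, h2]
  have hsup : (P : Subgroup G) ⊔ ((g • P : Sylow p G) : Subgroup G) = ⊤ := by
    by_contra hne
    have hc := hsub _ hne
    have h1 : pSub p _ hc = (P : Subgroup G) :=
      P.is_maximal' (pSub_isPGroup hc) (fun y hy =>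
        (mem_pSub hc y).mpr ⟨(le_sup_left : (P : Subgroup G) ≤ _) hy,
          isPElt_of_mem_sylow P hy⟩)
    have h2 : pSub p _ hc = ((g • P : Sylow p G) : Subgroup G) :=
      (g • P).is_maximal' (pSub_isPGroup hc) (fun y hy =>
        (mem_pSub hc y).mpr ⟨(le_sup_right : ((g • P : Sylow p G) : Subgroup G) ≤ _) hy,
          isPElt_of_mem_sylow (g • P) hy⟩)
    exact hg (Sylow.ext (h2.symm.trans h1))
  have hle : (P : Subgroup G) ⊔ ((g • P : Sylow p G) : Subgroup G) ≤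
      Subgroup.centralizer ({z} : Set G) := by
    refine sup_le (fun a ha => ?_) (fun a ha => ?_)
    · exact Subgroup.mem_centralizer_singleton_iff.mpr (hab a ha z hz)
    · exact Subgroup.mem_centralizer_singleton_iff.mpr (hab2 a ha)
  rw [hsup] at hle
  rw [Subgroup.mem_center_iff]
  intro k
  exact Subgroup.mem_centralizer_singleton_iff.mp (hle (Subgroup.mem_top k))

theorem exists_transfer_ker [Finite G] (H : Subgroup G)
    (hab : ∀ a ∈ H, ∀ b ∈ H, a * b = b * a) :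
    ∃ N : Subgroup G, N.Normal ∧ N.index ∣ Nat.card H ∧
      ∀ z ∈ H, z ∈ Subgroup.center G → z ∈ N → z ^ H.index = 1 := by
  letI : CommGroup ↥H :=
    { (inferInstance : Group ↥H) with
      mul_comm := fun a b => Subtype.ext (hab a a.2 b b.2) }
  refine ⟨(MonoidHom.transfer (MonoidHom.id ↥H)).ker, inferInstance, ?_, ?_⟩
  · rw [Subgroup.index_ker]
    exact Subgroup.card_subgroup_dvd_card _
  · intro z hz hzc hzN
    have key : ∀ (k : ℕ) (g₀ : G), g₀⁻¹ * z ^ k * g₀ ∈ H → g₀⁻¹ * z ^ k * g₀ = z ^ k := by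
      intro k g₀ _
      have h1 : g₀ * z ^ k = z ^ k * g₀ :=
        Subgroup.mem_center_iff.mp (Subgroup.pow_mem _ hzc k) g₀
      rw [mul_assoc, ← h1, inv_mul_cancel_left]
    have ht := MonoidHom.transfer_eq_pow (MonoidHom.id ↥H) z key
    have hk : MonoidHom.transfer (MonoidHom.id ↥H) z = 1 := MonoidHom.mem_ker.mp hzN
    rw [hk] at ht
    have h2 := congrArg Subtype.val ht
    exact h2.symm

theorem card_of_mem_iff (K H : Subgroup G) (hHK : H ≤ K) (S : Finset ↥K)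
    (hS : ∀ y : ↥K, y ∈ S ↔ (y : G) ∈ H) : S.card = Nat.card ↥H := by
  have h1 : Nat.card ↥H = Nat.card {y : ↥K // y ∈ S} := by
    refine Nat.card_congr ?_
    exact
      { toFun := fun x => ⟨⟨x.1, hHK x.2⟩, (hS _).mpr x.2⟩
        invFun := fun y => ⟨y.1.1, (hS _).mp y.2⟩
        left_inv := fun x => rfl
        right_inv := fun y => rfl }
  rw [h1]
  exact (Nat.subtype_card S (fun y => Iff.rfl)).symm

end PClosed

end Cfsg.Agent.Helper22
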