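import Mathlib
import Cfsg.Agent.Helper22.FT4

/-!
# Character lemmas for the Feit–Thompson–Blichfeldt normal Sylow theorem (helper22)

* `char_eq_of_constituents`, `constituent_degree_le`, `eq_one_of_char_eq_one`;
* `irr_linear_comm`, `irr_comm_eq_of_norm_eq` : commutators act trivially;
* `ti_sum_le` : a trivial-intersection type bound `∑_{y ∈ D} |χ y|² ≤ |N|`;
* `centralE` : the counting argument giving `|ψ h| = ψ 1` on a central direct factor;
* `sylow_comm_of_faithful` : a faithful representation of degree `< p` has abelian Sylow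
  `p`-subgroups.
-/

set_option autoImplicit false

namespace Cfsg.Agent.Helper22

open Cfsg Cfsg.Agent.Helper24

universe u

section Chars

variable {G : Type u} [Group G] [Fintype G]

theorem char_eq_of_constituents {Φ : G → ℂ} (hΦ : IsCharacter G Φ) (g : G)
    (h : ∀ ψ : IrrCharacter G, classInner Φ (ψ : G → ℂ) ≠ 0 →
      (ψ : G → ℂ) g = (ψ : G → ℂ) 1) :
    Φ g = Φ 1 := by
  obtain ⟨c, hc, hdec⟩ := isCharacter_decomp hΦ
  have hval : ∀ x : G, Φ x = ∑ ψ : IrrCharacter G, (c ψ : ℂ) * (ψ : G → ℂ) x := by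
    intro x
    have h1 := congrFun hdec x
    rw [h1]
    simp only [Finset.sum_apply, Pi.smul_apply, smul_eq_mul]
  rw [hval g, hval 1]
  refine Finset.sum_congr rfl fun ψ _ => ?_
  by_cases h0 : c ψ = 0
  · rw [h0, Nat.cast_zero, zero_mul, zero_mul]
  · rw [h ψ (by rw [hc ψ]; exact Nat.cast_ne_zero.mpr h0)]

theorem constituent_degree_le {Φ : G → ℂ} (hΦ : IsCharacter G Φ) (n : ℕ) (hn : Φ 1 = n)
    (ψ : IrrCharacter G) (hψ : classInner Φ (ψ : G → ℂ) ≠ 0) :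
    ∃ k : ℕ, 0 < k ∧ (ψ : G → ℂ) 1 = k ∧ k ≤ n := by
  classical
  obtain ⟨c, hc, hdec⟩ := isCharacter_decomp hΦ
  choose k hkpos hk using fun η : IrrCharacter G => Cfsg.Agent.Helper5.irr_one_eq_natCast_pos η
  have h1 : Φ 1 = ∑ η : IrrCharacter G, (c η : ℂ) * (η : G → ℂ) 1 := by
    have h0 := congrFun hdec 1
    rw [h0]
    simp only [Finset.sum_apply, Pi.smul_apply, smul_eq_mul]
  have h2 : (n : ℂ) = ((∑ η : IrrCharacter G, c η * k η : ℕ) : ℂ) := by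
    rw [← hn, h1, Nat.cast_sum]
    refine Finset.sum_congr rfl fun η _ => ?_
    rw [hk η, Nat.cast_mul]
  have h3 : n = ∑ η : IrrCharacter G, c η * k η := by exact_mod_cast h2
  have hcψ : c ψ ≠ 0 := by
    intro h0
    apply hψ
    rw [hc ψ, h0, Nat.cast_zero]
  refine ⟨k ψ, hkpos ψ, hk ψ, ?_⟩
  rw [h3]
  calc k ψ ≤ c ψ * k ψ := Nat.le_mul_of_pos_left _ (Nat.pos_of_ne_zero hcψ)
    _ ≤ ∑ η : IrrCharacter G, c η * k η :=
      Finset.single_le_sum (f := fun η => c η * k η) (fun i _ => Nat.zero_le _)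
        (Finset.mem_univ ψ)

theorem eq_one_of_char_eq_one {n : ℕ} (ρ : Representation ℂ G (Fin n → ℂ))
    (hρ : Function.Injective ρ) (g : G) (h : ρ.character g = ρ.character 1) : g = 1 := by
  rw [Representation.char_one] at h
  have h2 := (char_eq_finrank_iff ρ g).mp h
  have h3 : ρ g = ρ 1 := h2.trans (map_one ρ).symm
  exact hρ h3

theorem irr_linear_comm (ψ : IrrCharacter G) (h1 : (ψ : G → ℂ) 1 = 1) (g k : G) :
    (ψ : G → ℂ) (g * k * g⁻¹ * k⁻¹) = (ψ : G → ℂ) 1 := by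
  rw [irr_linear_mul ψ h1, irr_linear_mul ψ h1, irr_linear_mul ψ h1]
  have e1 : (ψ : G → ℂ) g * (ψ : G → ℂ) g⁻¹ = 1 := by
    rw [← irr_linear_mul ψ h1, mul_inv_cancel, h1]
  have e2 : (ψ : G → ℂ) k * (ψ : G → ℂ) k⁻¹ = 1 := by
    rw [← irr_linear_mul ψ h1, mul_inv_cancel, h1]
  calc (ψ : G → ℂ) g * (ψ : G → ℂ) k * (ψ : G → ℂ) g⁻¹ * (ψ : G → ℂ) k⁻¹
      = ((ψ : G → ℂ) g * (ψ : G → ℂ) g⁻¹) * ((ψ : G → ℂ) k * (ψ : G → ℂ) k⁻¹) := by ring
    _ = (ψ : G → ℂ) 1 := by rw [e1, e2, h1, mul_one]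

theorem irr_comm_eq_of_norm_eq (ψ : IrrCharacter G) (g : G)
    (hg : ‖(ψ : G → ℂ) g‖ = ‖(ψ : G → ℂ) 1‖) (k : G) :
    (ψ : G → ℂ) (g * k * g⁻¹ * k⁻¹) = (ψ : G → ℂ) 1 := by
  obtain ⟨ψ, n, ρ, hirr, rfl⟩ := ψ
  have h1 : ‖ρ.character g‖ = (Module.finrank ℂ (Fin n → ℂ) : ℝ) := by
    have e : ‖ρ.character 1‖ = (Module.finrank ℂ (Fin n → ℂ) : ℝ) := by
      rw [Representation.char_one, Complex.norm_natCast]
    rw [← e]; exact hg
  obtain ⟨ω, hω⟩ := (norm_char_eq_finrank_iff ρ g).mp h1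
  have hcomm : ρ (g * k) = ρ (k * g) := by
    rw [map_mul, map_mul, hω]
    refine LinearMap.ext fun x => ?_
    simp
  have e : g * k * g⁻¹ * k⁻¹ = (g * k) * (k * g)⁻¹ := by group
  have h2 : ρ (g * k * g⁻¹ * k⁻¹) = ρ 1 := by
    rw [e, map_mul, hcomm, ← map_mul, mul_inv_cancel]
  show LinearMap.trace ℂ _ (ρ (g * k * g⁻¹ * k⁻¹)) = LinearMap.trace ℂ _ (ρ 1)
  rw [h2]

theorem weighted_cs {ι : Type*} (I : Finset ι) (m : ι → ℕ) (x : ι → ℝ) :
    (∑ i ∈ I, (m i : ℝ) * x i) ^ 2 ≤ (∑ i ∈ I, (m i : ℝ)) * ∑ i ∈ I, (m i : ℝ) * x i ^ 2 := by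
  have h := Finset.sum_mul_sq_le_sq_mul_sq I (fun i => Real.sqrt (m i))
    (fun i => Real.sqrt (m i) * x i)
  have e1 : ∀ i ∈ I, Real.sqrt (m i) * (Real.sqrt (m i) * x i) = (m i : ℝ) * x i := by
    intro i _
    rw [← mul_assoc, Real.mul_self_sqrt (Nat.cast_nonneg _)]
  have e2 : ∀ i ∈ I, Real.sqrt (m i) ^ 2 = (m i : ℝ) := by
    intro i _
    exact Real.sq_sqrt (Nat.cast_nonneg _)
  have e3 : ∀ i ∈ I, (Real.sqrt (m i) * x i) ^ 2 = (m i : ℝ) * x i ^ 2 := by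
    intro i _
    rw [mul_pow, Real.sq_sqrt (Nat.cast_nonneg _)]
  have h' : (∑ i ∈ I, Real.sqrt (m i) * (Real.sqrt (m i) * x i)) ^ 2 ≤
      (∑ i ∈ I, Real.sqrt (m i) ^ 2) * ∑ i ∈ I, (Real.sqrt (m i) * x i) ^ 2 := h
  rw [Finset.sum_congr rfl e1, Finset.sum_congr rfl e2, Finset.sum_congr rfl e3] at h'
  exact h'

theorem norm_central_mul (η : IrrCharacter G) {z : G} (hz : z ∈ Subgroup.center G) (g : G) :
    ‖(η : G → ℂ) (z * g)‖ = ‖(η : G → ℂ) g‖ := by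
  have h := Cfsg.Agent.S4567.central_shift η z hz g
  have hzg : g * z = z * g := Subgroup.mem_center_iff.mp hz g
  rw [hzg] at h
  have h2 := congrArg norm h
  rw [norm_mul, norm_mul, norm_central η hz] at h2
  have h1 : ‖(η : G → ℂ) 1‖ ≠ 0 := norm_ne_zero_iff.mpr (irr_one_ne_zero η)
  exact mul_left_cancel₀ h1 ((mul_comm _ _).trans h2)

theorem ti_sum_le [DecidableEq G] (χ : IrrCharacter G) (D : Finset G) (N : Subgroup G)
    (hTI : ∀ y ∈ D, ∀ g : G, g * y * g⁻¹ ∈ D → g ∈ N) :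
    ∑ y ∈ D, ‖(χ : G → ℂ) y‖ ^ 2 ≤ (Nat.card N : ℝ) := by
  classical
  obtain ⟨NF, hNF⟩ : ∃ NF : Finset G, ∀ x, x ∈ NF ↔ x ∈ N :=
    ⟨Finset.univ.filter (· ∈ N), fun x => by simp⟩
  have hNcard : Nat.card N = NF.card := Nat.subtype_card NF hNF
  obtain ⟨F, hF⟩ : ∃ F : G → ℝ, ∀ x, F x = ‖(χ : G → ℂ) x‖ ^ 2 := ⟨_, fun _ => rfl⟩
  have hFconj : ∀ g y : G, F (g * y * g⁻¹) = F y := by
    intro g y; rw [hF, hF, irr_conj χ y g]
  have hFnn : ∀ x, 0 ≤ F x := fun x => by rw [hF]; positivity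
  have htot : ∑ w : G, F w = (Nat.card G : ℝ) := by
    have h := sum_normSq_eq_inner (χ : G → ℂ)
    rw [irr_inner_self, mul_one] at h
    have h' : ((∑ w : G, ‖(χ : G → ℂ) w‖ ^ 2 : ℝ) : ℂ) = (((Nat.card G : ℕ) : ℝ) : ℂ) :=
      h.trans (Complex.ofReal_natCast _).symm
    rw [Finset.sum_congr rfl (fun w _ => hF w)]
    exact Complex.ofReal_injective h'
  have h1 : ∑ q ∈ (Finset.univ : Finset G) ×ˢ D, F (q.1 * q.2 * q.1⁻¹) =
      (Nat.card G : ℝ) * ∑ y ∈ D, F y := by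
    rw [Finset.sum_product' Finset.univ D (fun g y => F (g * y * g⁻¹))]
    have e : ∀ g ∈ (Finset.univ : Finset G), ∑ y ∈ D, F (g * y * g⁻¹) = ∑ y ∈ D, F y :=
      fun g _ => Finset.sum_congr rfl (fun y _ => hFconj g y)
    rw [Finset.sum_congr rfl e, Finset.sum_const, Finset.card_univ, nsmul_eq_mul,
      Nat.card_eq_fintype_card]
  have h2 : ∑ q ∈ (Finset.univ : Finset G) ×ˢ D, F (q.1 * q.2 * q.1⁻¹) ≤
      ∑ w : G, (NF.card : ℝ) * F w := by
    rw [← Finset.sum_fiberwise' ((Finset.univ : Finset G) ×ˢ D)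
      (fun q => q.1 * q.2 * q.1⁻¹) F]
    refine Finset.sum_le_sum fun w _ => ?_
    rw [Finset.sum_const, nsmul_eq_mul]
    refine mul_le_mul_of_nonneg_right (Nat.cast_le.mpr ?_) (hFnn w)
    by_cases hne : ∃ q₀ : G × G, q₀.2 ∈ D ∧ q₀.1 * q₀.2 * q₀.1⁻¹ = w
    · obtain ⟨q₀, hq₀D, hq₀w⟩ := hne
      refine Finset.card_le_card_of_injOn (fun q => q₀.1⁻¹ * q.1) ?_ ?_
      · intro q hq
        have hq' := Finset.mem_filter.mp (Finset.mem_coe.mp hq)
        have hqD : q.2 ∈ D := (Finset.mem_product.mp hq'.1).2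
        have hqw : q.1 * q.2 * q.1⁻¹ = w := hq'.2
        have e : (q₀.1⁻¹ * q.1) * q.2 * (q₀.1⁻¹ * q.1)⁻¹ = q₀.2 := by
          have e1 : (q₀.1⁻¹ * q.1) * q.2 * (q₀.1⁻¹ * q.1)⁻¹ =
              q₀.1⁻¹ * (q.1 * q.2 * q.1⁻¹) * q₀.1 := by group
          rw [e1, hqw, ← hq₀w]; group
        have hmem : q₀.1⁻¹ * q.1 ∈ N := hTI q.2 hqD _ (by rw [e]; exact hq₀D)
        exact Finset.mem_coe.mpr ((hNF _).mpr hmem)
      · intro q hq q' hq' heq
        have hq1 := Finset.mem_filter.mp (Finset.mem_coe.mp hq)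
        have hq2 := Finset.mem_filter.mp (Finset.mem_coe.mp hq')
        have heq' : q₀.1⁻¹ * q.1 = q₀.1⁻¹ * q'.1 := heq
        have e1 : q.1 = q'.1 := mul_left_cancel heq'
        have hqw : q.1 * q.2 * q.1⁻¹ = w := hq1.2
        have hqw' : q'.1 * q'.2 * q'.1⁻¹ = w := hq2.2
        have e2 : q.2 = q'.2 := by
          rw [← e1] at hqw'
          have h3 := hqw.trans hqw'.symm
          exact mul_left_cancel (mul_right_cancel h3)
        exact Prod.ext e1 e2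
    · refine le_trans (le_of_eq (Finset.card_eq_zero.mpr ?_)) (Nat.zero_le _)
      refine Finset.filter_eq_empty_iff.mpr ?_
      intro q hq hqw
      exact hne ⟨q, (Finset.mem_product.mp hq).2, hqw⟩
  have h3 : ∑ w : G, (NF.card : ℝ) * F w = (NF.card : ℝ) * (Nat.card G : ℝ) := by
    rw [← Finset.mul_sum, htot]
  have hG : (0 : ℝ) < Nat.card G := by exact_mod_cast Nat.card_pos
  have h4 : (Nat.card G : ℝ) * ∑ y ∈ D, F y ≤ (Nat.card G : ℝ) * (NF.card : ℝ) := by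
    calc (Nat.card G : ℝ) * ∑ y ∈ D, F y
        = ∑ q ∈ (Finset.univ : Finset G) ×ˢ D, F (q.1 * q.2 * q.1⁻¹) := h1.symm
      _ ≤ ∑ w : G, (NF.card : ℝ) * F w := h2
      _ = (NF.card : ℝ) * (Nat.card G : ℝ) := h3
      _ = (Nat.card G : ℝ) * (NF.card : ℝ) := mul_comm _ _
  have h5 := le_of_mul_le_mul_left h4 hG
  rw [hNcard]
  calc ∑ y ∈ D, ‖(χ : G → ℂ) y‖ ^ 2 = ∑ y ∈ D, F y :=
        Finset.sum_congr rfl (fun y _ => (hF y).symm)
    _ ≤ (NF.card : ℝ) := h5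

end Chars

theorem centralE {K : Type u} [Group K] [Fintype K] [DecidableEq K] {ψ : K → ℂ}
    (hψ : IsCharacter K ψ) (PF ZF CF : Finset K) (hZP : ZF ⊆ PF)
    (hcen : ∀ h ∈ PF, h ∈ Subgroup.center K)
    (hinj : ∀ h ∈ PF, ∀ c ∈ CF, ∀ h' ∈ PF, ∀ c' ∈ CF, h * c = h' * c' → h = h' ∧ c = c')
    (hsurj : ∀ w : K, ∃ h ∈ PF, ∃ c ∈ CF, h * c = w)
    (hD : ∑ h ∈ PF \ ZF, ∑ c ∈ CF, ‖ψ (h * c)‖ ^ 2 ≤ (Nat.card K : ℝ))
    (p d : ℕ) (hp : p.Prime) (hd : ψ 1 = d) (hdp : d + 2 ≤ p)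
    (hidx : p * ZF.card ≤ PF.card) (hZpos : 0 < ZF.card) :
    ∀ h ∈ PF, ‖ψ h‖ = ‖ψ 1‖ := by
  classical
  obtain ⟨m, hm, hdec⟩ := isCharacter_decomp hψ
  have hval : ∀ x : K, ψ x = ∑ η : IrrCharacter K, (m η : ℂ) * (η : K → ℂ) x := by
    intro x
    have h1 := congrFun hdec x
    rw [h1]
    simp only [Finset.sum_apply, Pi.smul_apply, smul_eq_mul]
  obtain ⟨s, hs⟩ : ∃ s : ℕ, s = ∑ η : IrrCharacter K, m η := ⟨_, rfl⟩
  obtain ⟨T, hT⟩ : ∃ T : ℕ, T = ∑ η : IrrCharacter K, m η ^ 2 := ⟨_, rfl⟩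
  choose k hkpos hk using fun η : IrrCharacter K => Cfsg.Agent.Helper5.irr_one_eq_natCast_pos η
  have hdsum : d = ∑ η : IrrCharacter K, m η * k η := by
    have h1 := hval 1
    rw [hd] at h1
    have h2 : (d : ℂ) = ((∑ η : IrrCharacter K, m η * k η : ℕ) : ℂ) := by
      rw [h1, Nat.cast_sum]
      refine Finset.sum_congr rfl fun η _ => ?_
      rw [hk η, Nat.cast_mul]
    exact_mod_cast h2
  have hsd : s ≤ d := by
    rw [hs, hdsum]
    refine Finset.sum_le_sum fun η _ => ?_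
    exact Nat.le_mul_of_pos_right _ (hkpos η)
  have hsT : s ≤ T := by
    rw [hs, hT]
    refine Finset.sum_le_sum fun η _ => ?_
    rw [sq]; exact Nat.le_mul_self _
  have hK : ∀ F : K → ℝ, ∑ w : K, F w = ∑ h ∈ PF, ∑ c ∈ CF, F (h * c) := by
    intro F
    rw [← Finset.sum_product' PF CF (fun h c => F (h * c))]
    have himg : (PF ×ˢ CF).image (fun q : K × K => q.1 * q.2) = Finset.univ := by
      ext w
      simp only [Finset.mem_image, Finset.mem_product, Finset.mem_univ, iff_true]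
      obtain ⟨h, hh, c, hc, e⟩ := hsurj w
      exact ⟨(h, c), ⟨hh, hc⟩, e⟩
    have hinj' : Set.InjOn (fun q : K × K => q.1 * q.2) ↑(PF ×ˢ CF) := by
      intro q hq q' hq' e
      have hq1 := Finset.mem_product.mp (Finset.mem_coe.mp hq)
      have hq2 := Finset.mem_product.mp (Finset.mem_coe.mp hq')
      have e' : q.1 * q.2 = q'.1 * q'.2 := e
      have h3 := hinj q.1 hq1.1 q.2 hq1.2 q'.1 hq2.1 q'.2 hq2.2 e'
      exact Prod.ext h3.1 h3.2
    rw [← himg, Finset.sum_image hinj']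
  have hcardK : (Nat.card K : ℝ) = (PF.card : ℝ) * (CF.card : ℝ) := by
    have h1 := hK (fun _ => (1 : ℝ))
    simp only [Finset.sum_const, Finset.card_univ, nsmul_eq_mul, mul_one] at h1
    rw [Nat.card_eq_fintype_card]; exact h1
  have hPFpos : 0 < PF.card := lt_of_lt_of_le hZpos (Finset.card_le_card hZP)
  have hPFR : (0 : ℝ) < PF.card := by exact_mod_cast hPFpos
  have hCFpos : 0 < CF.card := by
    obtain ⟨_, _, c, hc, _⟩ := hsurj 1
    exact Finset.card_pos.mpr ⟨c, hc⟩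
  have hCFR : (0 : ℝ) < CF.card := by exact_mod_cast hCFpos
  have htotη : ∀ η : IrrCharacter K, ∑ w : K, ‖(η : K → ℂ) w‖ ^ 2 = (Nat.card K : ℝ) := by
    intro η
    have h := sum_normSq_eq_inner (η : K → ℂ)
    rw [irr_inner_self, mul_one] at h
    exact Complex.ofReal_injective (h.trans (Complex.ofReal_natCast _).symm)
  have hirr : ∀ η : IrrCharacter K, ∑ c ∈ CF, ‖(η : K → ℂ) c‖ ^ 2 = (CF.card : ℝ) := by
    intro η
    have h1 : ∑ w : K, ‖(η : K → ℂ) w‖ ^ 2 =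
        ∑ h ∈ PF, ∑ c ∈ CF, ‖(η : K → ℂ) (h * c)‖ ^ 2 := hK (fun w => ‖(η : K → ℂ) w‖ ^ 2)
    rw [htotη η, hcardK] at h1
    have h2 : ∑ h ∈ PF, ∑ c ∈ CF, ‖(η : K → ℂ) (h * c)‖ ^ 2 =
        (PF.card : ℝ) * ∑ c ∈ CF, ‖(η : K → ℂ) c‖ ^ 2 := by
      have e : ∀ h ∈ PF, ∑ c ∈ CF, ‖(η : K → ℂ) (h * c)‖ ^ 2 =
          ∑ c ∈ CF, ‖(η : K → ℂ) c‖ ^ 2 := by
        intro h hh
        refine Finset.sum_congr rfl fun c _ => ?_
        rw [norm_central_mul η (hcen h hh) c]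
      rw [Finset.sum_congr rfl e, Finset.sum_const, nsmul_eq_mul]
    rw [h2] at h1
    exact (mul_left_cancel₀ hPFR.ne' h1).symm
  have hsR : (s : ℝ) = ∑ η : IrrCharacter K, (m η : ℝ) := by rw [hs, Nat.cast_sum]
  have hii : ∀ h ∈ PF, ∑ c ∈ CF, ‖ψ (h * c)‖ ^ 2 ≤ (s : ℝ) ^ 2 * (CF.card : ℝ) := by
    intro h hh
    have hpt : ∀ c ∈ CF, ‖ψ (h * c)‖ ^ 2 ≤
        (s : ℝ) * ∑ η : IrrCharacter K, (m η : ℝ) * ‖(η : K → ℂ) c‖ ^ 2 := by
      intro c _
      have h1 : ‖ψ (h * c)‖ ≤ ∑ η : IrrCharacter K, (m η : ℝ) * ‖(η : K → ℂ) c‖ := by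
        rw [hval (h * c)]
        refine (norm_sum_le _ _).trans (le_of_eq ?_)
        refine Finset.sum_congr rfl fun η _ => ?_
        rw [norm_mul, Complex.norm_natCast, norm_central_mul η (hcen h hh) c]
      have h2 : ‖ψ (h * c)‖ ^ 2 ≤ (∑ η : IrrCharacter K, (m η : ℝ) * ‖(η : K → ℂ) c‖) ^ 2 :=
        pow_le_pow_left₀ (norm_nonneg _) h1 2
      have h3 : (∑ η : IrrCharacter K, (m η : ℝ) * ‖(η : K → ℂ) c‖) ^ 2 ≤
          (∑ η : IrrCharacter K, (m η : ℝ)) *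
            ∑ η : IrrCharacter K, (m η : ℝ) * ‖(η : K → ℂ) c‖ ^ 2 :=
        weighted_cs (Finset.univ : Finset (IrrCharacter K)) m (fun η => ‖(η : K → ℂ) c‖)
      rw [← hsR] at h3
      exact h2.trans h3
    calc ∑ c ∈ CF, ‖ψ (h * c)‖ ^ 2
        ≤ ∑ c ∈ CF, (s : ℝ) * ∑ η : IrrCharacter K, (m η : ℝ) * ‖(η : K → ℂ) c‖ ^ 2 :=
          Finset.sum_le_sum hpt
      _ = (s : ℝ) * ∑ η : IrrCharacter K, (m η : ℝ) * ∑ c ∈ CF, ‖(η : K → ℂ) c‖ ^ 2 := by
          rw [← Finset.mul_sum, Finset.sum_comm]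
          congr 1
          refine Finset.sum_congr rfl fun η _ => ?_
          rw [Finset.mul_sum]
      _ = (s : ℝ) ^ 2 * (CF.card : ℝ) := by
          have e : ∀ η ∈ (Finset.univ : Finset (IrrCharacter K)),
              (m η : ℝ) * ∑ c ∈ CF, ‖(η : K → ℂ) c‖ ^ 2 = (m η : ℝ) * (CF.card : ℝ) := by
            intro η _; rw [hirr η]
          rw [Finset.sum_congr rfl e, ← Finset.sum_mul, ← hsR]; ring
  have hinner : classInner ψ ψ = ((T : ℕ) : ℂ) := by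
    have h1 : classInner (∑ η : IrrCharacter K, (m η : ℂ) • (η : K → ℂ)) ψ =
        ∑ η : IrrCharacter K, (m η : ℂ) * classInner (η : K → ℂ) ψ := by
      rw [classInner_sum_left]
      refine Finset.sum_congr rfl fun η _ => ?_
      rw [classInner_smul_left]
    rw [← hdec] at h1
    rw [h1, hT, Nat.cast_sum]
    refine Finset.sum_congr rfl fun η _ => ?_
    rw [classInner_conj_symm, hm η, Complex.conj_natCast, Nat.cast_pow, sq]
  have hi : ∑ w : K, ‖ψ w‖ ^ 2 = (Nat.card K : ℝ) * (T : ℝ) := by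
    have h := sum_normSq_eq_inner ψ
    rw [hinner] at h
    apply Complex.ofReal_injective
    rw [h, Complex.ofReal_mul, Complex.ofReal_natCast, Complex.ofReal_natCast]
  have hmain : (PF.card : ℝ) * (T : ℝ) ≤ (PF.card : ℝ) + (ZF.card : ℝ) * (s : ℝ) ^ 2 := by
    have h1 : ∑ w : K, ‖ψ w‖ ^ 2 = ∑ h ∈ PF, ∑ c ∈ CF, ‖ψ (h * c)‖ ^ 2 :=
      hK (fun w => ‖ψ w‖ ^ 2)
    rw [hi, ← Finset.sum_sdiff hZP] at h1
    have h2 : ∑ h ∈ ZF, ∑ c ∈ CF, ‖ψ (h * c)‖ ^ 2 ≤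
        (ZF.card : ℝ) * ((s : ℝ) ^ 2 * (CF.card : ℝ)) := by
      have h3 : ∑ h ∈ ZF, ∑ c ∈ CF, ‖ψ (h * c)‖ ^ 2 ≤
          ∑ _h ∈ ZF, (s : ℝ) ^ 2 * (CF.card : ℝ) :=
        Finset.sum_le_sum (fun h hh => hii h (hZP hh))
      rw [Finset.sum_const, nsmul_eq_mul] at h3
      exact h3
    rw [hcardK] at h1 hD
    have h4 : (PF.card : ℝ) * (CF.card : ℝ) * (T : ℝ) ≤
        (PF.card : ℝ) * (CF.card : ℝ) + (ZF.card : ℝ) * ((s : ℝ) ^ 2 * (CF.card : ℝ)) := by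
      rw [h1]; exact add_le_add hD h2
    have h5 : (CF.card : ℝ) * ((PF.card : ℝ) * (T : ℝ)) ≤
        (CF.card : ℝ) * ((PF.card : ℝ) + (ZF.card : ℝ) * (s : ℝ) ^ 2) := by
      calc (CF.card : ℝ) * ((PF.card : ℝ) * (T : ℝ))
          = (PF.card : ℝ) * (CF.card : ℝ) * (T : ℝ) := by ring
        _ ≤ (PF.card : ℝ) * (CF.card : ℝ) + (ZF.card : ℝ) * ((s : ℝ) ^ 2 * (CF.card : ℝ)) := h4
        _ = (CF.card : ℝ) * ((PF.card : ℝ) + (ZF.card : ℝ) * (s : ℝ) ^ 2) := by ring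
    exact le_of_mul_le_mul_left h5 hCFR
  have hmainN : PF.card * T ≤ PF.card + ZF.card * s ^ 2 := by exact_mod_cast hmain
  have hs1 : s ≤ 1 := by
    by_contra hcon
    have hs2 : 2 ≤ s := by omega
    have h1 : PF.card * s ≤ PF.card + ZF.card * s ^ 2 :=
      le_trans (Nat.mul_le_mul_left _ hsT) hmainN
    obtain ⟨t, ht⟩ : ∃ t, s = t + 2 := ⟨s - 2, by omega⟩
    rw [ht] at h1
    have h2 : PF.card * (t + 1) ≤ ZF.card * (t + 2) ^ 2 := by
      have e : PF.card * (t + 2) = PF.card * (t + 1) + PF.card := by ring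
      rw [e] at h1
      linarith
    have h3 : ZF.card * (p * (t + 1)) ≤ ZF.card * (t + 2) ^ 2 := by
      calc ZF.card * (p * (t + 1)) = p * ZF.card * (t + 1) := by ring
        _ ≤ PF.card * (t + 1) := Nat.mul_le_mul_right _ hidx
        _ ≤ ZF.card * (t + 2) ^ 2 := h2
    have h4 : p * (t + 1) ≤ (t + 2) ^ 2 := Nat.le_of_mul_le_mul_left h3 hZpos
    have hp4 : t + 4 ≤ p := by omega
    have h5 : (t + 4) * (t + 1) ≤ (t + 2) ^ 2 := le_trans (Nat.mul_le_mul_right _ hp4) h4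
    have ht0 : t = 0 := by nlinarith [h5]
    rw [ht0] at h4 hp4
    norm_num at h4 hp4
    have hp4' : p = 4 := by omega
    rw [hp4'] at hp
    exact absurd hp (by norm_num)
  intro h hh
  rcases Nat.eq_zero_or_pos s with h0 | hpos
  · have hm0 : ∀ η : IrrCharacter K, m η = 0 := by
      intro η
      have h1 : m η ≤ s := by
        rw [hs]
        exact Finset.single_le_sum (f := m) (fun i _ => Nat.zero_le _) (Finset.mem_univ η)
      omega
    have hz : ∀ x : K, ψ x = 0 := by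
      intro x
      rw [hval x]
      refine Finset.sum_eq_zero fun η _ => ?_
      rw [hm0 η, Nat.cast_zero, zero_mul]
    rw [hz h, hz 1]
  · have hs1' : s = 1 := by omega
    have hex : ∃ η₀ : IrrCharacter K, m η₀ ≠ 0 := by
      by_contra hne
      have hall : ∀ η : IrrCharacter K, m η = 0 := fun η => by
        by_contra h'; exact hne ⟨η, h'⟩
      have h1 : s = 0 := by rw [hs]; exact Finset.sum_eq_zero fun η _ => hall η
      omega
    obtain ⟨η₀, hη₀⟩ := hex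
    have hsplit : s = m η₀ + ∑ η ∈ Finset.univ.erase η₀, m η := by
      rw [hs]; exact (Finset.add_sum_erase Finset.univ m (Finset.mem_univ η₀)).symm
    have hm1 : m η₀ = 1 := by omega
    have hrest : ∀ η : IrrCharacter K, η ≠ η₀ → m η = 0 := by
      intro η hne
      have h0 : ∑ η ∈ Finset.univ.erase η₀, m η = 0 := by omega
      exact (Finset.sum_eq_zero_iff.mp h0) η (Finset.mem_erase.mpr ⟨hne, Finset.mem_univ η⟩)
    have hψη : ∀ x : K, ψ x = (η₀ : K → ℂ) x := by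
      intro x
      have e : ∑ η : IrrCharacter K, (m η : ℂ) * (η : K → ℂ) x =
          (m η₀ : ℂ) * (η₀ : K → ℂ) x := by
        refine Finset.sum_eq_single η₀ (fun η _ hne => ?_)
          (fun hni => absurd (Finset.mem_univ η₀) hni)
        rw [hrest η hne, Nat.cast_zero, zero_mul]
      rw [hval x, e, hm1, Nat.cast_one, one_mul]
    rw [hψη h, hψη 1]
    exact norm_central η₀ (hcen h hh)

theorem sylow_comm_of_faithful {G : Type u} [Group G] [Finite G] {n : ℕ}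
    (ρ : Representation ℂ G (Fin n → ℂ)) (hρ : Function.Injective ρ) {p : ℕ} [Fact p.Prime]
    (hnp : n < p) (P : Sylow p G) :
    ∀ a ∈ (P : Subgroup G), ∀ b ∈ (P : Subgroup G), a * b = b * a := by
  classical
  haveI : Fintype G := Fintype.ofFinite G
  have hp : p.Prime := Fact.out
  have hΦ : IsCharacter G ρ.character := ⟨n, ρ, rfl⟩
  have hΦP : IsCharacter ↥(P : Subgroup G) (fun h : ↥(P : Subgroup G) => ρ.character h) :=
    isCharacter_restrict (P : Subgroup G) hΦ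
  have hΦ1 : (fun h : ↥(P : Subgroup G) => ρ.character h) 1 = (n : ℂ) := by
    show ρ.character ((1 : ↥(P : Subgroup G)) : G) = n
    rw [Subgroup.coe_one, Representation.char_one, Module.finrank_fin_fun]
  haveI : Fintype ↥(P : Subgroup G) := Fintype.ofFinite _
  obtain ⟨j, hj⟩ := IsPGroup.iff_card.mp P.isPGroup'
  have hlin : ∀ ψ : IrrCharacter ↥(P : Subgroup G),
      classInner (fun h : ↥(P : Subgroup G) => ρ.character h) (ψ : ↥(P : Subgroup G) → ℂ) ≠ 0 →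
      (ψ : ↥(P : Subgroup G) → ℂ) 1 = 1 := by
    intro ψ hψ
    obtain ⟨k, hkpos, hk, hkn⟩ := constituent_degree_le hΦP n hΦ1 ψ hψ
    obtain ⟨k', hk', hdvd⟩ := irr_degree_dvd_card ψ
    have hkk : k = k' := by
      have h1 : (k : ℂ) = k' := hk.symm.trans hk'
      exact_mod_cast h1
    rw [← hkk, hj] at hdvd
    obtain ⟨i, -, hi⟩ := (Nat.dvd_prime_pow hp).mp hdvd
    have hi0 : i = 0 := by
      by_contra hne
      have h1 : p ≤ k := by
        rw [hi]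
        calc p = p ^ 1 := (pow_one p).symm
          _ ≤ p ^ i := Nat.pow_le_pow_right hp.pos (Nat.one_le_iff_ne_zero.mpr hne)
      omega
    rw [hk, hi, hi0, pow_zero, Nat.cast_one]
  have key : ∀ a' b' : ↥(P : Subgroup G), (a' : G) * (b' : G) = (b' : G) * (a' : G) := by
    intro a' b'
    have hcomm := char_eq_of_constituents hΦP (a' * b' * a'⁻¹ * b'⁻¹)
      (fun ψ hψ => irr_linear_comm ψ (hlin ψ hψ) a' b')
    have hcomm' : ρ.character ((a' : G) * (b' : G) * (a' : G)⁻¹ * (b' : G)⁻¹) =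
        ρ.character 1 := hcomm
    have h1 := eq_one_of_char_eq_one ρ hρ _ hcomm'
    have h2 : (a' : G) * (b' : G) * (a' : G)⁻¹ = (b' : G) := mul_inv_eq_one.mp h1
    exact mul_inv_eq_iff_eq_mul.mp h2
  intro a ha b hb
  exact key ⟨a, ha⟩ ⟨b, hb⟩

end Cfsg.Agent.Helper22
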