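import Mathlib
import Cfsg.Agent.Helper22.FT5

/-!
# The Feit–Thompson–Blichfeldt normal Sylow theorem: minimal counterexample (helper22)

`min_counter` : a finite group `G` with a faithful representation of degree `n`, `n + 1 < p`,
all of whose proper subgroups are `p`-closed, is `p`-closed, provided `(n+1)^2 ≤ p` or
(`p^2 ∤ |G|` implies `G` is `p`-closed).  `pclosed_all` : induction over all subgroups.
-/

set_option autoImplicit false

namespace Cfsg.Agent.Helper22

open Cfsg Cfsg.Agent.Helper24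

universe u

theorem min_counter {G : Type u} [Group G] [Finite G] (n : ℕ)
    (ρ : Representation ℂ G (Fin n → ℂ)) (hρ : Function.Injective ρ) (p : ℕ) [Fact p.Prime]
    (hnp : n + 1 < p) (hsub : ∀ K : Subgroup G, K ≠ ⊤ → PClosed p K)
    (hAB : (n + 1) ^ 2 ≤ p ∨ (¬ p ^ 2 ∣ Nat.card G → PClosed p (⊤ : Subgroup G))) :
    PClosed p (⊤ : Subgroup G) := by
  classical
  haveI : Fintype G := Fintype.ofFinite G
  have hp : p.Prime := Fact.out
  by_contra hnc
  obtain ⟨P⟩ : Nonempty (Sylow p G) := inferInstance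
  have hPab := sylow_comm_of_faithful ρ hρ (by omega : n < p) P
  have hPnn : ¬ ∀ g x : G, x ∈ (P : Subgroup G) → g * x * g⁻¹ ∈ (P : Subgroup G) :=
    fun hN => hnc (pclosed_of_conj P hN ⊤)
  have hg₀ : ∃ g₀ : G, g₀ • P ≠ P := by
    by_contra hall
    apply hPnn
    intro g x hx
    have hg : g • P = P := by
      by_contra hne; exact hall ⟨g, hne⟩
    have h1 : g * x * g⁻¹ ∈ ((g • P : Sylow p G) : Subgroup G) := by
      rw [mem_smul_sylow]
      have e : g⁻¹ * (g * x * g⁻¹) * g = x := by group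
      rw [e]; exact hx
    rw [hg] at h1
    exact h1
  obtain ⟨g₀, hg₀⟩ := hg₀
  have hS1 : ∀ g : G, g • P ≠ P → ∀ z : G, z ∈ (P : Subgroup G) →
      g⁻¹ * z * g ∈ (P : Subgroup G) → z ∈ Subgroup.center G :=
    fun g hg z hz hz' => inter_conj_central P hPab hsub g hg hz hz'
  have hΦ : IsCharacter G ρ.character := ⟨n, ρ, rfl⟩
  have hΦ1 : ρ.character 1 = (n : ℂ) := by
    rw [Representation.char_one, Module.finrank_fin_fun]
  have hfin : (∀ ψ : IrrCharacter G, classInner ρ.character (ψ : G → ℂ) ≠ 0 →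
      ∀ h ∈ (P : Subgroup G), ∀ k : G,
        (ψ : G → ℂ) (h * k * h⁻¹ * k⁻¹) = (ψ : G → ℂ) 1) → False := by
    intro hall
    apply hPnn
    intro g x hx
    have h1 : ρ.character (x * g * x⁻¹ * g⁻¹) = ρ.character 1 :=
      char_eq_of_constituents hΦ _ (fun ψ hψ => hall ψ hψ x hx g)
    have h2 := eq_one_of_char_eq_one ρ hρ _ h1
    have h3 : x * g * x⁻¹ = g := mul_inv_eq_one.mp h2
    have h4 : x * g = g * x := mul_inv_eq_iff_eq_mul.mp h3
    have h5 : g * x * g⁻¹ = x := by rw [← h4, mul_inv_cancel_right]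
    rw [h5]; exact hx
  by_cases hZ : (P : Subgroup G) ⊓ Subgroup.center G = ⊥
  · -- Case I : `P` meets the centre trivially
    have hM : ∀ M : Subgroup G, M.Normal → (P : Subgroup G) ≤ M → M = ⊤ := by
      intro M hMn hPM
      by_contra hne
      have hc := hsub M hne
      have h1 : pSub p M hc = (P : Subgroup G) :=
        P.is_maximal' (pSub_isPGroup hc) (fun y hy =>
          (mem_pSub hc y).mpr ⟨hPM hy, isPElt_of_mem_sylow P hy⟩)
      apply hPnn
      intro g x hx
      rw [← h1]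
      exact (mem_pSub hc _).mpr ⟨hMn.conj_mem x (hPM hx) g, (isPElt_of_mem_sylow P hx).conj g⟩
    have hone : ∀ g : G, g ∉ Subgroup.center G → ∀ a b : G,
        Subgroup.centralizer ({g} : Set G) ⊓
          (P : Subgroup G).map (MulAut.conj a).toMonoidHom ≠ ⊥ →
        Subgroup.centralizer ({g} : Set G) ⊓
          (P : Subgroup G).map (MulAut.conj b).toMonoidHom ≠ ⊥ →
        (P : Subgroup G).map (MulAut.conj a).toMonoidHom =
          (P : Subgroup G).map (MulAut.conj b).toMonoidHom := by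
      intro g hgc a b ha hb
      have hCne : Subgroup.centralizer ({g} : Set G) ≠ ⊤ := by
        intro htop
        apply hgc
        rw [Subgroup.mem_center_iff]
        intro k
        have h1 : k ∈ Subgroup.centralizer ({g} : Set G) := by
          rw [htop]; exact Subgroup.mem_top k
        exact Subgroup.mem_centralizer_singleton_iff.mp h1
      have hCc := hsub _ hCne
      obtain ⟨c, hc⟩ := exists_conj_of_pclosed P hCc
      have hkey : ∀ a : G,
          Subgroup.centralizer ({g} : Set G) ⊓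
            (P : Subgroup G).map (MulAut.conj a).toMonoidHom ≠ ⊥ →
          (a⁻¹ * c) • P = P := by
        intro a ha
        by_contra hne
        obtain ⟨u, hu, hu1⟩ : ∃ u ∈ Subgroup.centralizer ({g} : Set G) ⊓
            (P : Subgroup G).map (MulAut.conj a).toMonoidHom, u ≠ 1 := by
          by_contra hall
          apply ha
          rw [Subgroup.eq_bot_iff_forall]
          intro u hu
          by_contra hu1
          exact hall ⟨u, hu, hu1⟩
        have huC : u ∈ Subgroup.centralizer ({g} : Set G) := (Subgroup.mem_inf.mp hu).1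
        have huP : a⁻¹ * u * a ∈ (P : Subgroup G) :=
          (mem_map_conj_iff _ a u).mp (Subgroup.mem_inf.mp hu).2
        have hup : IsPElt p u := by
          have h1 := (isPElt_of_mem_sylow P huP).conj a
          have e : a * (a⁻¹ * u * a) * a⁻¹ = u := by group
          rw [e] at h1
          exact h1
        have huc : c⁻¹ * u * c ∈ (P : Subgroup G) := hc u huC hup
        have hz' : (a⁻¹ * c)⁻¹ * (a⁻¹ * u * a) * (a⁻¹ * c) ∈ (P : Subgroup G) := by
          have e : (a⁻¹ * c)⁻¹ * (a⁻¹ * u * a) * (a⁻¹ * c) = c⁻¹ * u * c := by group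
          rw [e]; exact huc
        have hcen := hS1 (a⁻¹ * c) hne _ huP hz'
        have hbot : a⁻¹ * u * a ∈ (P : Subgroup G) ⊓ Subgroup.center G :=
          Subgroup.mem_inf.mpr ⟨huP, hcen⟩
        rw [hZ, Subgroup.mem_bot] at hbot
        apply hu1
        have e : u = a * (a⁻¹ * u * a) * a⁻¹ := by group
        rw [e, hbot]; group
      have hmem : ∀ (a : G), (a⁻¹ * c) • P = P → ∀ x : G,
          (a⁻¹ * x * a ∈ (P : Subgroup G) ↔ c⁻¹ * x * c ∈ (P : Subgroup G)) := by
        intro a hka x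
        have h1 := mem_smul_sylow (a⁻¹ * c) P (a⁻¹ * x * a)
        rw [hka] at h1
        have e : (a⁻¹ * c)⁻¹ * (a⁻¹ * x * a) * (a⁻¹ * c) = c⁻¹ * x * c := by group
        rw [e] at h1
        exact h1
      ext x
      rw [mem_map_conj_iff, mem_map_conj_iff, hmem a (hkey a ha) x, hmem b (hkey b hb) x]
    have hH : FTHyp (P : Subgroup G) := ⟨hPab, hZ, hone⟩
    have hnl : ∃ ψ : IrrCharacter G, classInner ρ.character (ψ : G → ℂ) ≠ 0 ∧
        (ψ : G → ℂ) 1 ≠ 1 := by
      by_contra hall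
      apply hfin
      intro ψ hψ h _ k
      have h1 : (ψ : G → ℂ) 1 = 1 := by
        by_contra hne; exact hall ⟨ψ, hψ, hne⟩
      exact irr_linear_comm ψ h1 h k
    obtain ⟨ψ, hψ, hψ1⟩ := hnl
    obtain ⟨k, hkpos, hk, hkn⟩ := constituent_degree_le hΦ n hΦ1 ψ hψ
    obtain ⟨HF, hHF⟩ : ∃ HF : Finset G, ∀ y, y ∈ HF ↔ y ∈ (P : Subgroup G) :=
      ⟨Finset.univ.filter (· ∈ (P : Subgroup G)), fun y => by
        simp only [Finset.mem_filter, Finset.mem_univ, true_and]⟩
    have hcardP : Nat.card ↥(P : Subgroup G) = HF.card := Nat.subtype_card HF hHF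
    have hb := ft_bound2 hH ψ hψ1 hM HF hHF
    rw [hk, Complex.norm_natCast] at hb
    have hbN : HF.card < (1 + k) ^ 2 := by exact_mod_cast hb
    have hPne : (P : Subgroup G) ≠ ⊥ := by
      intro hbot
      apply hPnn
      intro g x hx
      rw [hbot, Subgroup.mem_bot] at hx ⊢
      rw [hx, mul_one, mul_inv_cancel]
    have hpdvd : p ∣ Nat.card ↥(P : Subgroup G) := by
      rcases P.isPGroup'.card_eq_or_dvd with h1 | h1
      · exact absurd (Subgroup.eq_bot_of_card_eq _ h1) hPne
      · exact h1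
    have hple : p ≤ HF.card := by
      rw [← hcardP]; exact Nat.le_of_dvd Nat.card_pos hpdvd
    rcases hAB with hA | hB
    · have h1 : (1 + k) ^ 2 ≤ (n + 1) ^ 2 := Nat.pow_le_pow_left (by omega) 2
      exact absurd (lt_of_lt_of_le (lt_of_le_of_lt (le_trans hA hple) hbN) h1) (lt_irrefl _)
    · by_cases hp2 : p ^ 2 ∣ Nat.card G
      · have h2 : p ^ 2 ∣ Nat.card ↥(P : Subgroup G) := P.pow_dvd_card_of_pow_dvd_card hp2
        have h3 : p ^ 2 ≤ HF.card := by
          rw [← hcardP]; exact Nat.le_of_dvd Nat.card_pos h2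
        have h4 : p ^ 2 < (1 + k) ^ 2 := lt_of_le_of_lt h3 hbN
        have h5 : p < 1 + k := lt_of_pow_lt_pow_left₀ 2 (Nat.zero_le _) h4
        omega
      · exact hnc (hB hp2)
  · -- Case II : `P` contains a nontrivial central element
    obtain ⟨G₁, hG₁n, hG₁idx, hG₁z⟩ := exists_transfer_ker (P : Subgroup G) hPab
    haveI := hG₁n
    obtain ⟨a, ha⟩ := IsPGroup.iff_card.mp P.isPGroup'
    have hG₁c : ∀ z ∈ (P : Subgroup G), z ∈ Subgroup.center G → z ∈ G₁ → z = 1 := by
      intro z hz hzc hzG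
      exact isPElt_eq_one_of_pow hp (isPElt_of_mem_sylow P hz) P.not_dvd_index
        (hG₁z z hz hzc hzG)
    have hG₁ne : G₁ ≠ ⊤ := by
      intro htop
      apply hZ
      rw [Subgroup.eq_bot_iff_forall]
      intro z hz
      have hz' := Subgroup.mem_inf.mp hz
      exact hG₁c z hz'.1 hz'.2 (by rw [htop]; exact Subgroup.mem_top z)
    have hG₁cl := hsub G₁ hG₁ne
    have hG₁p : ∀ x ∈ G₁, IsPElt p x → x = 1 := by
      intro x hx hpx
      have hall : ∀ g : G, g⁻¹ * x * g ∈ (P : Subgroup G) := by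
        obtain ⟨c, hc⟩ := exists_conj_of_pclosed P hG₁cl
        intro g
        have hy : (c * g⁻¹) * x * (c * g⁻¹)⁻¹ ∈ G₁ := hG₁n.conj_mem x hx _
        have hyp : IsPElt p ((c * g⁻¹) * x * (c * g⁻¹)⁻¹) := hpx.conj _
        have h1 := hc _ hy hyp
        have e : c⁻¹ * ((c * g⁻¹) * x * (c * g⁻¹)⁻¹) * c = g⁻¹ * x * g := by group
        rw [e] at h1
        exact h1
      have hxP : x ∈ (P : Subgroup G) := by
        have h1 := hall 1
        rw [inv_one, one_mul, mul_one] at h1
        exact h1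
      have hxc : x ∈ Subgroup.center G := hS1 g₀ hg₀ x hxP (hall g₀)
      exact hG₁c x hxP hxc hx
    have hsup : G₁ ⊔ (P : Subgroup G) = ⊤ := by
      have h1 : (G₁ ⊔ (P : Subgroup G)).index ∣ p ^ a := by
        rw [← ha]
        exact (Subgroup.index_dvd_of_le le_sup_left).trans hG₁idx
      have h2 : (G₁ ⊔ (P : Subgroup G)).index ∣ (P : Subgroup G).index :=
        Subgroup.index_dvd_of_le le_sup_right
      obtain ⟨i, -, hi⟩ := (Nat.dvd_prime_pow hp).mp h1
      have hi0 : i = 0 := by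
        by_contra hne
        have h3 : p ∣ (G₁ ⊔ (P : Subgroup G)).index := by
          rw [hi]; exact dvd_pow_self p hne
        exact P.not_dvd_index (h3.trans h2)
      rw [hi0, pow_zero] at hi
      exact Subgroup.index_eq_one.mp hi
    have hdecomp : ∀ y : G, ∃ u ∈ G₁, ∃ h ∈ (P : Subgroup G), u * h = y := by
      intro y
      have hy : y ∈ ((G₁ ⊔ (P : Subgroup G) : Subgroup G) : Set G) := by
        rw [hsup]; exact Subgroup.mem_top y
      rw [Subgroup.normal_mul] at hy
      obtain ⟨u, hu, h, hh, e⟩ := Set.mem_mul.mp hy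
      exact ⟨u, hu, h, hh, e⟩
    obtain ⟨K, hKdef⟩ : ∃ K : Subgroup G,
        K = Subgroup.centralizer ((P : Subgroup G) : Set G) := ⟨_, rfl⟩
    have hKmem : ∀ g : G, g ∈ K ↔ ∀ h ∈ (P : Subgroup G), h * g = g * h := by
      intro g; rw [hKdef]; exact Subgroup.mem_centralizer_iff
    have hPK : (P : Subgroup G) ≤ K := fun x hx => (hKmem x).mpr (fun h hh => hPab h hh x hx)
    have hNK : ∀ g : G, g • P = P → g ∈ K := by
      intro g hg
      obtain ⟨u, hu, h, hh, e⟩ := hdecomp g
      have hgP : ∀ x ∈ (P : Subgroup G), g⁻¹ * x * g ∈ (P : Subgroup G) := by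
        intro x hx
        exact (mem_smul_sylow g P x).mp (by rw [hg]; exact hx)
      have huP : ∀ x ∈ (P : Subgroup G), u⁻¹ * x * u ∈ (P : Subgroup G) := by
        intro x hx
        have hu' : u = g * h⁻¹ := by rw [← e, mul_inv_cancel_right]
        have e2 : u⁻¹ * x * u = h * (g⁻¹ * x * g) * h⁻¹ := by rw [hu']; group
        rw [e2]
        exact (P : Subgroup G).mul_mem ((P : Subgroup G).mul_mem hh (hgP x hx))
          ((P : Subgroup G).inv_mem hh)
      have hucomm : ∀ x ∈ (P : Subgroup G), x * u = u * x := by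
        intro x hx
        have hwP : u⁻¹ * x * u * x⁻¹ ∈ (P : Subgroup G) :=
          (P : Subgroup G).mul_mem (huP x hx) ((P : Subgroup G).inv_mem hx)
        have hwG : u⁻¹ * x * u * x⁻¹ ∈ G₁ := by
          have e3 : u⁻¹ * x * u * x⁻¹ = u⁻¹ * (x * u * x⁻¹) := by group
          rw [e3]
          exact G₁.mul_mem (G₁.inv_mem hu) (hG₁n.conj_mem u hu x)
        have hw1 := hG₁p _ hwG (isPElt_of_mem_sylow P hwP)
        have h3 : u⁻¹ * x * u = x := mul_inv_eq_one.mp hw1
        calc x * u = u * (u⁻¹ * x * u) := by group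
          _ = u * x := by rw [h3]
      rw [hKmem]
      intro x hx
      rw [← e]
      calc x * (u * h) = (x * u) * h := by group
        _ = (u * x) * h := by rw [hucomm x hx]
        _ = u * (x * h) := by group
        _ = u * (h * x) := by rw [hPab x hx h hh]
        _ = u * h * x := by group
    have hcore : ∀ (χ : IrrCharacter G) (d : ℕ), (χ : G → ℂ) 1 = d → d + 2 ≤ p →
        ∀ h ∈ (P : Subgroup G), ‖(χ : G → ℂ) h‖ = ‖(χ : G → ℂ) 1‖ := by
      intro χ d hd hdp
      haveI : Fintype ↥K := Fintype.ofFinite _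
      obtain ⟨PF, hPF⟩ : ∃ PF : Finset ↥K, ∀ y : ↥K, y ∈ PF ↔ (y : G) ∈ (P : Subgroup G) :=
        ⟨Finset.univ.filter (fun y : ↥K => (y : G) ∈ (P : Subgroup G)), fun y => by
          simp only [Finset.mem_filter, Finset.mem_univ, true_and]⟩
      obtain ⟨ZF, hZF⟩ : ∃ ZF : Finset ↥K, ∀ y : ↥K,
          y ∈ ZF ↔ (y : G) ∈ (P : Subgroup G) ⊓ Subgroup.center G :=
        ⟨Finset.univ.filter (fun y : ↥K => (y : G) ∈ (P : Subgroup G) ⊓ Subgroup.center G),
          fun y => by simp only [Finset.mem_filter, Finset.mem_univ, true_and]⟩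
      obtain ⟨CF, hCF⟩ : ∃ CF : Finset ↥K, ∀ y : ↥K, y ∈ CF ↔ (y : G) ∈ G₁ :=
        ⟨Finset.univ.filter (fun y : ↥K => (y : G) ∈ G₁), fun y => by
          simp only [Finset.mem_filter, Finset.mem_univ, true_and]⟩
      have hZP : ZF ⊆ PF := fun y hy =>
        (hPF y).mpr ((Subgroup.mem_inf.mp ((hZF y).mp hy)).1)
      have hcen : ∀ h ∈ PF, h ∈ Subgroup.center ↥K := by
        intro h hh
        rw [Subgroup.mem_center_iff]
        intro g
        apply Subtype.ext
        show (g : G) * (h : G) = (h : G) * (g : G)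
        exact ((hKmem g).mp g.2 h ((hPF h).mp hh)).symm
      have hinj : ∀ h ∈ PF, ∀ c ∈ CF, ∀ h' ∈ PF, ∀ c' ∈ CF,
          h * c = h' * c' → h = h' ∧ c = c' := by
        intro h hh c hc h' hh' c' hc' e
        have e' : (h : G) * (c : G) = (h' : G) * (c' : G) := congrArg Subtype.val e
        have hwP : (h' : G)⁻¹ * (h : G) ∈ (P : Subgroup G) :=
          (P : Subgroup G).mul_mem ((P : Subgroup G).inv_mem ((hPF h').mp hh'))
            ((hPF h).mp hh)
        have hw : (h' : G)⁻¹ * (h : G) = (c' : G) * (c : G)⁻¹ := by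
          have h1 : (h : G) = (h' : G) * (c' : G) * (c : G)⁻¹ := by
            rw [← e', mul_inv_cancel_right]
          rw [h1]; group
        have hwG : (h' : G)⁻¹ * (h : G) ∈ G₁ := by
          rw [hw]; exact G₁.mul_mem ((hCF c').mp hc') (G₁.inv_mem ((hCF c).mp hc))
        have h1 := hG₁p _ hwG (isPElt_of_mem_sylow P hwP)
        have hh1 : (h : G) = (h' : G) := (inv_mul_eq_one.mp h1).symm
        have hc1 : (c : G) = (c' : G) := by
          rw [hh1] at e'
          exact mul_left_cancel e'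
        exact ⟨Subtype.ext hh1, Subtype.ext hc1⟩
      have hsurj : ∀ w : ↥K, ∃ h ∈ PF, ∃ c ∈ CF, h * c = w := by
        intro w
        obtain ⟨u, hu, h, hh, e⟩ := hdecomp (w : G)
        have hhK : h ∈ K := hPK hh
        have hcK : h⁻¹ * (w : G) ∈ K := K.mul_mem (K.inv_mem hhK) w.2
        have hcG : h⁻¹ * (w : G) ∈ G₁ := by
          rw [← e]
          have e2 : h⁻¹ * (u * h) = h⁻¹ * u * h⁻¹⁻¹ := by group
          rw [e2]
          exact hG₁n.conj_mem u hu h⁻¹
        refine ⟨⟨h, hhK⟩, (hPF _).mpr hh, ⟨h⁻¹ * (w : G), hcK⟩, (hCF _).mpr hcG, ?_⟩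
        apply Subtype.ext
        show h * (h⁻¹ * (w : G)) = (w : G)
        rw [mul_inv_cancel_left]
      have hCFp : ∀ c ∈ CF, ∃ M : ℕ, ¬ p ∣ M ∧ (c : G) ^ M = 1 := by
        intro c hc
        obtain ⟨e, M, hM, hord⟩ :=
          Nat.exists_eq_pow_mul_and_not_dvd (orderOf_pos (c : G)).ne' p hp.ne_one
        refine ⟨M, hM, ?_⟩
        apply hG₁p _ (G₁.pow_mem ((hCF c).mp hc) M)
        refine ⟨e, ?_⟩
        rw [← pow_mul, mul_comm M (p ^ e), ← hord, pow_orderOf_eq_one]
      obtain ⟨D, hDdef⟩ : ∃ D : Finset G,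
          D = ((PF \ ZF) ×ˢ CF).image (fun q : ↥K × ↥K => (q.1 : G) * (q.2 : G)) := ⟨_, rfl⟩
      have hDmem : ∀ y : G, y ∈ D ↔ ∃ h ∈ PF, h ∉ ZF ∧ ∃ c ∈ CF, (h : G) * (c : G) = y := by
        intro y
        rw [hDdef, Finset.mem_image]
        constructor
        · rintro ⟨q, hq, e⟩
          have hq' := Finset.mem_product.mp hq
          have hq1 := Finset.mem_sdiff.mp hq'.1
          exact ⟨q.1, hq1.1, hq1.2, q.2, hq'.2, e⟩
        · rintro ⟨h, hh, hhZ, c, hc, e⟩
          exact ⟨(h, c), Finset.mem_product.mpr ⟨Finset.mem_sdiff.mpr ⟨hh, hhZ⟩, hc⟩, e⟩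
      have hnc' : ∀ h ∈ PF, h ∉ ZF → (h : G) ∉ Subgroup.center G := by
        intro h hh hhZ hcen'
        exact hhZ ((hZF h).mpr (Subgroup.mem_inf.mpr ⟨(hPF h).mp hh, hcen'⟩))
      have hTI : ∀ y ∈ D, ∀ g : G, g * y * g⁻¹ ∈ D → g ∈ K := by
        intro y hy g hgy
        obtain ⟨h, hh, hhZ, c, hc, e⟩ := (hDmem y).mp hy
        obtain ⟨h₂, hh₂, -, c₂, hc₂, e₂⟩ := (hDmem _).mp hgy
        obtain ⟨M₁, hM₁, hcM₁⟩ := hCFp c hc
        obtain ⟨M₂, hM₂, hcM₂⟩ := hCFp c₂ hc₂
        have hM : ¬ p ∣ M₁ * M₂ := by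
          intro hdvd
          rcases (Nat.Prime.dvd_mul hp).mp hdvd with h1 | h1
          · exact hM₁ h1
          · exact hM₂ h1
        have hhP : (h : G) ∈ (P : Subgroup G) := (hPF h).mp hh
        have hh₂P : (h₂ : G) ∈ (P : Subgroup G) := (hPF h₂).mp hh₂
        have hcomm1 : Commute (h : G) (c : G) := (hKmem (c : G)).mp c.2 (h : G) hhP
        have hcomm2 : Commute (h₂ : G) (c₂ : G) := (hKmem (c₂ : G)).mp c₂.2 (h₂ : G) hh₂P
        have hy1 : y ^ (M₁ * M₂) = (h : G) ^ (M₁ * M₂) := by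
          rw [← e, hcomm1.mul_pow, pow_mul (c : G), hcM₁, one_pow, mul_one]
        have hy2 : (g * y * g⁻¹) ^ (M₁ * M₂) = (h₂ : G) ^ (M₁ * M₂) := by
          rw [← e₂, hcomm2.mul_pow, mul_comm M₁ M₂, pow_mul (c₂ : G), hcM₂, one_pow, mul_one]
        rw [conj_pow, hy1] at hy2
        have hz : (h : G) ^ (M₁ * M₂) ∈ (P : Subgroup G) := (P : Subgroup G).pow_mem hhP _
        have hz' : g⁻¹⁻¹ * (h : G) ^ (M₁ * M₂) * g⁻¹ ∈ (P : Subgroup G) := by
          rw [inv_inv, hy2]; exact (P : Subgroup G).pow_mem hh₂P _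
        have hgP : g⁻¹ • P = P := by
          by_contra hne
          have hcen' := hS1 g⁻¹ hne _ hz hz'
          obtain ⟨e', he'⟩ := isPElt_pow_inv hp (isPElt_of_mem_sylow P hhP) hM
          apply hnc' h hh hhZ
          rw [← he']
          exact Subgroup.pow_mem _ hcen' e'
        have h3 := hNK g⁻¹ hgP
        exact (K.inv_mem_iff).mp h3
      have hDsum : ∑ y ∈ D, ‖(χ : G → ℂ) y‖ ^ 2 =
          ∑ h ∈ PF \ ZF, ∑ c ∈ CF, ‖(χ : G → ℂ) ((h : G) * (c : G))‖ ^ 2 := by
        have hinj' : Set.InjOn (fun q : ↥K × ↥K => (q.1 : G) * (q.2 : G))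
            ↑((PF \ ZF) ×ˢ CF) := by
          intro q hq q' hq' e
          have hq1 := Finset.mem_product.mp (Finset.mem_coe.mp hq)
          have hq2 := Finset.mem_product.mp (Finset.mem_coe.mp hq')
          have e0 : (q.1 : G) * (q.2 : G) = (q'.1 : G) * (q'.2 : G) := e
          have e' : q.1 * q.2 = q'.1 * q'.2 := Subtype.ext e0
          have h3 := hinj q.1 (Finset.mem_sdiff.mp hq1.1).1 q.2 hq1.2 q'.1
            (Finset.mem_sdiff.mp hq2.1).1 q'.2 hq2.2 e'
          exact Prod.ext h3.1 h3.2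
        rw [hDdef, Finset.sum_image hinj',
          Finset.sum_product' (PF \ ZF) CF
            (fun h c => ‖(χ : G → ℂ) ((h : G) * (c : G))‖ ^ 2)]
      have hD : ∑ h ∈ PF \ ZF, ∑ c ∈ CF, ‖(fun y : ↥K => (χ : G → ℂ) y) (h * c)‖ ^ 2 ≤
          (Nat.card ↥K : ℝ) := by
        have h1 := ti_sum_le χ D K hTI
        rw [hDsum] at h1
        exact h1
      have hPFcard : PF.card = Nat.card ↥(P : Subgroup G) := card_of_mem_iff K _ hPK PF hPF
      have hZFcard : ZF.card = Nat.card ↥((P : Subgroup G) ⊓ Subgroup.center G) :=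
        card_of_mem_iff K _ (inf_le_left.trans hPK) ZF hZF
      obtain ⟨b, hb⟩ := IsPGroup.iff_card.mp (P.isPGroup'.to_le
        (inf_le_left : (P : Subgroup G) ⊓ Subgroup.center G ≤ (P : Subgroup G)))
      have hZlt : Nat.card ↥((P : Subgroup G) ⊓ Subgroup.center G) <
          Nat.card ↥(P : Subgroup G) := by
        refine lt_of_le_of_ne (Subgroup.card_le_of_le inf_le_left) ?_
        intro heq
        have hEq : (P : Subgroup G) ⊓ Subgroup.center G = (P : Subgroup G) :=
          Subgroup.eq_of_le_of_card_ge inf_le_left (le_of_eq heq.symm)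
        apply hPnn
        intro g x hx
        have hxc : x ∈ Subgroup.center G := by
          have h1 : x ∈ (P : Subgroup G) ⊓ Subgroup.center G := by rw [hEq]; exact hx
          exact (Subgroup.mem_inf.mp h1).2
        have e : g * x * g⁻¹ = x := by
          rw [Subgroup.mem_center_iff.mp hxc g, mul_inv_cancel_right]
        rw [e]; exact hx
      have hidx : p * ZF.card ≤ PF.card := by
        rw [hPFcard, hZFcard, ha, hb]
        rw [ha, hb] at hZlt
        have hba : b < a := (Nat.pow_lt_pow_iff_right hp.one_lt).mp hZlt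
        calc p * p ^ b = p ^ (b + 1) := by rw [pow_succ, mul_comm]
          _ ≤ p ^ a := Nat.pow_le_pow_right hp.pos hba
      have hZpos : 0 < ZF.card := by rw [hZFcard]; exact Nat.card_pos
      have hψ' : IsCharacter ↥K (fun y : ↥K => (χ : G → ℂ) y) :=
        isCharacter_restrict K (isCharacter_of_isIrrCharacter χ.2)
      have hd' : (fun y : ↥K => (χ : G → ℂ) y) 1 = (d : ℂ) := hd
      have hres := centralE hψ' PF ZF CF hZP hcen hinj hsurj hD p d hp hd' hdp hidx hZpos
      intro h hh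
      exact hres ⟨h, hPK hh⟩ ((hPF _).mpr hh)
    apply hfin
    intro ψ hψ h hh k
    obtain ⟨d, hdpos, hd, hdn⟩ := constituent_degree_le hΦ n hΦ1 ψ hψ
    exact irr_comm_eq_of_norm_eq ψ h (hcore ψ d hd (by omega) h hh) k

theorem pclosed_all {G : Type u} [Group G] [Finite G] (n : ℕ)
    (ρ : Representation ℂ G (Fin n → ℂ)) (hρ : Function.Injective ρ) (p : ℕ) [Fact p.Prime]
    (h : (n + 1) ^ 2 ≤ p ∨
      (n + 1 < p ∧ ∀ K : Subgroup G, ¬ p ^ 2 ∣ Nat.card K → PClosed p K)) :
    ∀ (m : ℕ) (K : Subgroup G), Nat.card K = m → PClosed p K := by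
  have hp : p.Prime := Fact.out
  have hnp : n + 1 < p := by
    rcases h with hA | hB
    · rcases Nat.eq_zero_or_pos n with h0 | hpos
      · have h2 := hp.two_le
        omega
      · have h1 : (n + 1) * 2 ≤ (n + 1) ^ 2 := by
          rw [sq]; exact Nat.mul_le_mul_left _ (by omega)
        omega
    · exact hB.1
  intro m
  induction m using Nat.strong_induction_on with
  | _ m ih =>
    intro K hK
    have hρK : Function.Injective (MonoidHom.comp ρ K.subtype) := by
      intro x y hxy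
      have hxy' : ρ (x : G) = ρ (y : G) := hxy
      exact Subtype.ext (hρ hxy')
    have hsubK : ∀ L : Subgroup ↥K, L ≠ ⊤ → PClosed p L := by
      intro L hL
      have hlt : Nat.card ↥(L.map K.subtype) < m := by
        rw [Subgroup.card_map_of_injective K.subtype_injective, ← hK]
        refine lt_of_le_of_ne (Subgroup.card_le_card_group L) ?_
        intro heq
        exact hL (Subgroup.eq_top_of_card_eq L heq)
      exact (pclosed_map_iff L).mp (ih _ hlt (L.map K.subtype) rfl)
    have hABK : (n + 1) ^ 2 ≤ p ∨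
        (¬ p ^ 2 ∣ Nat.card ↥K → PClosed p (⊤ : Subgroup ↥K)) := by
      rcases h with hA | hB
      · exact Or.inl hA
      · exact Or.inr (fun hnd => pclosed_top_iff.mpr (hB.2 K hnd))
    exact pclosed_top_iff.mp
      (min_counter n (MonoidHom.comp ρ K.subtype) hρK p hnp hsubK hABK)

end Cfsg.Agent.Helper22
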