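import Mathlib
import Cfsg.Agent.Helper22.GalChar2

/-!
# First-power Galois averaging for nonnegative character values (helper22)

* `IsCycFam.sum_re_ge`, `sum_units_re_ge`: if a character `η` takes nonnegative real values and
  `η g ≠ 0`, the values at the Galois conjugates `g ^ k` sum to at least `φ(|G|)`.
* `exists_zero_of_sum_re`: a character with nonnegative real values, average `1` and
  `η 1 > 1` vanishes somewhere.
-/

set_option autoImplicit false

namespace Cfsg.Agent.Helper22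

open Cfsg Cfsg.Agent.Helper24

universe u

theorem sum_re_ge_card {ι : Type*} [Fintype ι] (z : ι → ℂ) (N : ℤ)
    (hN : ∏ i, z i = (N : ℂ)) (h0 : ∀ i, z i ≠ 0)
    (hre : ∀ i, ∃ r : ℝ, 0 ≤ r ∧ z i = (r : ℂ)) :
    (Fintype.card ι : ℝ) ≤ ∑ i, (z i).re := by
  choose r hr0 hr using hre
  have hpos : ∀ i, 0 < r i := fun i =>
    lt_of_le_of_ne (hr0 i) (fun h => h0 i (by rw [hr i, ← h]; simp))
  have hprod : ∏ i, r i = (N : ℝ) := by
    have h1 : ((∏ i, r i : ℝ) : ℂ) = ((N : ℝ) : ℂ) := by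
      rw [Complex.ofReal_prod, Finset.prod_congr rfl (fun i _ => (hr i).symm), hN]
      simp
    exact_mod_cast h1
  have hNpos : (0 : ℝ) < (N : ℝ) := by
    rw [← hprod]
    exact Finset.prod_pos fun i _ => hpos i
  have hN1 : (1 : ℝ) ≤ (N : ℝ) := by
    have h2 : (0 : ℤ) < N := by exact_mod_cast hNpos
    have h3 : (1 : ℤ) ≤ N := h2
    exact_mod_cast h3
  have hlog : 0 ≤ ∑ i, Real.log (r i) := by
    rw [← Real.log_prod (fun i _ => (hpos i).ne'), hprod]
    exact Real.log_nonneg hN1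
  have h3 : ∑ i, Real.log (r i) ≤ ∑ i, (r i - 1) :=
    Finset.sum_le_sum fun i _ => Real.log_le_sub_one_of_pos (hpos i)
  rw [Finset.sum_sub_distrib, Finset.sum_const, Finset.card_univ, nsmul_eq_mul, mul_one] at h3
  have h4 : ∑ i, (z i).re = ∑ i, r i :=
    Finset.sum_congr rfl fun i _ => by rw [hr i, Complex.ofReal_re]
  rw [h4]
  linarith

theorem IsCycFam.sum_re_ge {n : ℕ} [NeZero n] {f : (ZMod n)ˣ → ℂ} (hf : IsCycFam n f)
    {k₀ : (ZMod n)ˣ} (h0 : f k₀ ≠ 0) (hre : ∀ k, ∃ r : ℝ, 0 ≤ r ∧ f k = (r : ℂ)) :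
    (Fintype.card (ZMod n)ˣ : ℝ) ≤ ∑ k, (f k).re := by
  obtain ⟨N, hN⟩ := hf.prod_int
  exact sum_re_ge_card f N hN (fun k hk => h0 (hf.eq_zero hk k₀)) hre

variable {G : Type u} [Group G] [Finite G]

theorem sum_units_re_ge {η : G → ℂ} (hη : IsCharacter G η)
    (hre : ∀ g, ∃ r : ℝ, 0 ≤ r ∧ η g = (r : ℂ)) {g : G} (h0 : η g ≠ 0) :
    (Fintype.card (ZMod (Nat.card G))ˣ : ℝ) ≤
      ∑ k : (ZMod (Nat.card G))ˣ, (η (g ^ (k : ZMod (Nat.card G)).val)).re := by
  have hf := char_pow_fam hη g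
  have h1 : (fun k : (ZMod (Nat.card G))ˣ => η (g ^ (k : ZMod (Nat.card G)).val)) 1 ≠ 0 := by
    show η (g ^ ((1 : (ZMod (Nat.card G))ˣ) : ZMod (Nat.card G)).val) ≠ 0
    rw [pow_unit_one]
    exact h0
  exact hf.sum_re_ge h1 (fun k => hre _)

/-- A character with nonnegative real values, mean value `1` and `η 1 > 1` has a zero. -/
theorem exists_zero_of_sum_re [Fintype G] {η : G → ℂ} (hη : IsCharacter G η)
    (hre : ∀ g, ∃ r : ℝ, 0 ≤ r ∧ η g = (r : ℂ))
    (hsum : ∑ g : G, (η g).re = (Nat.card G : ℝ)) (h1 : 1 < (η 1).re) : ∃ g, η g = 0 := by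
  by_contra hcon
  push Not at hcon
  obtain ⟨φ, hφ⟩ : ∃ φ : ℝ, φ = (Fintype.card (ZMod (Nat.card G))ˣ : ℝ) := ⟨_, rfl⟩
  have hφpos : 0 < φ := by
    rw [hφ]
    exact Nat.cast_pos.mpr Fintype.card_pos
  have hk : ∀ k : (ZMod (Nat.card G))ˣ,
      ∑ g : G, (η (g ^ (k : ZMod (Nat.card G)).val)).re = (Nat.card G : ℝ) := by
    intro k
    rw [← hsum]
    exact Fintype.sum_equiv (powCoprime (ZMod.val_coe_unit_coprime k).symm) _ _ (fun g => rfl)
  have hF : ∀ g : G, φ ≤ ∑ k : (ZMod (Nat.card G))ˣ,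
      (η (g ^ (k : ZMod (Nat.card G)).val)).re := by
    intro g
    rw [hφ]
    exact sum_units_re_ge hη hre (hcon g)
  have hstrict : ∑ _g : G, φ < ∑ g : G, ∑ k : (ZMod (Nat.card G))ˣ,
      (η (g ^ (k : ZMod (Nat.card G)).val)).re := by
    apply Finset.sum_lt_sum (fun g _ => hF g)
    refine ⟨1, Finset.mem_univ _, ?_⟩
    have h3 : ∀ k : (ZMod (Nat.card G))ˣ,
        (η ((1 : G) ^ (k : ZMod (Nat.card G)).val)).re = (η 1).re := by
      intro k
      rw [one_pow]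
    rw [Finset.sum_congr rfl (fun k _ => h3 k), Finset.sum_const, Finset.card_univ,
      nsmul_eq_mul, ← hφ]
    nlinarith [mul_pos hφpos (sub_pos.mpr h1)]
  rw [Finset.sum_comm, Finset.sum_congr rfl (fun k _ => hk k), Finset.sum_const,
    Finset.card_univ, nsmul_eq_mul, Finset.sum_const, Finset.card_univ, nsmul_eq_mul, ← hφ,
    ← Nat.card_eq_fintype_card] at hstrict
  linarith

end Cfsg.Agent.Helper22
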