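import Mathlib
import Cfsg.Agent.Helper24.GalOdd2
import Cfsg.Agent.Helper5.DetChar
import Cfsg.Agent.Helper5.GlaubUp
import Cfsg.Agent.Helper22.FrobSchur2

/-!
# Piece [a] of S4553: irreducible restriction

`res_irr` : an irreducible character of degree prime to `p` restricts irreducibly to a normal
subgroup whose quotient is a cyclic `p`-group.
-/

set_option autoImplicit false

namespace Cfsg.Agent.Helper22.S4553a

open Cfsg Cfsg.Agent.Helper24
open scoped Classical

theorem res_irr {G : Type*} [Group G] [Finite G] (p : ℕ) [Fact p.Prime] (N : Subgroup G)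
    [hN : N.Normal] (hcyc : IsCyclic (G ⧸ N)) (hpq : IsPGroup p (G ⧸ N))
    (χ : Cfsg.IrrCharacter G) (hdeg : ¬ p ∣ Cfsg.charDegree (χ : G → ℂ)) :
    ∃ θ : Cfsg.IrrCharacter ↥N, ∀ n : ↥N, (θ : ↥N → ℂ) n = (χ : G → ℂ) n := by
  haveI : Fintype G := Fintype.ofFinite G
  haveI : Fintype ↥N := Fintype.ofFinite ↥N
  have hp : p.Prime := Fact.out
  have hN0 : (Nat.card N : ℂ) ≠ 0 := Nat.cast_ne_zero.mpr Nat.card_pos.ne'
  have hc : ∀ a b : G ⧸ N, a * b = b * a := by
    intro a b
    letI := IsCyclic.commGroup (α := G ⧸ N)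
    exact mul_comm a b
  have hab : ∀ x y : G, x * y * x⁻¹ * y⁻¹ ∈ N := by
    intro x y
    have e : ((x * y * x⁻¹ * y⁻¹ : G) : G ⧸ N) = 1 := by
      rw [QuotientGroup.mk_mul, QuotientGroup.mk_mul, QuotientGroup.mk_mul, QuotientGroup.mk_inv,
        QuotientGroup.mk_inv, hc (x : G ⧸ N) (y : G ⧸ N), mul_inv_cancel_right, mul_inv_cancel]
    exact (QuotientGroup.eq_one_iff _).mp e
  obtain ⟨ex, hex⟩ := (IsPGroup.iff_card).1 hpq
  have hidx : N.index = p ^ ex := by rw [Subgroup.index_eq_card]; exact hex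
  obtain ⟨hd1, -⟩ := Cfsg.Agent.Helper22.charDegree_irr χ
  obtain ⟨d, hd⟩ : ∃ d : ℕ, d = Cfsg.charDegree (χ : G → ℂ) := ⟨_, rfl⟩
  have hχ1 : (χ : G → ℂ) 1 = d := by rw [hd]; exact hd1.symm
  have hdp : ¬ p ∣ d := by rw [hd]; exact hdeg
  have hcop' : Nat.gcd d N.index = 1 := by
    rw [hidx]
    exact Nat.Coprime.pow_right ex ((Nat.Prime.coprime_iff_not_dvd hp).2 hdp).symm
  have hχc := isCharacter_of_isIrrCharacter χ.2
  obtain ⟨ψ, hψ⟩ : ∃ ψ : G → ℂ, ψ = (χ : G → ℂ) *
      (fun g => starRingEnd ℂ ((χ : G → ℂ) g)) := ⟨_, rfl⟩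
  have hψc : IsCharacter G ψ := by
    rw [hψ]
    exact Cfsg.Agent.Helper5.isCharacter_mul hχc (isCharacter_star hχc)
  obtain ⟨Pc, hPc⟩ : ∃ Pc : G → ℂ, Pc = indFun N (fun _ : N => (1 : ℂ)) := ⟨_, rfl⟩
  have hPcc : IsCharacter G Pc := by
    rw [hPc]
    exact isCharacter_induced N _
      (isCharacter_of_isIrrCharacter (Cfsg.Agent.Helper22.isIrrCharacter_one (G := N)))
  have hPccf := isCharacter_isClassFunction hPcc
  have hdec := classFunction_eq_sum_irr Pc hPccf
  choose a ha using fun β : IrrCharacter G => isCharacter_inner_irr hPcc β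
  choose b hb using fun β : IrrCharacter G =>
    classInner_isCharacter_natCast (isCharacter_of_isIrrCharacter β.2) hψc
  have e2 : classInner Pc ψ = ((∑ β : IrrCharacter G, a β * b β : ℕ) : ℂ) := by
    have e : classInner Pc ψ =
        classInner (∑ β : IrrCharacter G, classInner Pc (β : G → ℂ) • (β : G → ℂ)) ψ :=
      congrArg (fun F => classInner F ψ) hdec
    rw [e, classInner_sum_left]
    push_cast
    refine Finset.sum_congr rfl fun β _ => ?_
    rw [classInner_smul_left, ha, hb]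
  obtain ⟨t, ht⟩ : ∃ t : IrrCharacter G, ∀ g, (t : G → ℂ) g = 1 :=
    ⟨⟨_, Cfsg.Agent.Helper22.isIrrCharacter_one (G := G)⟩, fun g => rfl⟩
  have key : ∀ β : IrrCharacter G, (∀ x ∈ N, (β : G → ℂ) x = 1) →
      (∀ g, (β : G → ℂ) g * (χ : G → ℂ) g = (χ : G → ℂ) g) → a β = 1 ∧ b β = 1 := by
    intro β hβN hβχ
    constructor
    · have h1 : classInner Pc (β : G → ℂ) = 1 := by
        rw [hPc, classInner_indFun N _ _ (irr_isClassFunction β), classInner_def']
        have hs : ∑ n : N, (1 : ℂ) * starRingEnd ℂ ((β : G → ℂ) n) = ∑ _n : N, (1 : ℂ) :=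
          Finset.sum_congr rfl fun n _ => by rw [hβN (n : G) n.2, map_one, one_mul]
        rw [hs, Finset.sum_const, Finset.card_univ, nsmul_eq_mul, mul_one,
          ← Nat.card_eq_fintype_card, inv_mul_cancel₀ hN0]
      rw [ha] at h1
      exact_mod_cast h1
    · have h1 : classInner (β : G → ℂ) ψ = 1 := by
        have h4 := irr_inner_self χ
        rw [classInner_def'] at h4 ⊢
        refine Eq.trans ?_ h4
        congr 1
        refine Finset.sum_congr rfl fun g _ => ?_
        rw [hψ]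
        simp only [Pi.mul_apply, map_mul, Complex.conj_conj]
        linear_combination (starRingEnd ℂ ((χ : G → ℂ) g)) * hβχ g
      rw [hb] at h1
      exact_mod_cast h1
  obtain ⟨hat, hbt⟩ := key t (fun x _ => ht x) (fun g => by rw [ht, one_mul])
  have claim : ∀ β : IrrCharacter G, a β * b β ≠ 0 → β = t := by
    intro β hβ
    have ha0 : a β ≠ 0 := fun h0 => hβ (by rw [h0, zero_mul])
    have hb0 : b β ≠ 0 := fun h0 => hβ (by rw [h0, mul_zero])
    have h1 : classInner Pc (β : G → ℂ) ≠ 0 := by rw [ha]; exact_mod_cast ha0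
    rw [hPc, classInner_indFun N _ _ (irr_isClassFunction β), classInner_def'] at h1
    have hsum : ∑ n : N, (1 : ℂ) * starRingEnd ℂ ((β : G → ℂ) n) =
        starRingEnd ℂ (∑ n : N, (β : G → ℂ) n) := by
      rw [map_sum]; exact Finset.sum_congr rfl fun n _ => one_mul _
    rw [hsum] at h1
    have h2 : ∑ n : N, (β : G → ℂ) n ≠ 0 := by
      intro h0
      rw [h0, map_zero, mul_zero] at h1
      exact h1 rfl
    have hker := irr_ker_of_sum_ne_zero N β h2
    have hβ1 : (β : G → ℂ) 1 = 1 :=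
      Cfsg.Agent.Helper5.irr_one_of_const_on N hab β (fun n => hker (n : G) n.2)
    have hβN : ∀ x ∈ N, (β : G → ℂ) x = 1 := fun x hx => (hker x hx).trans hβ1
    obtain ⟨φ, hφ⟩ :=
      Cfsg.Agent.Helper5.linChar_exists_hom (isCharacter_of_isIrrCharacter β.2) hβ1
    have hφN : ∀ x ∈ N, φ x = 1 := by
      intro x hx
      apply Units.ext
      rw [hφ, hβN x hx]; rfl
    have hβχ : IsIrrCharacter G ((β : G → ℂ) * (χ : G → ℂ)) :=
      linear_mul_irr (β : G → ℂ) (χ : G → ℂ) β.2 hβ1 χ.2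
    have h3 : classInner ((β : G → ℂ) * (χ : G → ℂ)) (χ : G → ℂ) ≠ 0 := by
      have h5 : classInner ((β : G → ℂ) * (χ : G → ℂ)) (χ : G → ℂ) =
          classInner (β : G → ℂ) ψ := by
        rw [classInner_def', classInner_def', hψ]
        congr 1
        refine Finset.sum_congr rfl fun g _ => ?_
        simp only [Pi.mul_apply, map_mul, Complex.conj_conj]
        ring
      rw [h5, hb]
      exact_mod_cast hb0
    have heq : (⟨(β : G → ℂ) * (χ : G → ℂ), hβχ⟩ : IrrCharacter G) = χ := by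
      by_contra hne
      exact h3 (irr_inner_ne hne)
    have hχβ : ∀ g, (χ : G → ℂ) g = ((φ g : ℂˣ) : ℂ) * (χ : G → ℂ) g := by
      intro g
      rw [hφ]
      exact (congrFun (congrArg Subtype.val heq) g).symm
    obtain ⟨δ, hδ⟩ := Cfsg.Agent.Helper5.detChar_exists_hom (χ : G → ℂ)
    have hφd : ∀ g, φ g ^ d = 1 := by
      intro g
      have h6 := Cfsg.Agent.Helper5.detChar_linear_mul φ hχc d hχ1 g
      have h7 : (fun g => ((φ g : ℂˣ) : ℂ) * (χ : G → ℂ) g) = (χ : G → ℂ) :=
        (funext hχβ).symm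
      rw [h7, ← hδ] at h6
      apply Units.ext
      rw [Units.val_pow_eq_pow_val, Units.val_one]
      have hδ0 : ((δ g : ℂˣ) : ℂ) ≠ 0 := Units.ne_zero _
      have h8 : (((φ g : ℂˣ) : ℂ) ^ d - 1) * ((δ g : ℂˣ) : ℂ) = 0 := by
        linear_combination (-1 : ℂ) * h6
      rcases mul_eq_zero.mp h8 with h9 | h9
      · exact sub_eq_zero.mp h9
      · exact absurd h9 hδ0
    have hφidx : ∀ g, φ g ^ N.index = 1 := by
      intro g
      rw [← map_pow]
      exact hφN _ (Subgroup.pow_index_mem N g)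
    have hφ1 : ∀ g, φ g = 1 := by
      intro g
      have h8 : orderOf (φ g) ∣ d := orderOf_dvd_of_pow_eq_one (hφd g)
      have h9 : orderOf (φ g) ∣ N.index := orderOf_dvd_of_pow_eq_one (hφidx g)
      have h10 : orderOf (φ g) ∣ 1 := by
        have := Nat.dvd_gcd h8 h9
        rwa [hcop'] at this
      exact orderOf_eq_one_iff.mp (Nat.dvd_one.mp h10)
    apply Subtype.ext
    funext g
    rw [ht, ← hφ, hφ1 g]; rfl
  have hres1 : classInner (fun n : N => (χ : G → ℂ) n) (fun n : N => (χ : G → ℂ) n) = 1 := by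
    have e1 : classInner Pc ψ =
        classInner (fun n : N => (χ : G → ℂ) n) (fun n : N => (χ : G → ℂ) n) := by
      rw [hPc, classInner_indFun N _ ψ (isCharacter_isClassFunction hψc), classInner_def',
        classInner_def', hψ]
      congr 1
      refine Finset.sum_congr rfl fun n _ => ?_
      simp only [Pi.mul_apply, map_mul, Complex.conj_conj, one_mul]
      rw [mul_comm]
    have e4 : ∑ β : IrrCharacter G, a β * b β = a t * b t := by
      apply Finset.sum_eq_single t
      · intro β _ hβt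
        by_contra h0
        exact hβt (claim β h0)
      · intro h; exact absurd (Finset.mem_univ t) h
    rw [← e1, e2, e4, hat, hbt]
    simp
  have hirr : IsIrrCharacter N (fun n : N => (χ : G → ℂ) n) :=
    isIrrCharacter_of_inner_self (isCharacter_restrict N hχc) hres1
  exact ⟨⟨_, hirr⟩, fun n => rfl⟩

end Cfsg.Agent.Helper22.S4553a
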