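import Mathlib
import Cfsg.Prelude.Def_Blocks
import Cfsg.Prelude.Def_Characters
import Cfsg.Prelude.Def_Transfer
import Cfsg.Agent.Helper22.BlkPrinReg
import Cfsg.Agent.Helper22.BlkPrinCover
import Cfsg.Agent.Helper26.FusNormal3
import Cfsg.Agent.Helper24.CharBasic

/-!
# Pieces [b], [c], [i] of S4553

* `blk_iff` : for `N = O^p(G)` and `χ` restricting to `θ`, `χ ∈ B₀(G) ↔ θ ∈ B₀(N)`
  (the `p`-regular elements of `G` lie in `N`);
* `inv_all` : a character of `O^p(G)` invariant under a Sylow `p`-subgroup is `G`-invariant;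
* `k_coprime` : the exponent `k` is prime to the group order.
-/

set_option autoImplicit false

namespace Cfsg.Agent.Helper22.S4553bci

theorem blk_iff {G : Type*} [Group G] [Finite G] (p : ℕ) [Fact p.Prime] (M : Ideal Cfsg.AlgInt)
    (hM : Cfsg.IsPModular p M) (N : Subgroup G) (hNres : N = Cfsg.pResidual p G)
    (χ : Cfsg.IrrCharacter G) (θ : Cfsg.IrrCharacter ↥N)
    (hres : ∀ n : ↥N, (θ : ↥N → ℂ) n = (χ : G → ℂ) n) :
    χ ∈ Cfsg.principalBlock M G ↔ θ ∈ Cfsg.principalBlock M ↥N := by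
  classical
  haveI : Fintype G := Fintype.ofFinite G
  rw [Cfsg.Agent.Helper22.principal_iff_reg_sum hM χ,
    Cfsg.Agent.Helper22.principal_iff_reg_sum hM θ]
  have hsum : ∑ x : G, (if ¬ p ∣ orderOf x then (χ : G → ℂ) x else 0) =
      ∑ n : ↥N, (if ¬ p ∣ orderOf n then (θ : ↥N → ℂ) n else 0) := by
    have h1 : ∀ x : G, (if ¬ p ∣ orderOf x then (χ : G → ℂ) x else 0) =
        if x ∈ N then (if ¬ p ∣ orderOf x then (χ : G → ℂ) x else 0) else 0 := by
      intro x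
      by_cases hx : x ∈ N
      · rw [if_pos hx]
      · rw [if_neg hx]
        have hdvd : p ∣ orderOf x := by
          by_contra hnd
          apply hx
          rw [hNres]
          apply Subgroup.subset_closure
          show Nat.Coprime (orderOf x) p
          exact Nat.Coprime.symm ((Nat.Prime.coprime_iff_not_dvd Fact.out).2 hnd)
        rw [if_neg (not_not.mpr hdvd)]
    rw [Finset.sum_congr rfl (fun x _ => h1 x),
      Cfsg.Agent.Helper22.sum_subgroup_ite N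
        (fun x => if ¬ p ∣ orderOf x then (χ : G → ℂ) x else 0)]
    refine Finset.sum_congr rfl fun n _ => ?_
    show (if ¬ p ∣ orderOf (n : G) then (χ : G → ℂ) n else 0) = _
    rw [Subgroup.orderOf_coe, hres]
  rw [hsum]

theorem inv_all {G : Type*} [Group G] [Finite G] (p : ℕ) [Fact p.Prime] (P : Sylow p G)
    (N : Subgroup G) [hN : N.Normal] (hNres : N = Cfsg.pResidual p G) (θ : Cfsg.IrrCharacter ↥N)
    (hP : ∀ x ∈ (P : Subgroup G), ∀ n : ↥N,
      (θ : ↥N → ℂ) ⟨x * n * x⁻¹, hN.conj_mem n n.2 x⟩ = (θ : ↥N → ℂ) n) :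
    ∀ (g : G) (n : ↥N), (θ : ↥N → ℂ) ⟨g * n * g⁻¹, hN.conj_mem n n.2 g⟩ = (θ : ↥N → ℂ) n := by
  intro g n
  obtain ⟨β, hβ, γ, hγ, rfl⟩ := Cfsg.Agent.Helper26.exists_mul_pResidual_sylow P g
  have hβN : β ∈ N := by rw [hNres]; exact hβ
  have h1 := hP γ hγ n
  have h2 := Cfsg.Agent.Helper24.irr_conj θ
    (⟨γ * n * γ⁻¹, hN.conj_mem n n.2 γ⟩ : ↥N) ⟨β, hβN⟩
  have e : (⟨β * γ * (n : G) * (β * γ)⁻¹, hN.conj_mem n n.2 (β * γ)⟩ : ↥N) =
      (⟨β, hβN⟩ : ↥N) * ⟨γ * n * γ⁻¹, hN.conj_mem n n.2 γ⟩ * (⟨β, hβN⟩ : ↥N)⁻¹ := by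
    apply Subtype.ext
    show β * γ * (n : G) * (β * γ)⁻¹ = β * (γ * n * γ⁻¹) * β⁻¹
    group
  rw [e, h2, h1]

theorem k_coprime {G : Type*} [Group G] [Finite G] (p : ℕ) [Fact p.Prime] (k : ℕ)
    (hk₁ : ∀ g : G, (∃ j : ℕ, orderOf g = p ^ j) → g ^ k = g ^ (1 + p))
    (hk₂ : ∀ g : G, Nat.Coprime (orderOf g) p → g ^ k = g) : k.Coprime (Nat.card G) := by
  have hp : p.Prime := Fact.out
  by_contra hcon
  obtain ⟨q, hq, hqk, hqG⟩ := Nat.Prime.not_coprime_iff_dvd.mp hcon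
  haveI : Fact q.Prime := ⟨hq⟩
  obtain ⟨g, hg⟩ := exists_prime_orderOf_dvd_card' q hqG
  have hgk : g ^ k = 1 := by
    obtain ⟨c, rfl⟩ := hqk
    rw [pow_mul, ← hg, pow_orderOf_eq_one, one_pow]
  have hg1 : g ≠ 1 := by
    intro h
    rw [h, orderOf_one] at hg
    exact hq.one_lt.ne hg
  by_cases hqp : q = p
  · have h1 := hk₁ g ⟨1, by rw [hg, hqp, pow_one]⟩
    rw [hgk, pow_add, pow_one, ← hqp, ← hg, pow_orderOf_eq_one, mul_one] at h1
    exact hg1 h1.symm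
  · have h1 := hk₂ g (by rw [hg]; exact (Nat.coprime_primes hq hp).mpr hqp)
    rw [hgk] at h1
    exact hg1 h1.symm

end Cfsg.Agent.Helper22.S4553bci
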