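import Mathlib
import Cfsg.Agent.Helper24.GalOdd2
import Cfsg.Agent.Helper5.CycExt
import Cfsg.Agent.Helper5.ProjExt

/-!
# Pieces [d], [e], [f] of S4553

* `ext_exists` : an invariant irreducible character of `N` extends to `G` when `G ⧸ N` is cyclic;
* `ext_twist` : two irreducible extensions of `θ` differ by a linear character trivial on `N`;
* `twist_inj` : that linear character is unique.
-/

set_option autoImplicit false

namespace Cfsg.Agent.Helper22.S4553def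

open Cfsg Cfsg.Agent.Helper24
open scoped Classical

theorem ext_exists {G : Type*} [Group G] [Finite G] (N : Subgroup G) [hN : N.Normal]
    (hcyc : IsCyclic (G ⧸ N)) (θ : Cfsg.IrrCharacter ↥N)
    (hinv : ∀ (g : G) (n : ↥N),
      (θ : ↥N → ℂ) ⟨g * n * g⁻¹, hN.conj_mem n n.2 g⟩ = (θ : ↥N → ℂ) n) :
    ∃ χ : Cfsg.IrrCharacter G, ∀ n : ↥N, (χ : G → ℂ) n = (θ : ↥N → ℂ) n := by
  obtain ⟨θf, d, ρ, hρ, rfl⟩ := θ
  obtain ⟨ρ', hρ'⟩ := Cfsg.Agent.Helper5.exists_extension_of_cyclic N hcyc ρ hρ hinv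
  obtain ⟨h1, h2⟩ := Cfsg.Agent.Helper5.irr_ext_of_rep_ext N ρ hρ ρ' hρ'
  exact ⟨⟨ρ'.character, h1⟩, h2⟩

theorem ext_twist {G : Type*} [Group G] [Finite G] (N : Subgroup G) [hN : N.Normal]
    (χ₀ χ₁ : Cfsg.IrrCharacter G) (θ : Cfsg.IrrCharacter ↥N)
    (h₀ : ∀ n : ↥N, (χ₀ : G → ℂ) n = (θ : ↥N → ℂ) n)
    (h₁ : ∀ n : ↥N, (χ₁ : G → ℂ) n = (θ : ↥N → ℂ) n) :
    ∃ μ : G →* ℂˣ, (∀ x ∈ N, μ x = 1) ∧
      ∀ g : G, (χ₁ : G → ℂ) g = ((μ g : ℂˣ) : ℂ) * (χ₀ : G → ℂ) g := by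
  haveI : Fintype G := Fintype.ofFinite G
  haveI : Fintype ↥N := Fintype.ofFinite ↥N
  have hN0 : (Nat.card N : ℂ) ≠ 0 := Nat.cast_ne_zero.mpr Nat.card_pos.ne'
  obtain ⟨ψ, hψ⟩ : ∃ ψ : G → ℂ, ψ = (χ₁ : G → ℂ) *
      (fun g => starRingEnd ℂ ((χ₀ : G → ℂ) g)) := ⟨_, rfl⟩
  have hψc : IsCharacter G ψ := by
    rw [hψ]
    exact Cfsg.Agent.Helper5.isCharacter_mul (isCharacter_of_isIrrCharacter χ₁.2)
      (isCharacter_star (isCharacter_of_isIrrCharacter χ₀.2))
  obtain ⟨Pc, hPc⟩ : ∃ Pc : G → ℂ, Pc = indFun N (fun _ : N => (1 : ℂ)) := ⟨_, rfl⟩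
  have hPcc : IsCharacter G Pc := by
    rw [hPc]
    exact isCharacter_induced N _
      (isCharacter_of_isIrrCharacter (Cfsg.Agent.Helper22.isIrrCharacter_one (G := N)))
  have hPccf := isCharacter_isClassFunction hPcc
  have e1 : classInner Pc ψ = 1 := by
    have hθ1 := irr_inner_self θ
    rw [classInner_def'] at hθ1
    rw [hPc, classInner_indFun N _ ψ (isCharacter_isClassFunction hψc), classInner_def', hψ]
    refine Eq.trans ?_ hθ1
    congr 1
    refine Finset.sum_congr rfl fun n _ => ?_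
    simp only [Pi.mul_apply, map_mul, Complex.conj_conj, one_mul]
    rw [h₁, h₀, mul_comm]
  have hdec := classFunction_eq_sum_irr Pc hPccf
  choose a ha using fun β : IrrCharacter G => isCharacter_inner_irr hPcc β
  choose b hb using fun β : IrrCharacter G =>
    classInner_isCharacter_natCast (isCharacter_of_isIrrCharacter β.2) hψc
  have e2 : classInner Pc ψ = ((∑ β : IrrCharacter G, a β * b β : ℕ) : ℂ) := by
    have e : classInner Pc ψ =
        classInner (∑ β : IrrCharacter G, classInner Pc (β : G → ℂ) • (β : G → ℂ)) ψ :=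
      congrArg (fun F => classInner F ψ) hdec
    rw [e, classInner_sum_left]
    push_cast
    refine Finset.sum_congr rfl fun β _ => ?_
    rw [classInner_smul_left, ha, hb]
  have e3 : ∑ β : IrrCharacter G, a β * b β = 1 := by
    rw [e1] at e2; exact_mod_cast e2.symm
  obtain ⟨β, -, hβ⟩ := Finset.exists_ne_zero_of_sum_ne_zero (by rw [e3]; exact one_ne_zero)
  have hle : a β * b β ≤ 1 := by
    rw [← e3]
    exact Finset.single_le_sum (f := fun β => a β * b β) (fun _ _ => Nat.zero_le _)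
      (Finset.mem_univ β)
  have hab : a β * b β = 1 := by omega
  have ha1 : a β = 1 := Nat.eq_one_of_mul_eq_one_right hab
  have hb1 : b β = 1 := Nat.eq_one_of_mul_eq_one_left hab
  have h1 : classInner Pc (β : G → ℂ) = 1 := by rw [ha, ha1]; simp
  rw [hPc, classInner_indFun N _ _ (irr_isClassFunction β), classInner_def'] at h1
  have hsum : ∑ n : N, (1 : ℂ) * starRingEnd ℂ ((β : G → ℂ) n) =
      starRingEnd ℂ (∑ n : N, (β : G → ℂ) n) := by
    rw [map_sum]; exact Finset.sum_congr rfl fun n _ => one_mul _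
  rw [hsum] at h1
  have h2 : ∑ n : N, (β : G → ℂ) n ≠ 0 := by
    intro h0
    rw [h0, map_zero, mul_zero] at h1
    exact zero_ne_one h1
  have hker := irr_ker_of_sum_ne_zero N β h2
  have hβ1 : (β : G → ℂ) 1 = 1 := by
    have h3 : ∑ n : N, (β : G → ℂ) n = (Nat.card N : ℂ) * (β : G → ℂ) 1 := by
      rw [Finset.sum_congr rfl (fun (n : N) _ => hker (n : G) n.2), Finset.sum_const,
        Finset.card_univ,
        nsmul_eq_mul, Nat.card_eq_fintype_card]
    rw [h3, map_mul, Complex.conj_natCast, ← mul_assoc, inv_mul_cancel₀ hN0, one_mul] at h1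
    have := congrArg (starRingEnd ℂ) h1
    rwa [Complex.conj_conj, map_one] at this
  have hβN : ∀ x ∈ N, (β : G → ℂ) x = 1 := fun x hx => (hker x hx).trans hβ1
  have hβχ : IsIrrCharacter G ((β : G → ℂ) * (χ₀ : G → ℂ)) :=
    linear_mul_irr (β : G → ℂ) (χ₀ : G → ℂ) β.2 hβ1 χ₀.2
  have h3 : classInner ((β : G → ℂ) * (χ₀ : G → ℂ)) (χ₁ : G → ℂ) = 1 := by
    have h4 := hb β
    rw [hb1, classInner_def', hψ] at h4
    rw [classInner_def']
    simp only [Nat.cast_one] at h4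
    rw [← h4]
    congr 1
    refine Finset.sum_congr rfl fun g _ => ?_
    simp only [Pi.mul_apply, map_mul, Complex.conj_conj]
    ring
  have heq : (⟨(β : G → ℂ) * (χ₀ : G → ℂ), hβχ⟩ : IrrCharacter G) = χ₁ := by
    by_contra hne
    have := irr_inner_ne hne
    rw [h3] at this
    exact one_ne_zero this
  have hχ₁ : ∀ g, (χ₁ : G → ℂ) g = (β : G → ℂ) g * (χ₀ : G → ℂ) g := by
    intro g
    exact (congrFun (congrArg Subtype.val heq) g).symm
  obtain ⟨φ, hφ⟩ := Cfsg.Agent.Helper5.linChar_exists_hom (isCharacter_of_isIrrCharacter β.2) hβ1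
  have hφN : ∀ x ∈ N, φ x = 1 := by
    intro x hx
    apply Units.ext
    rw [hφ, hβN x hx]; rfl
  refine ⟨φ, hφN, fun g => ?_⟩
  rw [hχ₁, hφ]

theorem twist_inj {G : Type*} [Group G] [Finite G] (N : Subgroup G) [hN : N.Normal]
    (χ₀ : Cfsg.IrrCharacter G) (θ : Cfsg.IrrCharacter ↥N)
    (h₀ : ∀ n : ↥N, (χ₀ : G → ℂ) n = (θ : ↥N → ℂ) n) (μ ν : G →* ℂˣ)
    (hμ : ∀ x ∈ N, μ x = 1) (hν : ∀ x ∈ N, ν x = 1)
    (h : ∀ g : G, ((μ g : ℂˣ) : ℂ) * (χ₀ : G → ℂ) g = ((ν g : ℂˣ) : ℂ) * (χ₀ : G → ℂ) g) :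
    μ = ν := by
  haveI : Fintype G := Fintype.ofFinite G
  haveI : Fintype ↥N := Fintype.ofFinite ↥N
  have hN0 : (Nat.card N : ℂ) ≠ 0 := Nat.cast_ne_zero.mpr Nat.card_pos.ne'
  have hκχ : ∀ g : G, ((μ g * (ν g)⁻¹ : ℂˣ) : ℂ) * (χ₀ : G → ℂ) g = (χ₀ : G → ℂ) g := by
    intro g
    rw [mul_comm (μ g), Units.val_mul, mul_assoc, h g, ← mul_assoc, ← Units.val_mul,
      inv_mul_cancel, Units.val_one, one_mul]
  obtain ⟨κ, hκ⟩ : ∃ κ : G →* ℂˣ, ∀ g, κ g = μ g * (ν g)⁻¹ := ⟨μ * ν⁻¹, fun g => rfl⟩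
  have hκN : ∀ x ∈ N, κ x = 1 := by
    intro x hx
    rw [hκ, hμ x hx, hν x hx, inv_one, mul_one]
  obtain ⟨κc, hκc⟩ : ∃ κc : IrrCharacter G, ∀ g, (κc : G → ℂ) g = ((κ g : ℂˣ) : ℂ) :=
    ⟨⟨_, isIrrCharacter_unitsHom κ⟩, fun g => rfl⟩
  obtain ⟨t, ht⟩ : ∃ t : IrrCharacter G, ∀ g, (t : G → ℂ) g = 1 :=
    ⟨⟨_, Cfsg.Agent.Helper22.isIrrCharacter_one (G := G)⟩, fun g => rfl⟩
  obtain ⟨ψ, hψ⟩ : ∃ ψ : G → ℂ, ψ = (χ₀ : G → ℂ) *
      (fun g => starRingEnd ℂ ((χ₀ : G → ℂ) g)) := ⟨_, rfl⟩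
  have hψc : IsCharacter G ψ := by
    rw [hψ]
    exact Cfsg.Agent.Helper5.isCharacter_mul (isCharacter_of_isIrrCharacter χ₀.2)
      (isCharacter_star (isCharacter_of_isIrrCharacter χ₀.2))
  obtain ⟨Pc, hPc⟩ : ∃ Pc : G → ℂ, Pc = indFun N (fun _ : N => (1 : ℂ)) := ⟨_, rfl⟩
  have hPcc : IsCharacter G Pc := by
    rw [hPc]
    exact isCharacter_induced N _
      (isCharacter_of_isIrrCharacter (Cfsg.Agent.Helper22.isIrrCharacter_one (G := N)))
  have hPccf := isCharacter_isClassFunction hPcc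
  have e1 : classInner Pc ψ = 1 := by
    have hθ1 := irr_inner_self θ
    rw [classInner_def'] at hθ1
    rw [hPc, classInner_indFun N _ ψ (isCharacter_isClassFunction hψc), classInner_def', hψ]
    refine Eq.trans ?_ hθ1
    congr 1
    refine Finset.sum_congr rfl fun n _ => ?_
    simp only [Pi.mul_apply, map_mul, Complex.conj_conj, one_mul]
    rw [h₀, mul_comm]
  have hdec := classFunction_eq_sum_irr Pc hPccf
  choose a ha using fun β : IrrCharacter G => isCharacter_inner_irr hPcc β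
  choose b hb using fun β : IrrCharacter G =>
    classInner_isCharacter_natCast (isCharacter_of_isIrrCharacter β.2) hψc
  have e2 : classInner Pc ψ = ((∑ β : IrrCharacter G, a β * b β : ℕ) : ℂ) := by
    have e : classInner Pc ψ =
        classInner (∑ β : IrrCharacter G, classInner Pc (β : G → ℂ) • (β : G → ℂ)) ψ :=
      congrArg (fun F => classInner F ψ) hdec
    rw [e, classInner_sum_left]
    push_cast
    refine Finset.sum_congr rfl fun β _ => ?_
    rw [classInner_smul_left, ha, hb]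
  have e3 : ∑ β : IrrCharacter G, a β * b β = 1 := by
    rw [e1] at e2; exact_mod_cast e2.symm
  have key : ∀ β : IrrCharacter G, (∀ x ∈ N, (β : G → ℂ) x = 1) →
      (∀ g, (β : G → ℂ) g * (χ₀ : G → ℂ) g = (χ₀ : G → ℂ) g) → a β = 1 ∧ b β = 1 := by
    intro β hβN hβχ
    constructor
    · have h1 : classInner Pc (β : G → ℂ) = 1 := by
        rw [hPc, classInner_indFun N _ _ (irr_isClassFunction β), classInner_def']
        have hs : ∑ n : N, (1 : ℂ) * starRingEnd ℂ ((β : G → ℂ) n) = ∑ _n : N, (1 : ℂ) :=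
          Finset.sum_congr rfl fun n _ => by rw [hβN (n : G) n.2, map_one, one_mul]
        rw [hs, Finset.sum_const, Finset.card_univ, nsmul_eq_mul, mul_one,
          ← Nat.card_eq_fintype_card, inv_mul_cancel₀ hN0]
      rw [ha] at h1
      exact_mod_cast h1
    · have h1 : classInner (β : G → ℂ) ψ = 1 := by
        have h4 := irr_inner_self χ₀
        rw [classInner_def'] at h4 ⊢
        refine Eq.trans ?_ h4
        congr 1
        refine Finset.sum_congr rfl fun g _ => ?_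
        rw [hψ]
        simp only [Pi.mul_apply, map_mul, Complex.conj_conj]
        linear_combination (starRingEnd ℂ ((χ₀ : G → ℂ) g)) * hβχ g
      rw [hb] at h1
      exact_mod_cast h1
  have hκt : κc = t := by
    by_contra hne
    obtain ⟨ha1, hb1⟩ := key κc (fun x hx => by rw [hκc, hκN x hx]; rfl)
      (fun g => by rw [hκc, hκ]; exact hκχ g)
    obtain ⟨ha2, hb2⟩ := key t (fun x _ => ht x) (fun g => by rw [ht, one_mul])
    have hsub : ∑ β ∈ ({κc, t} : Finset (IrrCharacter G)), a β * b β ≤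
        ∑ β : IrrCharacter G, a β * b β :=
      Finset.sum_le_sum_of_subset (Finset.subset_univ _)
    rw [Finset.sum_pair hne, ha1, hb1, ha2, hb2, e3] at hsub
    omega
  apply MonoidHom.ext
  intro g
  have h1 : ((κ g : ℂˣ) : ℂ) = 1 := by rw [← hκc, hκt, ht]
  have h2 : κ g = 1 := Units.val_eq_one.mp h1
  rw [hκ] at h2
  exact mul_inv_eq_one.mp h2

end Cfsg.Agent.Helper22.S4553def
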