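import Mathlib
import Cfsg.Agent.Helper24.GalOdd2
import Cfsg.Agent.Helper5.DetChar

/-!
# Piece [g] of S4553: the determinant of a Galois conjugate character

`det_gal` : for `k` prime to `|G|`, `detChar (χ ∘ (· ^ k)) g = detChar χ (g ^ k)`.
-/

set_option autoImplicit false

namespace Cfsg.Agent.Helper22.S4553g

open Cfsg Cfsg.Agent.Helper24
open scoped Classical

theorem det_gal {G : Type*} [Group G] [Finite G] (χ : G → ℂ) (hχ : Cfsg.IsCharacter G χ) (k : ℕ)
    (hk : k.Coprime (Nat.card G)) (g : G) :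
    Cfsg.detChar (fun x => χ (x ^ k)) g = Cfsg.detChar χ (g ^ k) := by
  haveI : Fintype G := Fintype.ofFinite G
  have hχ' : IsCharacter G (fun x => χ (x ^ k)) := by
    have hdec := classFunction_eq_sum_irr χ (isCharacter_isClassFunction hχ)
    choose m hm using fun β : IrrCharacter G => isCharacter_inner_irr hχ β
    have e : (fun x => χ (x ^ k)) = ∑ β : IrrCharacter G,
        ∑ _i ∈ Finset.range (m β), (fun x => (β : G → ℂ) (x ^ k)) := by
      funext x
      show χ (x ^ k) = _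
      have h1 := congrFun hdec (x ^ k)
      rw [h1]
      simp only [Finset.sum_apply, Pi.smul_apply, smul_eq_mul]
      refine Finset.sum_congr rfl fun β _ => ?_
      rw [hm, Finset.sum_const, Finset.card_range, nsmul_eq_mul]
    rw [e]
    refine isCharacter_sum _ _ fun β _ => isCharacter_sum _ _ fun _ _ => ?_
    exact isCharacter_of_isIrrCharacter (Cfsg.Agent.Helper22.isIrrCharacter_pow_coprime β k hk)
  obtain ⟨n, ρ, rfl⟩ := hχ
  obtain ⟨C, hC⟩ : ∃ C : Subgroup G, C = Subgroup.zpowers g := ⟨_, rfl⟩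
  have hgC : g ∈ C := by rw [hC]; exact Subgroup.mem_zpowers g
  have hcomm : ∀ a b : C, Commute (a : G) (b : G) := by
    intro a b
    obtain ⟨i, hi⟩ := Subgroup.mem_zpowers_iff.mp (by rw [← hC]; exact a.2)
    obtain ⟨j, hj⟩ := Subgroup.mem_zpowers_iff.mp (by rw [← hC]; exact b.2)
    rw [← hi, ← hj]
    exact (Commute.refl g).zpow_zpow i j
  obtain ⟨ρ'', hρ''⟩ : ∃ ρ'' : Representation ℂ C (Fin n → ℂ),
      ∀ c : C, ρ'' c = ρ ((c : G) ^ k) :=
    ⟨{ toFun := fun c => ρ ((c : G) ^ k)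
       map_one' := by simp
       map_mul' := fun a b => by
         show ρ (((a * b : C) : G) ^ k) = ρ ((a : G) ^ k) * ρ ((b : G) ^ k)
         rw [Subgroup.coe_mul, (hcomm a b).mul_pow, map_mul] }, fun c => rfl⟩
  have e1 : (fun c : C => ρ.character ((c : G) ^ k)) = ρ''.character := by
    funext c
    show ρ.character ((c : G) ^ k) = LinearMap.trace ℂ _ (ρ'' c)
    rw [hρ'']
    rfl
  have h1 : detChar (fun c : C => ρ.character ((c : G) ^ k)) ⟨g, hgC⟩ =
      detChar (fun x => ρ.character (x ^ k)) g :=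
    Cfsg.Agent.Helper5.detChar_res C hχ' ⟨g, hgC⟩
  rw [e1, Cfsg.Agent.Helper5.detChar_eq_of_rep ρ'' ⟨g, hgC⟩, hρ''] at h1
  rw [Cfsg.Agent.Helper5.detChar_eq_of_rep ρ (g ^ k)]
  exact h1.symm

end Cfsg.Agent.Helper22.S4553g
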