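import Cfsg.Agent.Helper19.SylowQuot

/-!
# Counting Sylow subgroups (helper22)

* `card_sylow_eq_relIndex_mul`: `n_p(G) = |K : N_K(P)| * n_p(G/K)` for `K` normal.
* `relIndex_normalizer_eq_card_sylow_sup`: `|K : N_K(P)| = n_p(PK)`.
* `exists_normal_pgroup`: a nontrivial finite solvable group has a nontrivial normal `q`-subgroup.
-/

set_option autoImplicit false

namespace Cfsg.Agent.Helper22

section

variable {G : Type*} [Group G]

theorem relIndex_inf_of_le (A H N : Subgroup G) (hNH : N ≤ H) :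
    (A ⊓ H).relIndex N = A.relIndex N := by
  rw [← Subgroup.inf_relIndex_right (H := A ⊓ H) (K := N), inf_assoc, inf_of_le_right hNH,
    Subgroup.inf_relIndex_right]

theorem relIndex_inf_sup_normal [Finite G] (A H K : Subgroup G) [K.Normal]
    (hKH : K ≤ H) (hsup : (A ⊓ H) ⊔ K = H) : (A ⊓ H).relIndex H = A.relIndex K := by
  have h := Cfsg.Agent.Helper19.relIndex_sup_normal (A ⊓ H) K
  rw [hsup] at h
  rw [h]
  exact relIndex_inf_of_le A H K hKH

variable [Finite G] {p : ℕ} [Fact p.Prime]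

/-- `n_p(G) = |K : N_K(P)| * n_p(G/K)` -/
theorem card_sylow_eq_relIndex_mul (K : Subgroup G) [K.Normal] (P : Sylow p G) :
    Nat.card (Sylow p G) =
      (Subgroup.normalizer ((P : Subgroup G) : Set G)).relIndex K *
        Nat.card (Sylow p (G ⧸ K)) := by
  have h1 : Nat.card (Sylow p G) = (Subgroup.normalizer ((P : Subgroup G) : Set G)).index :=
    Sylow.card_eq_index_normalizer P
  have h2 := Cfsg.Agent.Helper19.card_sylow_quotient K P
  have e1 := Subgroup.relIndex_mul_index
    (H := Subgroup.normalizer ((P : Subgroup G) : Set G))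
    (K := Subgroup.normalizer ((P : Subgroup G) : Set G) ⊔ K) le_sup_left
  have e2 := Cfsg.Agent.Helper19.relIndex_sup_normal
    (Subgroup.normalizer ((P : Subgroup G) : Set G)) K
  rw [h1, h2, ← e1, e2]

/-- the normalizer of `P` as a Sylow subgroup of a subgroup `H ≥ P` -/
theorem card_sylow_subgroup_eq_relIndex (P : Sylow p G) (H : Subgroup G)
    (hPH : (P : Subgroup G) ≤ H) :
    Nat.card (Sylow p H) = (Subgroup.normalizer ((P : Subgroup G) : Set G)).relIndex H := by
  rw [Sylow.card_eq_index_normalizer (P.subtype hPH)]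
  have h6 : Subgroup.normalizer ((((P.subtype hPH : Sylow p H) : Subgroup H)) : Set H) =
      (Subgroup.normalizer ((P : Subgroup G) : Set G)).subgroupOf H := by
    rw [Sylow.coe_subtype, ← Subgroup.subgroupOf_normalizer_eq hPH]
  exact congrArg Subgroup.index h6

/-- `|K : N_K(P)| = n_p(PK)` -/
theorem relIndex_normalizer_eq_card_sylow_sup (K : Subgroup G) [K.Normal] (P : Sylow p G) :
    (Subgroup.normalizer ((P : Subgroup G) : Set G)).relIndex K =
      Nat.card (Sylow p ↥((P : Subgroup G) ⊔ K)) := by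
  have hP_NP : (P : Subgroup G) ≤ Subgroup.normalizer ((P : Subgroup G) : Set G) :=
    Subgroup.le_normalizer
  have e3 : (Subgroup.normalizer ((P : Subgroup G) : Set G) ⊓
      ((P : Subgroup G) ⊔ K)).relIndex ((P : Subgroup G) ⊔ K) =
      (Subgroup.normalizer ((P : Subgroup G) : Set G)).relIndex K := by
    apply relIndex_inf_sup_normal _ _ K le_sup_right
    apply le_antisymm (sup_le inf_le_right le_sup_right)
    exact sup_le_sup_right (le_inf hP_NP le_sup_left) K
  rw [card_sylow_subgroup_eq_relIndex P _ le_sup_left, ← e3, Subgroup.inf_relIndex_right]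

end

section Solvable

variable {G : Type*} [Group G] [Finite G]

/-- a nontrivial finite solvable group has a nontrivial normal `q`-subgroup -/
theorem exists_normal_pgroup [Nontrivial G] (hG : Group.IsSolvable G) :
    ∃ (N : Subgroup G) (q : ℕ), q.Prime ∧ N.Normal ∧ N ≠ ⊥ ∧ IsPGroup q N := by
  classical
  have hex : ∃ n, derivedSeries G n = ⊥ := hG.solvable
  have hm : derivedSeries G (Nat.find hex) = ⊥ := Nat.find_spec hex
  have hpos : Nat.find hex ≠ 0 := by
    intro h0
    rw [h0, derivedSeries_zero] at hm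
    exact top_ne_bot hm
  obtain ⟨m, hm'⟩ : ∃ m, Nat.find hex = m + 1 := ⟨Nat.find hex - 1, by omega⟩
  have hA : derivedSeries G m ≠ ⊥ := Nat.find_min hex (by rw [hm']; exact Nat.lt_succ_self m)
  have hAab : ⁅derivedSeries G m, derivedSeries G m⁆ = ⊥ := by
    have hm2 : derivedSeries G (m + 1) = ⊥ := by rw [← hm']; exact hm
    rw [derivedSeries_succ] at hm2
    exact hm2
  obtain ⟨A, hAdef⟩ : ∃ A : Subgroup G, A = derivedSeries G m := ⟨_, rfl⟩
  have hAn : A.Normal := by rw [hAdef]; infer_instance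
  rw [← hAdef] at hA hAab
  have hcomm : ∀ a ∈ A, ∀ b ∈ A, a * b = b * a := by
    intro a ha b hb
    have h1 := Subgroup.commutator_eq_bot_iff_le_centralizer.mp hAab
    exact (Subgroup.mem_centralizer_iff.mp (h1 hb) a ha)
  have hcardA : Nat.card A ≠ 1 := by
    intro h1
    exact hA (Subgroup.eq_bot_of_card_eq A h1)
  obtain ⟨q, hq, hqd⟩ := Nat.exists_prime_and_dvd hcardA
  haveI : Fact q.Prime := ⟨hq⟩
  obtain ⟨x, hx⟩ := exists_prime_orderOf_dvd_card' q hqd
  obtain ⟨N, hNmem⟩ : ∃ N : Subgroup G, ∀ a, a ∈ N ↔ a ∈ A ∧ a ^ q = 1 :=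
    ⟨{ carrier := {a | a ∈ A ∧ a ^ q = 1}
       mul_mem' := by
         rintro a b ⟨ha, ha1⟩ ⟨hb, hb1⟩
         refine ⟨A.mul_mem ha hb, ?_⟩
         have hc : Commute a b := hcomm a ha b hb
         rw [hc.mul_pow, ha1, hb1, one_mul]
       one_mem' := ⟨A.one_mem, one_pow q⟩
       inv_mem' := by
         rintro a ⟨ha, ha1⟩
         exact ⟨A.inv_mem ha, by rw [inv_pow, ha1, inv_one]⟩ }, fun a => Iff.rfl⟩
  refine ⟨N, q, hq, ?_, ?_, ?_⟩
  · constructor
    intro a ha g
    rw [hNmem] at ha ⊢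
    refine ⟨hAn.conj_mem a ha.1 g, ?_⟩
    rw [conj_pow, ha.2, mul_one, mul_inv_cancel]
  · intro hbot
    have hxN : (x : G) ∈ N := by
      rw [hNmem]
      refine ⟨x.2, ?_⟩
      have h1 : x ^ q = 1 := by rw [← hx]; exact pow_orderOf_eq_one x
      have h2 := congrArg Subtype.val h1
      simpa using h2
    rw [hbot, Subgroup.mem_bot] at hxN
    have hx1 : x = 1 := Subtype.ext hxN
    rw [hx1, orderOf_one] at hx
    exact hq.one_lt.ne hx
  · intro a
    refine ⟨1, ?_⟩
    rw [pow_one]
    apply Subtype.ext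
    have h1 := ((hNmem a).mp a.2).2
    simpa using h1

end Solvable

end Cfsg.Agent.Helper22
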