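import Mathlib

/-!
# `p`-groups with two conjugacy class sizes (helper22)

Isaacs' theorem: if the conjugacy class sizes of a finite `p`-group `P` are `1` and `p ^ a`
then `P / Z(P)` has exponent `p`.
-/

set_option autoImplicit false

namespace Cfsg.Agent.Helper22

section NormIdentity

open Finset

theorem prod_range_mul_mod {M : Type*} [CommMonoid M] {p m : ℕ} (hp : p.Prime) (hm : ¬ p ∣ m)
    (f : ℕ → M) : ∏ k ∈ range p, f ((k * m) % p) = ∏ i ∈ range p, f i := by
  have hinj : Set.InjOn (fun k => (k * m) % p) (range p : Set ℕ) := by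
    intro k1 hk1 k2 hk2 h
    rw [Finset.coe_range, Set.mem_Iio] at hk1 hk2
    have h1 : k1 * m ≡ k2 * m [MOD p] := h
    have hcop : Nat.gcd p m = 1 := (Nat.Prime.coprime_iff_not_dvd hp).mpr hm
    have h2 : k1 ≡ k2 [MOD p] := Nat.ModEq.cancel_right_of_coprime hcop h1
    have h3 : k1 % p = k2 % p := h2
    rwa [Nat.mod_eq_of_lt hk1, Nat.mod_eq_of_lt hk2] at h3
  have himg : (range p).image (fun k => (k * m) % p) = range p := by
    apply Finset.eq_of_subset_of_card_le
    · intro i hi
      obtain ⟨k, _, rfl⟩ := Finset.mem_image.mp hi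
      exact Finset.mem_range.mpr (Nat.mod_lt _ hp.pos)
    · rw [Finset.card_image_of_injOn hinj]
  conv_rhs => rw [← himg]
  rw [Finset.prod_image hinj]

theorem end_pow_fixed {M : Type*} [CommGroup M] (S : Monoid.End M) (z : M) (hz : S z = z)
    (i : ℕ) : (S ^ i) z = z := by
  induction i with
  | zero => simp
  | succ i ih => rw [pow_succ, Monoid.End.coe_mul, Function.comp_apply, hz, ih]

/-- the identity `p = N_S + ∑_k N_{T S^k} - N_S N_T` in the group ring of `C_p × C_p`, applied to
an abelian group with two commuting endomorphisms -/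
theorem norm_identity {M : Type*} [CommGroup M] {p : ℕ} (hp : p.Prime) (S T : Monoid.End M)
    (hST : Commute S T) (hS : S ^ p = 1) (Z' : Subgroup M) (hZS : ∀ z ∈ Z', S z = z)
    (hNS : ∀ u, ∏ i ∈ range p, (S ^ i) u ∈ Z')
    (hNT : ∀ u, ∏ i ∈ range p, (T ^ i) u ∈ Z')
    (hN : ∀ k u, ∏ m ∈ range p, ((T * S ^ k) ^ m) u ∈ Z') (u : M) : u ^ p ∈ Z' := by
  classical
  have hW : ∏ m ∈ range p, ∏ i ∈ range p, (S ^ i) ((T ^ m) u) ∈ Z' := by
    rw [Finset.prod_comm]
    have h1 : ∀ i, ∏ m ∈ range p, (S ^ i) ((T ^ m) u) = ∏ m ∈ range p, (T ^ m) u := by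
      intro i
      rw [← map_prod]
      exact end_pow_fixed S _ (hZS _ (hNT u)) i
    simp only [h1]
    exact Subgroup.prod_mem _ (fun i _ => hNT u)
  have hL : ∏ m ∈ range p, ∏ k ∈ range p, ((T * S ^ k) ^ m) u ∈ Z' := by
    rw [Finset.prod_comm]
    exact Subgroup.prod_mem _ (fun k _ => hN k u)
  have hkey : ∀ m ∈ (range p).erase 0,
      ∏ k ∈ range p, ((T * S ^ k) ^ m) u = ∏ i ∈ range p, (S ^ i) ((T ^ m) u) := by
    intro m hm
    have hm0 : m ≠ 0 := Finset.ne_of_mem_erase hm
    have hmp : m < p := Finset.mem_range.mp (Finset.mem_of_mem_erase hm)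
    have hndvd : ¬ p ∣ m := fun h => hm0 (Nat.eq_zero_of_dvd_of_lt h hmp)
    rw [← prod_range_mul_mod hp hndvd (fun i => (S ^ i) ((T ^ m) u))]
    refine Finset.prod_congr rfl fun k _ => ?_
    have hc : Commute T (S ^ k) := hST.symm.pow_right k
    have e1 : (T * S ^ k) ^ m = S ^ ((k * m) % p) * T ^ m := by
      rw [hc.mul_pow, ← pow_mul, (hST.symm.pow_pow m (k * m)).eq, pow_eq_pow_mod (k * m) hS]
    show ((T * S ^ k) ^ m) u = (S ^ ((k * m) % p)) ((T ^ m) u)
    rw [e1, Monoid.End.coe_mul, Function.comp_apply]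
  have h0 : (0 : ℕ) ∈ range p := Finset.mem_range.mpr hp.pos
  have hLsplit : (∏ k ∈ range p, ((T * S ^ k) ^ 0) u) *
      ∏ m ∈ (range p).erase 0, ∏ k ∈ range p, ((T * S ^ k) ^ m) u =
      ∏ m ∈ range p, ∏ k ∈ range p, ((T * S ^ k) ^ m) u :=
    Finset.mul_prod_erase (range p) (fun m => ∏ k ∈ range p, ((T * S ^ k) ^ m) u) h0
  have hWsplit : (∏ i ∈ range p, (S ^ i) ((T ^ 0) u)) *
      ∏ m ∈ (range p).erase 0, ∏ i ∈ range p, (S ^ i) ((T ^ m) u) =
      ∏ m ∈ range p, ∏ i ∈ range p, (S ^ i) ((T ^ m) u) :=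
    Finset.mul_prod_erase (range p) (fun m => ∏ i ∈ range p, (S ^ i) ((T ^ m) u)) h0
  have hL0 : ∏ k ∈ range p, ((T * S ^ k) ^ 0) u = u ^ p := by
    simp
  have hW0 : ∏ i ∈ range p, (S ^ i) ((T ^ 0) u) = ∏ i ∈ range p, (S ^ i) u := by
    simp
  have hE : ∏ m ∈ (range p).erase 0, ∏ k ∈ range p, ((T * S ^ k) ^ m) u =
      ∏ m ∈ (range p).erase 0, ∏ i ∈ range p, (S ^ i) ((T ^ m) u) :=
    Finset.prod_congr rfl hkey
  have hgen : ∀ a b c : M, a = a * b * c * (c * b)⁻¹ := by
    intro a b c
    rw [mul_assoc a b c, mul_comm b c, mul_inv_cancel_right]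
  have hfin : u ^ p = (∏ m ∈ range p, ∏ k ∈ range p, ((T * S ^ k) ^ m) u) *
      (∏ i ∈ range p, (S ^ i) u) *
      (∏ m ∈ range p, ∏ i ∈ range p, (S ^ i) ((T ^ m) u))⁻¹ := by
    rw [← hLsplit, ← hWsplit, hL0, hW0, hE]
    exact hgen _ _ _
  rw [hfin]
  exact Z'.mul_mem (Z'.mul_mem hL (hNS u)) (Z'.inv_mem hW)

end NormIdentity

section ConjEnd

variable {P : Type*} [Group P]

/-- conjugation by `e` (as `u ↦ e⁻¹ * u * e`) on a normal subgroup -/
def conjEnd (C : Subgroup P) [hC : C.Normal] (e : P) : Monoid.End ↥C where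
  toFun u := ⟨e⁻¹ * u * e, by
    have h := hC.conj_mem u u.2 e⁻¹
    rwa [inv_inv] at h⟩
  map_one' := by
    apply Subtype.ext
    simp
  map_mul' u v := by
    apply Subtype.ext
    show e⁻¹ * ((u : P) * (v : P)) * e = (e⁻¹ * (u : P) * e) * (e⁻¹ * (v : P) * e)
    group

theorem conjEnd_apply (C : Subgroup P) [C.Normal] (e : P) (u : ↥C) :
    ((conjEnd C e) u : P) = e⁻¹ * u * e := rfl

theorem conjEnd_mul (C : Subgroup P) [C.Normal] (e e' : P) :
    conjEnd C (e * e') = conjEnd C e' * conjEnd C e := by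
  refine DFunLike.ext _ _ (fun u => Subtype.ext ?_)
  show ((e * e')⁻¹ * (u : P) * (e * e') : P) = e'⁻¹ * (e⁻¹ * (u : P) * e) * e'
  group

theorem conjEnd_one (C : Subgroup P) [C.Normal] : conjEnd C (1 : P) = 1 := by
  refine DFunLike.ext _ _ (fun u => Subtype.ext ?_)
  show ((1 : P)⁻¹ * (u : P) * 1 : P) = (u : P)
  simp

theorem conjEnd_pow (C : Subgroup P) [C.Normal] (e : P) (k : ℕ) :
    conjEnd C (e ^ k) = conjEnd C e ^ k := by
  induction k with
  | zero => rw [pow_zero, pow_zero, conjEnd_one]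
  | succ k ih => rw [pow_succ, conjEnd_mul, ih, pow_succ']

/-- the commutative group structure on an abelian subgroup -/
@[reducible] def commGroupOfComm (C : Subgroup P) (h : ∀ a ∈ C, ∀ b ∈ C, a * b = b * a) :
    CommGroup ↥C :=
  { (inferInstance : Group ↥C) with mul_comm := fun a b => Subtype.ext (h a a.2 b b.2) }

theorem mul_pow_eq_conj_prod (C : Subgroup P) [C.Normal]
    (h : ∀ a ∈ C, ∀ b ∈ C, a * b = b * a) (e : P) (u : ↥C) (n : ℕ) :
    letI := commGroupOfComm C h
    (e * (u : P)) ^ n =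
      e ^ n * ((∏ i ∈ Finset.range n, (conjEnd C e ^ i) u : ↥C) : P) := by
  letI := commGroupOfComm C h
  have hmul : ∀ a b : ↥C, ((a * b : ↥C) : P) = (a : P) * (b : P) := fun a b => rfl
  induction n with
  | zero => simp
  | succ n ih =>
    rw [pow_succ, ih, Finset.prod_range_succ', pow_succ]
    have h1 : (∏ i ∈ Finset.range n, (conjEnd C e ^ (i + 1)) u) =
        (conjEnd C e) (∏ i ∈ Finset.range n, (conjEnd C e ^ i) u) := by
      rw [map_prod]
      refine Finset.prod_congr rfl fun i _ => ?_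
      rw [pow_succ', Monoid.End.coe_mul, Function.comp_apply]
    rw [h1, pow_zero, hmul, conjEnd_apply]
    simp only [Monoid.End.coe_one, id_eq]
    group

end ConjEnd

section TwoClass

variable {P : Type*} [Group P]

/-- every centralizer has index `1` or `q` -/
def TwoClassSizes (P : Type*) [Group P] (q : ℕ) : Prop :=
  ∀ x : P, (Subgroup.centralizer ({x} : Set P)).index = 1 ∨
    (Subgroup.centralizer ({x} : Set P)).index = q

theorem mem_center_iff_cent_top (x : P) :
    x ∈ Subgroup.center P ↔ Subgroup.centralizer ({x} : Set P) = ⊤ := by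
  rw [Subgroup.mem_center_iff, eq_top_iff]
  constructor
  · intro h g _
    rw [Subgroup.mem_centralizer_singleton_iff]
    exact h g
  · intro h g
    have := h (Subgroup.mem_top g)
    rwa [Subgroup.mem_centralizer_singleton_iff] at this

variable [Finite P] {p q : ℕ}

theorem index_of_not_mem_center (h : TwoClassSizes P q) {x : P} (hx : x ∉ Subgroup.center P) :
    (Subgroup.centralizer ({x} : Set P)).index = q := by
  rcases h x with h1 | h1
  · exact absurd ((mem_center_iff_cent_top x).mpr (Subgroup.index_eq_one.mp h1)) hx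
  · exact h1

theorem cent_eq_of_le (h : TwoClassSizes P q) {u v : P} (hu : u ∉ Subgroup.center P)
    (hv : v ∉ Subgroup.center P)
    (hle : Subgroup.centralizer ({u} : Set P) ≤ Subgroup.centralizer ({v} : Set P)) :
    Subgroup.centralizer ({u} : Set P) = Subgroup.centralizer ({v} : Set P) := by
  apply Subgroup.eq_of_le_of_card_ge hle
  have h1 := (Subgroup.centralizer ({u} : Set P)).card_mul_index
  have h2 := (Subgroup.centralizer ({v} : Set P)).card_mul_index
  rw [index_of_not_mem_center h hu] at h1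
  rw [index_of_not_mem_center h hv] at h2
  have hq : 0 < q := by
    rcases Nat.eq_zero_or_pos q with h0 | h0
    · rw [h0, mul_zero] at h1
      exact absurd h1.symm (Nat.card_pos.ne')
    · exact h0
  have h3 : Nat.card (Subgroup.centralizer ({u} : Set P)) =
      Nat.card (Subgroup.centralizer ({v} : Set P)) :=
    Nat.eq_of_mul_eq_mul_right hq (h1.trans h2.symm)
  exact h3.symm.le

theorem cent_pow_eq (h : TwoClassSizes P q) (x : P) (k : ℕ) (hk : x ^ k ∉ Subgroup.center P) :
    Subgroup.centralizer ({x ^ k} : Set P) = Subgroup.centralizer ({x} : Set P) := by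
  have hx : x ∉ Subgroup.center P := fun hx => hk (Subgroup.pow_mem _ hx k)
  refine (cent_eq_of_le h hx hk ?_).symm
  intro g hg
  rw [Subgroup.mem_centralizer_singleton_iff] at hg ⊢
  exact (show Commute g x from hg).pow_right k

omit [Finite P] in
theorem comm_pow_right' {x y z : P} (hz : z ∈ Subgroup.center P) (h : x * y = z * y * x)
    (j : ℕ) : x * y ^ j = z ^ j * y ^ j * x := by
  induction j with
  | zero => simp
  | succ j ih =>
    have hzc := Subgroup.mem_center_iff.mp hz
    calc x * y ^ (j + 1) = (x * y ^ j) * y := by rw [pow_succ, mul_assoc]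
      _ = z ^ j * y ^ j * (x * y) := by rw [ih]; simp only [mul_assoc]
      _ = z ^ j * y ^ j * (z * y * x) := by rw [h]
      _ = z ^ j * (y ^ j * z) * y * x := by simp only [mul_assoc]
      _ = z ^ j * (z * y ^ j) * y * x := by rw [hzc (y ^ j)]
      _ = z ^ (j + 1) * y ^ (j + 1) * x := by rw [pow_succ, pow_succ]; simp only [mul_assoc]

omit [Finite P] in
theorem comm_pow_left' {x y z : P} (hz : z ∈ Subgroup.center P) (h : x * y = z * y * x)
    (i : ℕ) : x ^ i * y = z ^ i * y * x ^ i := by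
  induction i with
  | zero => simp
  | succ i ih =>
    have hzc := Subgroup.mem_center_iff.mp hz
    calc x ^ (i + 1) * y = x ^ i * (x * y) := by rw [pow_succ, mul_assoc]
      _ = x ^ i * (z * y * x) := by rw [h]
      _ = (x ^ i * z) * y * x := by simp only [mul_assoc]
      _ = z * (x ^ i * y) * x := by rw [hzc (x ^ i)]; simp only [mul_assoc]
      _ = z * (z ^ i * y * x ^ i) * x := by rw [ih]
      _ = z ^ (i + 1) * y * x ^ (i + 1) := by
        rw [pow_succ' z, pow_succ]; simp only [mul_assoc]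

/-- two non-commuting elements with central commutator have central `p`-th powers -/
theorem pow_mem_center_of_comm_central (hP : IsPGroup p P) (h : TwoClassSizes P q) {x y : P}
    (hz : x * y * x⁻¹ * y⁻¹ ∈ Subgroup.center P) (hxy : x * y ≠ y * x) :
    x ^ p ∈ Subgroup.center P := by
  by_contra hxp
  have hrel : x * y = (x * y * x⁻¹ * y⁻¹) * y * x := by group
  have hC := cent_pow_eq h x p hxp
  have hstep : ∀ j : ℕ, ((x * y * x⁻¹ * y⁻¹) ^ p) ^ j = 1 → (x * y * x⁻¹ * y⁻¹) ^ j = 1 := by
    intro j hj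
    have h1 := comm_pow_left' hz hrel p
    have h2 := comm_pow_right' (Subgroup.pow_mem _ hz p) h1 j
    rw [hj, one_mul] at h2
    have h3 : y ^ j ∈ Subgroup.centralizer ({x ^ p} : Set P) := by
      rw [Subgroup.mem_centralizer_singleton_iff]
      exact h2.symm
    rw [hC, Subgroup.mem_centralizer_singleton_iff] at h3
    have h4 := comm_pow_right' hz hrel j
    rw [← h3] at h4
    have h5 : (x * y * x⁻¹ * y⁻¹) ^ j * (y ^ j * x) = 1 * (y ^ j * x) := by
      rw [one_mul, ← mul_assoc, ← h4]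
    exact mul_right_cancel h5
  have hz1 : ∀ i : ℕ, (x * y * x⁻¹ * y⁻¹) ^ p ^ i = 1 → x * y * x⁻¹ * y⁻¹ = 1 := by
    intro i
    induction i with
    | zero =>
      intro hi
      simpa using hi
    | succ i ih =>
      intro hi
      apply ih
      apply hstep
      rw [← pow_mul, ← pow_succ']
      exact hi
  obtain ⟨k, hk⟩ := hP (x * y * x⁻¹ * y⁻¹)
  have hz' := hz1 k hk
  apply hxy
  rw [hrel, hz', one_mul]

/-- an element of the second center outside the center -/
theorem exists_second_center [Fact p.Prime] (hP : IsPGroup p P)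
    (hne : Subgroup.center P ≠ ⊤) :
    ∃ y0 : P, y0 ∉ Subgroup.center P ∧ ∀ g : P, g * y0 * g⁻¹ * y0⁻¹ ∈ Subgroup.center P := by
  have hQ : IsPGroup p (P ⧸ Subgroup.center P) := hP.to_quotient _
  have hnt : Nontrivial (P ⧸ Subgroup.center P) := by
    by_contra hcon
    rw [not_nontrivial_iff_subsingleton] at hcon
    exact hne (QuotientGroup.subgroup_eq_top_of_subsingleton _ hcon)
  have hcn := hQ.center_nontrivial
  obtain ⟨⟨q', hq⟩, hq1⟩ := exists_ne (1 : Subgroup.center (P ⧸ Subgroup.center P))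
  obtain ⟨y0, rfl⟩ := QuotientGroup.mk_surjective q'
  refine ⟨y0, ?_, ?_⟩
  · intro hy
    apply hq1
    apply Subtype.ext
    exact (QuotientGroup.eq_one_iff y0).mpr hy
  · intro g
    rw [← QuotientGroup.eq_one_iff]
    have hc := Subgroup.mem_center_iff.mp hq (g : P ⧸ Subgroup.center P)
    simp only [QuotientGroup.mk_mul, QuotientGroup.mk_inv]
    rw [hc]
    group

omit [Finite P] in
/-- the commutator map with an element of the second center, as a homomorphism to the center -/
def kappaHom (y0 : P) (h : ∀ g : P, g * y0 * g⁻¹ * y0⁻¹ ∈ Subgroup.center P) :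
    P →* ↥(Subgroup.center P) where
  toFun g := ⟨g * y0 * g⁻¹ * y0⁻¹, h g⟩
  map_one' := by
    apply Subtype.ext
    simp
  map_mul' a b := by
    apply Subtype.ext
    show a * b * y0 * (a * b)⁻¹ * y0⁻¹ = (a * y0 * a⁻¹ * y0⁻¹) * (b * y0 * b⁻¹ * y0⁻¹)
    have hb := Subgroup.mem_center_iff.mp (h b)
    calc a * b * y0 * (a * b)⁻¹ * y0⁻¹
        = a * (b * y0 * b⁻¹ * y0⁻¹) * y0 * a⁻¹ * y0⁻¹ := by group
      _ = (b * y0 * b⁻¹ * y0⁻¹) * a * y0 * a⁻¹ * y0⁻¹ := by rw [hb a]
      _ = (b * y0 * b⁻¹ * y0⁻¹) * (a * y0 * a⁻¹ * y0⁻¹) := by simp only [mul_assoc]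
      _ = (a * y0 * a⁻¹ * y0⁻¹) * (b * y0 * b⁻¹ * y0⁻¹) := (hb _).symm

omit [Finite P] in
theorem kappaHom_ker (y0 : P) (h : ∀ g : P, g * y0 * g⁻¹ * y0⁻¹ ∈ Subgroup.center P) :
    (kappaHom y0 h).ker = Subgroup.centralizer ({y0} : Set P) := by
  ext g
  rw [MonoidHom.mem_ker, Subgroup.mem_centralizer_singleton_iff]
  constructor
  · intro hg
    have h1 : g * y0 * g⁻¹ * y0⁻¹ = 1 := congrArg Subtype.val hg
    calc g * y0 = (g * y0 * g⁻¹ * y0⁻¹) * (y0 * g) := by group
      _ = y0 * g := by rw [h1, one_mul]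
  · intro hg
    apply Subtype.ext
    show g * y0 * g⁻¹ * y0⁻¹ = 1
    rw [hg]
    group

theorem second_center_facts (hP : IsPGroup p P) (h : TwoClassSizes P q) {y0 : P}
    (hy0 : ∀ g : P, g * y0 * g⁻¹ * y0⁻¹ ∈ Subgroup.center P) (g : P)
    (hg : g ∉ Subgroup.centralizer ({y0} : Set P)) : g ^ p ∈ Subgroup.center P := by
  apply pow_mem_center_of_comm_central hP h (hy0 g)
  intro hc
  apply hg
  rw [Subgroup.mem_centralizer_singleton_iff]
  exact hc

/-- the case of class sizes `1` and `p` -/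
theorem pow_mem_center_of_index_prime [Fact p.Prime] (hP : IsPGroup p P)
    (h : TwoClassSizes P p) (x : P) : x ^ p ∈ Subgroup.center P := by
  by_contra hxp
  have hpp : p.Prime := Fact.out
  have hx : x ∉ Subgroup.center P := fun hx => hxp (Subgroup.pow_mem _ hx p)
  have hZC : Subgroup.center P ≤ Subgroup.centralizer ({x} : Set P) := by
    intro z hz
    rw [Subgroup.mem_centralizer_singleton_iff]
    exact (Subgroup.mem_center_iff.mp hz x).symm
  have hZA : Subgroup.center P ≤
      Subgroup.centralizer ((Subgroup.centralizer ({x} : Set P) : Subgroup P) : Set P) ⊓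
        Subgroup.centralizer ({x} : Set P) := by
    intro z hz
    refine Subgroup.mem_inf.mpr ⟨?_, hZC hz⟩
    rw [Subgroup.mem_centralizer_iff]
    intro c _
    exact Subgroup.mem_center_iff.mp hz c
  have hxA : x ∈ Subgroup.centralizer ((Subgroup.centralizer ({x} : Set P) : Subgroup P) : Set P) ⊓
        Subgroup.centralizer ({x} : Set P) := by
    refine Subgroup.mem_inf.mpr ⟨?_, ?_⟩
    · rw [Subgroup.mem_centralizer_iff]
      intro c hc
      rw [SetLike.mem_coe, Subgroup.mem_centralizer_singleton_iff] at hc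
      exact hc
    · rw [Subgroup.mem_centralizer_singleton_iff]
  have hAcent : ∀ u ∈ Subgroup.centralizer
      ((Subgroup.centralizer ({x} : Set P) : Subgroup P) : Set P) ⊓
        Subgroup.centralizer ({x} : Set P), u ∉ Subgroup.center P →
      Subgroup.centralizer ({u} : Set P) = Subgroup.centralizer ({x} : Set P) := by
    intro u hu huZ
    refine (cent_eq_of_le h hx huZ ?_).symm
    intro c hc
    rw [Subgroup.mem_centralizer_singleton_iff]
    exact (Subgroup.mem_centralizer_iff.mp (Subgroup.mem_inf.mp hu).1) c hc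
  have hCtop : Subgroup.centralizer ({x} : Set P) ≠ ⊤ := fun hC =>
    hx ((mem_center_iff_cent_top x).mpr hC)
  obtain ⟨g, hg⟩ : ∃ g : P, g ∉ Subgroup.centralizer ({x} : Set P) := by
    by_contra hcon
    push Not at hcon
    exact hCtop (eq_top_iff.mpr fun g _ => hcon g)
  have hgZ : g ∉ Subgroup.center P := fun hgz => hg (hZC hgz)
  have hinf : (Subgroup.centralizer ((Subgroup.centralizer ({x} : Set P) : Subgroup P) : Set P) ⊓
        Subgroup.centralizer ({x} : Set P)) ⊓ Subgroup.centralizer ({g} : Set P) =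
      Subgroup.center P := by
    apply le_antisymm
    · intro u hu
      obtain ⟨huA, hug⟩ := Subgroup.mem_inf.mp hu
      by_contra huZ
      have h1 := hAcent u huA huZ
      apply hg
      rw [← h1, Subgroup.mem_centralizer_singleton_iff]
      rw [Subgroup.mem_centralizer_singleton_iff] at hug
      exact hug.symm
    · refine le_inf hZA ?_
      intro z hz
      rw [Subgroup.mem_centralizer_singleton_iff]
      exact (Subgroup.mem_center_iff.mp hz g).symm
  have hidx : (Subgroup.centralizer ({g} : Set P)).index = p := index_of_not_mem_center h hgZ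
  have hrel : (Subgroup.center P).relIndex
      (Subgroup.centralizer ((Subgroup.centralizer ({x} : Set P) : Subgroup P) : Set P) ⊓
        Subgroup.centralizer ({x} : Set P)) ≤ p := by
    rw [← hinf, Subgroup.inf_relIndex_left]
    calc (Subgroup.centralizer ({g} : Set P)).relIndex _
        ≤ (Subgroup.centralizer ({g} : Set P)).relIndex ⊤ :=
          Subgroup.relIndex_le_of_le_right le_top (by
            rw [Subgroup.relIndex_top_right, hidx]; exact hpp.ne_zero)
      _ = p := by rw [Subgroup.relIndex_top_right, hidx]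
  obtain ⟨n, hn⟩ := IsPGroup.iff_card.mp hP
  have hdvd : (Subgroup.center P).relIndex
      (Subgroup.centralizer ((Subgroup.centralizer ({x} : Set P) : Subgroup P) : Set P) ⊓
        Subgroup.centralizer ({x} : Set P)) ∣ p ^ n := by
    rw [← hn]
    exact dvd_trans (Subgroup.relIndex_dvd_card _ _) (Subgroup.card_subgroup_dvd_card _)
  obtain ⟨j, _, hj⟩ := (Nat.dvd_prime_pow hpp).mp hdvd
  have hmem := (Subgroup.center P).pow_relIndex_mem hxA
  rw [hj] at hmem hrel
  have hj1 : j ≤ 1 := by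
    by_contra hcon
    push Not at hcon
    have h2 : p ^ 2 ≤ p ^ j := Nat.pow_le_pow_right hpp.pos hcon
    have hp2 := hpp.two_le
    nlinarith
  interval_cases j
  · apply hx
    simpa using hmem
  · apply hxp
    simpa using hmem

/-- the case `p = 2` with class size at least `4` -/
theorem sq_mem_center_of_four_le (hP : IsPGroup 2 P) (h : TwoClassSizes P q) (hq : 4 ≤ q)
    (x : P) : x ^ 2 ∈ Subgroup.center P := by
  by_contra hx2
  have hx : x ∉ Subgroup.center P := fun hx => hx2 (Subgroup.pow_mem _ hx 2)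
  have hne : Subgroup.center P ≠ ⊤ := fun hZ => hx (hZ ▸ Subgroup.mem_top x)
  have := Fact.mk Nat.prime_two
  obtain ⟨y0, hy0Z, hy0⟩ := exists_second_center hP hne
  have hker : (kappaHom y0 hy0).ker = Subgroup.centralizer ({y0} : Set P) := kappaHom_ker y0 hy0
  have hout : ∀ g : P, g ∉ (kappaHom y0 hy0).ker → g ^ 2 ∈ Subgroup.center P := by
    intro g hg
    rw [hker] at hg
    exact second_center_facts hP h hy0 g hg
  have hxker : x ∈ (kappaHom y0 hy0).ker := by
    by_contra hcon
    exact hx2 (hout x hcon)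
  have hidx : (kappaHom y0 hy0).ker.index = q := by
    rw [hker]
    exact index_of_not_mem_center h hy0Z
  have hcard : Nat.card (kappaHom y0 hy0).range = q := by
    rw [← Subgroup.index_ker]
    exact hidx
  obtain ⟨g, hg⟩ : ∃ g : P, g ∉ (kappaHom y0 hy0).ker := by
    by_contra hcon
    push Not at hcon
    have h1 : (kappaHom y0 hy0).ker = ⊤ := eq_top_iff.mpr fun g _ => hcon g
    rw [h1, Subgroup.index_top] at hidx
    omega
  obtain ⟨g', hg'1, hg'2⟩ : ∃ g' : P, kappaHom y0 hy0 g' ≠ 1 ∧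
      kappaHom y0 hy0 g' ≠ (kappaHom y0 hy0 g)⁻¹ := by
    by_contra hcon
    push Not at hcon
    have hsub : ∀ w : ↥(kappaHom y0 hy0).range, w = 1 ∨
        w = ⟨(kappaHom y0 hy0 g)⁻¹, (kappaHom y0 hy0).range.inv_mem ⟨g, rfl⟩⟩ := by
      rintro ⟨w, g', rfl⟩
      by_cases h1 : kappaHom y0 hy0 g' = 1
      · left
        exact Subtype.ext h1
      · right
        exact Subtype.ext (hcon g' h1)
    have hle : Nat.card ↥(kappaHom y0 hy0).range ≤ 2 := by
      classical
      have : Fintype ↥(kappaHom y0 hy0).range := Fintype.ofFinite _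
      rw [Nat.card_eq_fintype_card, ← Finset.card_univ]
      calc (Finset.univ : Finset ↥(kappaHom y0 hy0).range).card
          ≤ ({1, ⟨(kappaHom y0 hy0 g)⁻¹, (kappaHom y0 hy0).range.inv_mem ⟨g, rfl⟩⟩} :
              Finset ↥(kappaHom y0 hy0).range).card := by
            apply Finset.card_le_card
            intro w _
            rcases hsub w with h1 | h1 <;> simp [h1]
        _ ≤ 2 := Finset.card_le_two
    omega
  have hg'ker : g' ∉ (kappaHom y0 hy0).ker := fun hc => hg'1 (MonoidHom.mem_ker.mp hc)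
  have hgg'ker : g * g' ∉ (kappaHom y0 hy0).ker := by
    intro hc
    rw [MonoidHom.mem_ker, map_mul] at hc
    exact hg'2 (eq_inv_of_mul_eq_one_right hc)
  have hw : ∀ e : P, e ∉ (kappaHom y0 hy0).ker → e⁻¹ * x * e * x ∈ Subgroup.center P := by
    intro e he
    have h1 := hout e he
    have h2 : e * x ∉ (kappaHom y0 hy0).ker := fun hc => he (by
      have h3 := (kappaHom y0 hy0).ker.mul_mem hc ((kappaHom y0 hy0).ker.inv_mem hxker)
      simpa using h3)
    have h3 := hout (e * x) h2
    have h4 : e⁻¹ * x * e * x = (e ^ 2)⁻¹ * (e * x) ^ 2 := by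
      rw [pow_two, pow_two]
      group
    rw [h4]
    exact Subgroup.mul_mem _ (Subgroup.inv_mem _ h1) h3
  have hw1 := hw g hg
  have hw2 := hw g' hg'ker
  have hw3 := hw (g * g') hgg'ker
  apply hx2
  have hc1 := Subgroup.mem_center_iff.mp hw1
  have hc2 := Subgroup.mem_center_iff.mp (Subgroup.inv_mem _ hw2)
  have key : (g * g')⁻¹ * x * (g * g') * x =
      (g⁻¹ * x * g * x) * (g'⁻¹ * x * g' * x)⁻¹ * (x * x) := by
    calc (g * g')⁻¹ * x * (g * g') * x
        = (g'⁻¹ * (g⁻¹ * x * g * x)) * (x⁻¹ * g' * x) := by group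
      _ = ((g⁻¹ * x * g * x) * g'⁻¹) * (x⁻¹ * g' * x) := by rw [hc1 g'⁻¹]
      _ = (g⁻¹ * x * g * x) * ((x * (g'⁻¹ * x * g' * x)⁻¹) * x) := by group
      _ = (g⁻¹ * x * g * x) * (((g'⁻¹ * x * g' * x)⁻¹ * x) * x) := by rw [hc2 x]
      _ = (g⁻¹ * x * g * x) * (g'⁻¹ * x * g' * x)⁻¹ * (x * x) := by simp only [mul_assoc]
  have h5 : x ^ 2 = (g'⁻¹ * x * g' * x) * (g⁻¹ * x * g * x)⁻¹ *
      ((g * g')⁻¹ * x * (g * g') * x) := by
    rw [key, pow_two]
    group
  rw [h5]
  exact Subgroup.mul_mem _ (Subgroup.mul_mem _ hw2 (Subgroup.inv_mem _ hw1)) hw3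

end TwoClass

end Cfsg.Agent.Helper22
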