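import Cfsg.Agent.Helper22.TwoClass

/-!
# `p`-groups with two conjugacy class sizes, odd case (helper22)
-/

set_option autoImplicit false

namespace Cfsg.Agent.Helper22

section TwoClassOdd

variable {P : Type*} [Group P]

theorem conjEnd_eq_one (C : Subgroup P) [C.Normal] (c : P) (hc : ∀ u ∈ C, u * c = c * u) :
    conjEnd C c = 1 := by
  refine DFunLike.ext _ _ (fun u => Subtype.ext ?_)
  show c⁻¹ * (u : P) * c = (u : P)
  rw [mul_assoc, hc u u.2, inv_mul_cancel_left]

variable [Finite P] {p q : ℕ}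

/-- the case of odd `p` and class size at least `p ^ 2` -/
theorem pow_mem_center_of_odd [Fact p.Prime] (hp2 : p ≠ 2) (hP : IsPGroup p P)
    (h : TwoClassSizes P q) (hq : p ^ 2 ≤ q) (x : P) : x ^ p ∈ Subgroup.center P := by
  classical
  by_contra hxp
  have hpp : p.Prime := Fact.out
  have hp1 : 1 < p := hpp.one_lt
  have hx : x ∉ Subgroup.center P := fun hx => hxp (Subgroup.pow_mem _ hx p)
  have hne : Subgroup.center P ≠ ⊤ := fun hZ => hx (hZ ▸ Subgroup.mem_top x)
  obtain ⟨C, hC⟩ : ∃ C : Subgroup P, C = Subgroup.centralizer ({x} : Set P) := ⟨_, rfl⟩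
  have hmemC : ∀ u : P, u ∈ C ↔ u * x = x * u := by
    intro u
    rw [hC, Subgroup.mem_centralizer_singleton_iff]
  obtain ⟨A, hA⟩ : ∃ A : Subgroup P, A = Subgroup.centralizer (C : Set P) ⊓ C := ⟨_, rfl⟩
  have hmemA : ∀ u : P, u ∈ A ↔ (∀ c ∈ C, c * u = u * c) ∧ u ∈ C := by
    intro u
    rw [hA, Subgroup.mem_inf, Subgroup.mem_centralizer_iff]
    exact Iff.rfl
  have hZC : Subgroup.center P ≤ C := by
    intro z hz
    rw [hmemC]
    exact (Subgroup.mem_center_iff.mp hz x).symm
  have hZA : Subgroup.center P ≤ A := by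
    intro z hz
    rw [hmemA]
    exact ⟨fun c _ => Subgroup.mem_center_iff.mp hz c, hZC hz⟩
  have hxC : x ∈ C := (hmemC x).mpr rfl
  have hxA : x ∈ A := (hmemA x).mpr ⟨fun c hc => (hmemC c).mp hc, hxC⟩
  have hAcent : ∀ u ∈ A, u ∉ Subgroup.center P → Subgroup.centralizer ({u} : Set P) = C := by
    intro u hu huZ
    rw [hC]
    refine (cent_eq_of_le h hx huZ ?_).symm
    intro c hc
    rw [Subgroup.mem_centralizer_singleton_iff]
    rw [← hC] at hc
    exact ((hmemA u).mp hu).1 c hc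
  have hodd : ∀ u : P, u ^ 2 ∈ Subgroup.center P → u ∈ Subgroup.center P := by
    intro u hu
    obtain ⟨k, hk⟩ := hP u
    have hpodd : Odd p := hpp.odd_of_ne_two hp2
    obtain ⟨r, hr⟩ : Odd (p ^ k) := hpodd.pow
    have h1 : u = (u ^ 2) ^ (r + 1) := by
      rw [← pow_mul]
      have h2 : 2 * (r + 1) = p ^ k + 1 := by rw [hr]; ring
      rw [h2, pow_succ, hk, one_mul]
    rw [h1]
    exact Subgroup.pow_mem _ hu _
  have hclaim : ∀ x' ∈ A, x' ^ p ∉ Subgroup.center P → ∀ t ∈ C, t ∉ A → t ^ p ∈ A →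
      x' ^ p * t ^ p ∈ Subgroup.center P := by
    intro x' hx' hx'p t ht htA htp
    by_contra hcon
    apply htA
    have hcomm : Commute x' t := (((hmemA x').mp hx').1 t ht).symm
    have hpow : (x' * t) ^ p = x' ^ p * t ^ p := hcomm.mul_pow p
    have hxtp : (x' * t) ^ p ∉ Subgroup.center P := by rw [hpow]; exact hcon
    have h1 : Subgroup.centralizer ({(x' * t) ^ p} : Set P) =
        Subgroup.centralizer ({x' * t} : Set P) := cent_pow_eq h (x' * t) p hxtp
    have h2 : Subgroup.centralizer ({x' ^ p * t ^ p} : Set P) = C :=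
      hAcent _ (A.mul_mem (A.pow_mem hx' p) htp) hcon
    rw [hpow, h2] at h1
    rw [hmemA]
    refine ⟨fun c hc => ?_, ht⟩
    have h3 : c ∈ Subgroup.centralizer ({x' * t} : Set P) := by rw [← h1]; exact hc
    rw [Subgroup.mem_centralizer_singleton_iff] at h3
    have h4 : c * x' = x' * c := ((hmemA x').mp hx').1 c hc
    have h5 : x' * (c * t) = x' * (t * c) := by
      rw [← mul_assoc, ← h4, mul_assoc, h3, mul_assoc]
    exact mul_left_cancel h5
  have hT : ∀ t ∈ C, t ^ p ∈ A → t ∈ A := by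
    intro t ht htp
    by_contra htA
    have h1 := hclaim x hxA hxp t ht htA htp
    have hx2A : x ^ 2 ∈ A := A.pow_mem hxA 2
    have hx2p : (x ^ 2) ^ p ∉ Subgroup.center P := by
      intro hc
      apply hxp
      apply hodd
      rw [← pow_mul, mul_comm p 2, pow_mul]
      exact hc
    have h2 := hclaim (x ^ 2) hx2A hx2p t ht htA htp
    apply hxp
    have h3 : x ^ p = ((x ^ 2) ^ p * t ^ p) * (x ^ p * t ^ p)⁻¹ := by
      rw [← pow_mul, mul_comm 2 p, pow_mul, pow_two]
      group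
    rw [h3]
    exact Subgroup.mul_mem _ h2 (Subgroup.inv_mem _ h1)
  have hCA : ∀ m : ℕ, ∀ t ∈ C, t ^ p ^ m ∈ A → t ∈ A := by
    intro m
    induction m with
    | zero =>
      intro t _ ht
      simpa using ht
    | succ m ih =>
      intro t ht htm
      apply ih t ht
      apply hT _ (C.pow_mem ht _)
      rw [← pow_mul, ← pow_succ]
      exact htm
  have hCab : ∀ a ∈ C, ∀ b ∈ C, a * b = b * a := by
    intro a ha b hb
    obtain ⟨m, hm⟩ := hP b
    have hbA : b ∈ A := hCA m b hb (by rw [hm]; exact A.one_mem)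
    exact ((hmemA b).mp hbA).1 a ha
  obtain ⟨y0, hy0Z, hy0⟩ := exists_second_center hP hne
  have hker0 : (kappaHom y0 hy0).ker = Subgroup.centralizer ({y0} : Set P) := kappaHom_ker y0 hy0
  have hy0C : y0 ∈ C := by
    by_contra hcon
    apply hxp
    apply second_center_facts hP h hy0 x
    intro hc
    apply hcon
    rw [hmemC]
    rw [Subgroup.mem_centralizer_singleton_iff] at hc
    exact hc.symm
  have hCy0 : C = Subgroup.centralizer ({y0} : Set P) := by
    rw [hC]
    apply cent_eq_of_le h hx hy0Z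
    rw [← hC]
    intro c hc
    rw [Subgroup.mem_centralizer_singleton_iff]
    exact hCab c hc y0 hy0C
  have hker : (kappaHom y0 hy0).ker = C := by rw [hker0, ← hCy0]
  have hCn : C.Normal := by
    rw [← hker]
    infer_instance
  have hout : ∀ g : P, g ∉ C → g ^ p ∈ Subgroup.center P := by
    intro g hg
    rw [hCy0] at hg
    exact second_center_facts hP h hy0 g hg
  have hidx : (kappaHom y0 hy0).ker.index = q := by
    rw [hker0]
    exact index_of_not_mem_center h hy0Z
  have hcard : Nat.card (kappaHom y0 hy0).range = q := by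
    rw [← Subgroup.index_ker]
    exact hidx
  have h4 : 2 ^ 2 ≤ p ^ 2 := Nat.pow_le_pow_left hpp.two_le 2
  obtain ⟨g, hg⟩ : ∃ g : P, g ∉ (kappaHom y0 hy0).ker := by
    by_contra hcon
    push Not at hcon
    have h1 : (kappaHom y0 hy0).ker = ⊤ := eq_top_iff.mpr fun g _ => hcon g
    rw [h1, Subgroup.index_top] at hidx
    omega
  have hgC : g ∉ C := by rw [← hker]; exact hg
  have hkp : ∀ e : P, (kappaHom y0 hy0 e) ^ p = 1 := by
    intro e
    rw [← map_pow]
    by_cases he : e ∈ C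
    · have h1 : e ^ p ∈ (kappaHom y0 hy0).ker := by rw [hker]; exact C.pow_mem he p
      exact MonoidHom.mem_ker.mp h1
    · have h1 : e ^ p ∈ (kappaHom y0 hy0).ker := by rw [hker]; exact hZC (hout e he)
      exact MonoidHom.mem_ker.mp h1
  obtain ⟨g2, hg2⟩ : ∃ g2 : P, kappaHom y0 hy0 g2 ∉ Subgroup.zpowers (kappaHom y0 hy0 g) := by
    by_contra hcon
    push Not at hcon
    have hle : (kappaHom y0 hy0).range ≤ Subgroup.zpowers (kappaHom y0 hy0 g) := by
      rintro _ ⟨e, rfl⟩
      exact hcon e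
    have h1 : Nat.card (kappaHom y0 hy0).range ≤
        Nat.card (Subgroup.zpowers (kappaHom y0 hy0 g)) := Subgroup.card_le_of_le hle
    rw [hcard, Nat.card_zpowers] at h1
    have h2 : orderOf (kappaHom y0 hy0 g) ≤ p := orderOf_le_of_pow_eq_one hpp.pos (hkp g)
    have h5 : p * 2 ≤ p * p := Nat.mul_le_mul_left p hpp.two_le
    have h6 : p ^ 2 = p * p := pow_two p
    omega
  have hgk : ∀ k : ℕ, g ^ k * g2 ∉ C := by
    intro k hk
    rw [← hker, MonoidHom.mem_ker, map_mul, map_pow] at hk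
    apply hg2
    have h1 : kappaHom y0 hy0 g2 = ((kappaHom y0 hy0 g) ^ k)⁻¹ := eq_inv_of_mul_eq_one_right hk
    rw [h1]
    exact Subgroup.inv_mem _ (Subgroup.pow_mem _ (Subgroup.mem_zpowers _) k)
  have hg2C : g2 ∉ C := by
    have h1 := hgk 0
    simpa using h1
  have hcone : ∀ c ∈ C, conjEnd C c = 1 := fun c hc =>
    conjEnd_eq_one C c (fun u hu => hCab u hu c hc)
  have hzone : ∀ z ∈ Subgroup.center P, conjEnd C z = 1 := fun z hz =>
    conjEnd_eq_one C z (fun u _ => Subgroup.mem_center_iff.mp hz u)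
  have hST : Commute (conjEnd C g) (conjEnd C g2) := by
    show conjEnd C g * conjEnd C g2 = conjEnd C g2 * conjEnd C g
    rw [← conjEnd_mul, ← conjEnd_mul]
    have hκ : kappaHom y0 hy0 (g2 * g) = kappaHom y0 hy0 (g * g2) := by
      rw [map_mul, map_mul]
      exact mul_comm' (kappaHom y0 hy0 g2) (kappaHom y0 hy0 g)
    have hc : (g * g2)⁻¹ * (g2 * g) ∈ C := by
      rw [← hker, MonoidHom.mem_ker, map_mul, map_inv, hκ, inv_mul_cancel]
    have h1 : g2 * g = (g * g2) * ((g * g2)⁻¹ * (g2 * g)) := by group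
    rw [h1, conjEnd_mul, hcone _ hc, one_mul]
  have hS : conjEnd C g ^ p = 1 := by
    rw [← conjEnd_pow]
    exact hzone _ (hout g hgC)
  have hZS : ∀ z ∈ (Subgroup.center P).subgroupOf C, (conjEnd C g) z = z := by
    intro z hz
    rw [Subgroup.mem_subgroupOf] at hz
    apply Subtype.ext
    rw [conjEnd_apply, mul_assoc, ← Subgroup.mem_center_iff.mp hz g, inv_mul_cancel_left]
  let _ : CommGroup ↥C := commGroupOfComm C hCab
  have hNe : ∀ e : P, e ∉ C → ∀ u : ↥C,
      ∏ i ∈ Finset.range p, (conjEnd C e ^ i) u ∈ (Subgroup.center P).subgroupOf C := by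
    intro e he u
    rw [Subgroup.mem_subgroupOf]
    have h1 := mul_pow_eq_conj_prod C hCab e u p
    have h2 : e * (u : P) ∉ C := fun hc => he (by
      have h3 := C.mul_mem hc (C.inv_mem u.2)
      simpa using h3)
    have h3 : ((∏ i ∈ Finset.range p, (conjEnd C e ^ i) u : ↥C) : P) =
        (e ^ p)⁻¹ * (e * (u : P)) ^ p := by
      rw [h1]
      exact (inv_mul_cancel_left _ _).symm
    rw [h3]
    exact Subgroup.mul_mem _ (Subgroup.inv_mem _ (hout e he)) (hout _ h2)
  have hN : ∀ (k : ℕ) (u : ↥C),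
      ∏ m ∈ Finset.range p, ((conjEnd C g2 * conjEnd C g ^ k) ^ m) u ∈
        (Subgroup.center P).subgroupOf C := by
    intro k u
    have h1 : conjEnd C g2 * conjEnd C g ^ k = conjEnd C (g ^ k * g2) := by
      rw [conjEnd_mul, conjEnd_pow]
    rw [h1]
    exact hNe _ (hgk k) u
  have hfin := @norm_identity ↥C (commGroupOfComm C hCab) p hpp (conjEnd C g) (conjEnd C g2)
    hST hS ((Subgroup.center P).subgroupOf C) hZS (hNe g hgC) (hNe g2 hg2C) hN ⟨x, hxC⟩
  rw [Subgroup.mem_subgroupOf] at hfin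
  exact hxp hfin

end TwoClassOdd

end Cfsg.Agent.Helper22
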